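import Mathlib
import Cfsg.Agent.H76.SylowBasics

set_option autoImplicit false

namespace Cfsg.Agent.H76

open Subgroup

/-- membership in a conjugate Sylow subgroup -/
theorem mem_smul_sylow_iff {G : Type*} [Group G] {p : ℕ} (a : G) (R : Sylow p G) (y : G) :
    y ∈ a • R ↔ a⁻¹ * y * a ∈ R := by
  show y ∈ ((a • R : Sylow p G) : Subgroup G) ↔ _
  rw [Sylow.coe_subgroup_smul, Subgroup.mem_pointwise_smul_iff_inv_smul_mem]
  simp [MulAut.smul_def]
  rfl

/-- **Brodkey's theorem**: if the Sylow `p`-subgroups of a finite group are abelian, then two of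
them intersect in a subgroup contained in every Sylow `p`-subgroup (namely `O_p(G)`). -/
theorem brodkey {G : Type*} [Group G] [Finite G] {p : ℕ} [Fact p.Prime]
    (hab : ∀ Q : Sylow p G, ∀ a ∈ Q, ∀ b ∈ Q, a * b = b * a) :
    ∃ P Q : Sylow p G, ∀ R : Sylow p G, (P : Subgroup G) ⊓ Q ≤ R := by
  obtain ⟨⟨P, Q⟩, hmin⟩ := Finite.exists_min
    (fun PQ : Sylow p G × Sylow p G => Nat.card ↥((PQ.1 : Subgroup G) ⊓ PQ.2))
  refine ⟨P, Q, ?_⟩
  intro R
  set D : Subgroup G := (P : Subgroup G) ⊓ Q with hD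
  set N : Subgroup G := normalizer (D : Set G) with hN
  have hcent : ∀ R' : Sylow p G, D ≤ R' → (R' : Subgroup G) ≤ N := by
    intro R' hDR' y hy
    apply Subgroup.centralizer_le_normalizer
    rw [Subgroup.mem_centralizer_iff]
    intro d hd
    exact hab R' d (hDR' hd) y hy
  have hPN : (P : Subgroup G) ≤ N := hcent P inf_le_left
  -- a Sylow subgroup of `N` containing `R ⊓ N`
  have hE : IsPGroup p ((R ⊓ N : Subgroup G).subgroupOf N) :=
    (R.isPGroup'.to_le inf_le_left).comap_subtype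
  obtain ⟨S₁, hS₁⟩ := hE.exists_le_sylow
  obtain ⟨x, hx⟩ := MulAction.exists_smul_eq N (P.subtype hPN) S₁
  rw [Sylow.smul_subtype] at hx
  have hRN : (R : Subgroup G) ⊓ N ≤ ((x : G) • P : Sylow p G) := by
    intro y hy
    have h1 : (⟨y, hy.2⟩ : N) ∈ S₁ := hS₁ (Subgroup.mem_subgroupOf.mpr hy)
    rw [← hx] at h1
    exact h1
  -- `x` normalizes `D`
  have hxD : ∀ y : G, (x : G)⁻¹ * y * (x : G) ∈ D ↔ y ∈ D := by
    intro y
    have h1 := (Subgroup.mem_normalizer_iff.mp (N.inv_mem x.2)) y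
    rw [inv_inv] at h1
    exact h1.symm
  have hDQ1 : D ≤ ((x : G) • Q : Sylow p G) := by
    intro y hy
    exact (mem_smul_sylow_iff _ _ _).mpr ((hxD y).mpr hy).2
  have hle : (R : Subgroup G) ⊓ ((x : G) • Q : Sylow p G) ≤ D := by
    intro y hy
    have hyN : y ∈ N := hcent _ hDQ1 hy.2
    have hyP1 : y ∈ ((x : G) • P : Sylow p G) := hRN ⟨hy.1, hyN⟩
    rw [← hxD]
    exact ⟨(mem_smul_sylow_iff _ _ _).mp hyP1, (mem_smul_sylow_iff _ _ _).mp hy.2⟩
  have hcard : Nat.card D ≤ Nat.card ↥((R : Subgroup G) ⊓ ((x : G) • Q : Sylow p G)) :=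
    hmin (R, (x : G) • Q)
  have heq : (R : Subgroup G) ⊓ ((x : G) • Q : Sylow p G) = D :=
    Subgroup.eq_of_le_of_card_ge hle hcard
  rw [← heq]
  exact inf_le_left

end Cfsg.Agent.H76
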