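import Mathlib
import Cfsg.Agent.H28.Coprime
import Cfsg.Agent.H24.InvDecomp
import Cfsg.Agent.H1.BurnsideBasis

set_option autoImplicit false

namespace Cfsg.Agent.H76.ElemEight

/-- An elementary abelian 2-group of order at least 4 acting by conjugation on an odd-order
subgroup: the subgroup is generated by the simultaneous eigen-elements. -/
theorem gen_internal {M : Type*} [Group M] [Finite M] (B X : Subgroup M)
    (hB : Cfsg.IsElementaryAbelian 2 B) (hB4 : 4 ≤ Nat.card B) (hX : Odd (Nat.card X))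
    (hBX : ∀ s ∈ B, ∀ x ∈ X, s * x * s⁻¹ ∈ X) :
    X ≤ Subgroup.closure {x | x ∈ X ∧ ∀ s ∈ B, s * x * s⁻¹ = x ∨ s * x * s⁻¹ = x⁻¹} := by
  have : Fact (Nat.Prime 2) := ⟨Nat.prime_two⟩
  have hBcomm : ∀ s ∈ B, ∀ t ∈ B, s * t = t * s := by
    intro s hs t ht
    exact congrArg Subtype.val ((isMulCommutative_iff.mp hB.1) ⟨s, hs⟩ ⟨t, ht⟩)
  have hnorm : B ≤ Subgroup.normalizer (X : Set M) := by
    intro s hs
    rw [Subgroup.mem_normalizer_iff]
    intro h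
    constructor
    · exact hBX s hs h
    · intro hh
      have h2 := hBX s⁻¹ (inv_mem hs) _ hh
      have e : s⁻¹ * (s * h * s⁻¹) * s⁻¹⁻¹ = h := by group
      rwa [e] at h2
  have h1 := Cfsg.Agent.H28.le_iSup_hyperplane_centralizers 2 B X hB (by norm_num; exact hB4)
    hX.not_two_dvd_nat hnorm
  refine h1.trans (iSup_le ?_)
  rintro ⟨D, hDB, hDrel⟩
  -- an element of `B` outside `D`
  have hidx : (D.subgroupOf B).index = 2 := hDrel
  obtain ⟨a, ha⟩ := Subgroup.index_eq_two_iff.mp hidx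
  have hat : (a : M) ∉ D := by
    intro h
    have h3 := ha 1
    rw [one_mul] at h3
    rcases h3 with ⟨h4, h5⟩ | ⟨h4, h5⟩
    · exact h5 (one_mem _)
    · exact h5 (Subgroup.mem_subgroupOf.mpr h)
  have hcos : ∀ s ∈ B, s ∈ D ∨ s * (a : M) ∈ D := by
    intro s hs
    rcases ha ⟨s, hs⟩ with ⟨h4, -⟩ | ⟨h4, -⟩
    · right; exact Subgroup.mem_subgroupOf.mp h4
    · left; exact Subgroup.mem_subgroupOf.mp h4
  obtain ⟨t, ht⟩ : ∃ t : M, t = (a : M) := ⟨_, rfl⟩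
  have htB : t ∈ B := by rw [ht]; exact a.2
  rw [← ht] at hcos
  have ht2 : t * t = 1 := by
    have h := hB.2 t htB
    rwa [pow_two] at h
  have htinv : t⁻¹ = t := inv_eq_of_mul_eq_one_left ht2
  -- the subgroup `Y`
  obtain ⟨Y, hY⟩ : ∃ Y : Subgroup M, Y = X ⊓ Subgroup.centralizer ((D : Subgroup M) : Set M) :=
    ⟨_, rfl⟩
  have hYodd : Odd (Nat.card Y) := by
    have hle : Y ≤ X := by rw [hY]; exact inf_le_left
    exact hX.of_dvd_nat (Subgroup.card_dvd_of_le hle)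
  have hYnorm : ∀ y ∈ Y, t * y * t⁻¹ ∈ Y := by
    intro y hy
    rw [hY] at hy ⊢
    refine Subgroup.mem_inf.mpr ⟨hBX t htB y (Subgroup.mem_inf.mp hy).1, ?_⟩
    rw [Subgroup.mem_centralizer_iff]
    intro d hd
    have h5 := Subgroup.mem_centralizer_iff.mp (Subgroup.mem_inf.mp hy).2 d hd
    have h6 := hBcomm d (hDB hd) t htB
    have h6' : d * t⁻¹ = t⁻¹ * d := by rw [htinv]; exact h6
    calc d * (t * y * t⁻¹) = (d * t) * y * t⁻¹ := by group
      _ = (t * d) * y * t⁻¹ := by rw [h6]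
      _ = t * (d * y) * t⁻¹ := by group
      _ = t * (y * d) * t⁻¹ := by rw [h5]
      _ = t * y * (d * t⁻¹) := by group
      _ = t * y * (t⁻¹ * d) := by rw [h6']
      _ = t * y * t⁻¹ * d := by group
  obtain ⟨hex, -⟩ := Cfsg.Agent.H24.invDecomp_aux t ht2 Y hYodd hYnorm
  rw [← hY]
  intro y hy
  obtain ⟨u, z, hu, hz, rfl⟩ := hex y hy
  have huY : u ∈ Y := (Subgroup.mem_inf.mp hu).1
  have hut : t * u = u * t :=
    Subgroup.mem_centralizer_iff.mp (Subgroup.mem_inf.mp hu).2 t rfl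
  have hzY : z ∈ Y := hz.1
  have hzt : t * z * t⁻¹ = z⁻¹ := hz.2
  have hcen : ∀ v ∈ Y, ∀ d ∈ D, d * v * d⁻¹ = v := by
    intro v hv d hd
    rw [hY] at hv
    have h5 := Subgroup.mem_centralizer_iff.mp (Subgroup.mem_inf.mp hv).2 d hd
    rw [h5]; group
  have hYX : ∀ v ∈ Y, v ∈ X := by
    intro v hv
    rw [hY] at hv
    exact (Subgroup.mem_inf.mp hv).1
  apply mul_mem
  · apply Subgroup.subset_closure
    refine ⟨hYX u huY, fun s hs => Or.inl ?_⟩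
    rcases hcos s hs with h | h
    · exact hcen u huY s h
    · have h7 := hcen u huY (s * t) h
      calc s * u * s⁻¹ = (s * t) * (t⁻¹ * u * t) * (s * t)⁻¹ := by group
        _ = (s * t) * (t⁻¹ * (u * t)) * (s * t)⁻¹ := by group
        _ = (s * t) * (t⁻¹ * (t * u)) * (s * t)⁻¹ := by rw [hut]
        _ = (s * t) * u * (s * t)⁻¹ := by group
        _ = u := h7
  · apply Subgroup.subset_closure
    refine ⟨hYX z hzY, fun s hs => ?_⟩
    rcases hcos s hs with h | h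
    · left; exact hcen z hzY s h
    · right
      have h7 := hcen z⁻¹ (inv_mem hzY) (s * t) h
      have h8 : t⁻¹ * z * t = z⁻¹ := by
        have e : t⁻¹ * z * t = t * z * t⁻¹ := by rw [htinv]
        rw [e, hzt]
      calc s * z * s⁻¹ = (s * t) * (t⁻¹ * z * t) * (s * t)⁻¹ := by group
        _ = (s * t) * z⁻¹ * (s * t)⁻¹ := by rw [h8]
        _ = z⁻¹ := h7

/-- The same for a group of automorphisms. -/
theorem gen_aut {P : Type*} [Group P] [Finite P] (I : Subgroup (MulAut P))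
    (hI : Cfsg.IsElementaryAbelian 2 I) (hI4 : 4 ≤ Nat.card I) (R : Subgroup P)
    (hR : Odd (Nat.card R)) (hinv : ∀ T ∈ I, ∀ x ∈ R, T x ∈ R) :
    R ≤ Subgroup.closure {x | x ∈ R ∧ ∀ T ∈ I, T x = x ∨ T x = x⁻¹} := by
  let M := P ⋊[MonoidHom.id (MulAut P)] MulAut P
  have : Finite M := Finite.of_equiv _ SemidirectProduct.equivProd.symm
  let ι : P →* M := SemidirectProduct.inl
  let κ : MulAut P →* M := SemidirectProduct.inr
  have hι : Function.Injective ι := SemidirectProduct.inl_injective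
  have hκ : Function.Injective κ := SemidirectProduct.inr_injective
  have hconj : ∀ (T : MulAut P) (x : P), κ T * ι x * (κ T)⁻¹ = ι (T x) := by
    intro T x
    have h := SemidirectProduct.inl_aut (φ := MonoidHom.id (MulAut P)) T x
    rw [map_inv] at h
    exact h.symm
  have hB : Cfsg.IsElementaryAbelian 2 (I.map κ) := by
    refine ⟨IsMulCommutative.of_comm ?_, ?_⟩
    · rintro ⟨a, ha⟩ ⟨b, hb⟩
      obtain ⟨T, hT, rfl⟩ := ha
      obtain ⟨S, hS, rfl⟩ := hb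
      have h := congrArg Subtype.val ((isMulCommutative_iff.mp hI.1) ⟨T, hT⟩ ⟨S, hS⟩)
      apply Subtype.ext
      show κ T * κ S = κ S * κ T
      rw [← map_mul, ← map_mul]
      exact congrArg κ h
    · rintro _ ⟨T, hT, rfl⟩
      rw [← map_pow, hI.2 T hT, map_one]
  have hB4 : 4 ≤ Nat.card (I.map κ) := by
    rw [Subgroup.card_map_of_injective hκ]; exact hI4
  have hX : Odd (Nat.card (R.map ι)) := by
    rw [Subgroup.card_map_of_injective hι]; exact hR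
  have hBX : ∀ s ∈ I.map κ, ∀ x ∈ R.map ι, s * x * s⁻¹ ∈ R.map ι := by
    rintro _ ⟨T, hT, rfl⟩ _ ⟨x, hx, rfl⟩
    rw [hconj]
    exact ⟨T x, hinv T hT x hx, rfl⟩
  have h1 := gen_internal (I.map κ) (R.map ι) hB hB4 hX hBX
  have h2 : Subgroup.closure {y | y ∈ R.map ι ∧
      ∀ s ∈ I.map κ, s * y * s⁻¹ = y ∨ s * y * s⁻¹ = y⁻¹} ≤
      (Subgroup.closure {x | x ∈ R ∧ ∀ T ∈ I, T x = x ∨ T x = x⁻¹}).map ι := by
    rw [Subgroup.closure_le]
    rintro y ⟨⟨x, hx, rfl⟩, hy⟩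
    refine ⟨x, Subgroup.subset_closure ⟨hx, fun T hT => ?_⟩, rfl⟩
    have h3 := hy (κ T) ⟨T, hT, rfl⟩
    rw [hconj, ← map_inv] at h3
    rcases h3 with h3 | h3
    · left; exact hι h3
    · right; exact hι h3
  exact (Subgroup.map_le_map_iff_of_injective hι).mp (h1.trans h2)

/-- `T`-fixed points commute when a commuting involutory automorphism acts on them without
nontrivial fixed points. -/
theorem comm_of_fpf {P : Type*} [Group P] [Finite P] (T C : MulAut P)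
    (hcomm : ∀ x, T (C x) = C (T x)) (hC2 : ∀ x, C (C x) = x)
    (hfpf : ∀ y, T y = y → C y = y → y = 1) (u v : P) (hu : T u = u) (hv : T v = v) :
    u * v = v * u := by
  let D : Subgroup P := (T.toMonoidHom).eqLocus (MonoidHom.id P)
  have hD : ∀ y, y ∈ D ↔ T y = y := fun y => Iff.rfl
  let φ : D →* D := (C.toMonoidHom.comp D.subtype).codRestrict D (fun y => by
    rw [hD]
    show T (C y) = C y
    rw [hcomm, (hD y).mp y.2])
  have hφ : MonoidHom.FixedPointFree φ := by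
    intro y hy
    have h1 : C (y : P) = y := congrArg Subtype.val hy
    exact Subtype.ext (hfpf y ((hD y).mp y.2) h1)
  have hinv : Function.Involutive φ := by
    intro y
    apply Subtype.ext
    show C (C (y : P)) = y
    exact hC2 y
  have h := hφ.commute_all_of_involutive hinv ⟨u, (hD u).mpr hu⟩ ⟨v, (hD v).mpr hv⟩
  exact congrArg Subtype.val h.eq

/-- The fixed points of `T` form a cyclic group. -/
@[reducible] def Cyc {P : Type*} [Group P] (T : MulAut P) : Prop :=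
  ∃ g : P, ∀ x : P, (T x = x ↔ x ∈ Subgroup.zpowers g)

theorem core {P : Type*} [Group P] [Finite P] (p : ℕ) (hp : p.Prime) (hp2 : p ≠ 2)
    (hP : IsPGroup p P) (I : Subgroup (MulAut P)) (hI : Cfsg.IsElementaryAbelian 2 I)
    (hI8 : Nat.card ↥I = 8) (I₀ : Subgroup (MulAut P)) (hI₀ : I₀ < I)
    (hdisj : ∀ T ∈ I₀, T ≠ 1 → Cyc T)
    (hprod : ∀ T ∈ I, ∀ T' ∈ I, T ≠ 1 → T' ≠ 1 → ¬ Cyc T → ¬ Cyc T' → T * T' ∈ I₀) :
    IsMulCommutative P ∧ (∃ a b c : P, Subgroup.closure {a, b, c} = ⊤) ∧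
      (¬ ∃ a b : P, Subgroup.closure {a, b} = ⊤) ∧
      Nat.card {T : MulAut P // T ∈ I ∧ T ≠ 1 ∧ ¬ Cyc T} = 3 ∧
      Subgroup.closure {T : MulAut P | T ∈ I ∧ T ≠ 1 ∧ ¬ Cyc T} = I ∧
      (I₀ : Set (MulAut P)) = {S : MulAut P | ∃ T T' : MulAut P, T ∈ I ∧ T' ∈ I ∧ T ≠ 1 ∧
        T' ≠ 1 ∧ ¬ Cyc T ∧ ¬ Cyc T' ∧ S = T * T'} := by
  classical
  have hpF : Fact p.Prime := ⟨hp⟩
  have hpdvd : ∀ x : P, x ≠ 1 → p ∣ orderOf x := by
    intro x hx1
    obtain ⟨k, hk⟩ := hP x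
    obtain ⟨j, -, hj⟩ := (Nat.dvd_prime_pow hp).mp (orderOf_dvd_of_pow_eq_one hk)
    rcases Nat.eq_zero_or_pos j with rfl | hjpos
    · rw [pow_zero, orderOf_eq_one_iff] at hj; exact absurd hj hx1
    · rw [hj]; exact dvd_pow_self p (by omega)
  have hodd : ∀ x : P, x⁻¹ = x → x = 1 := by
    intro x hx
    by_contra hx1
    have h1 := hpdvd x hx1
    have h2 : x ^ 2 = 1 := by
      rw [pow_two]; nth_rewrite 1 [← hx]; exact inv_mul_cancel x
    have h3 := h1.trans (orderOf_dvd_of_pow_eq_one h2)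
    exact hp2 ((Nat.prime_dvd_prime_iff_eq hp Nat.prime_two).mp h3)
  have hcardodd : ∀ R : Subgroup P, Odd (Nat.card R) := by
    intro R
    obtain ⟨k, hk⟩ := IsPGroup.iff_card.mp (hP.to_subgroup R)
    rw [hk]
    exact (hp.odd_of_ne_two hp2).pow
  have hI1 : ∀ T ∈ I, T * T = 1 := by
    intro T hT
    have h := hI.2 T hT
    rwa [pow_two] at h
  have hI2 : ∀ T ∈ I, ∀ x : P, T (T x) = x := by
    intro T hT x
    have h := congrArg (fun f : MulAut P => f x) (hI1 T hT)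
    simpa using h
  have hIcm : ∀ T ∈ I, ∀ S ∈ I, T * S = S * T := by
    intro T hT S hS
    exact congrArg Subtype.val ((isMulCommutative_iff.mp hI.1) ⟨T, hT⟩ ⟨S, hS⟩)
  have hIc : ∀ T ∈ I, ∀ S ∈ I, ∀ x : P, T (S x) = S (T x) := by
    intro T hT S hS x
    have h := congrArg (fun f : MulAut P => f x) (hIcm T hT S hS)
    simpa using h
  obtain ⟨E, hE⟩ : ∃ E : Set P, E = {x | ∀ T ∈ I, T x = x ∨ T x = x⁻¹} := ⟨_, rfl⟩
  have hEmem : ∀ x, x ∈ E ↔ ∀ T ∈ I, T x = x ∨ T x = x⁻¹ := by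
    intro x; rw [hE]; rfl
  have hgen : ∀ R : Subgroup P, (∀ T ∈ I, ∀ x ∈ R, T x ∈ R) →
      R ≤ Subgroup.closure {x | x ∈ R ∧ x ∈ E} := by
    intro R hR
    have h := gen_aut I hI (by omega) R (hcardodd R) hR
    rw [hE]; exact h
  have hgenTop : Subgroup.closure E = ⊤ := by
    rw [eq_top_iff]
    refine (hgen ⊤ (fun _ _ _ _ => Subgroup.mem_top _)).trans (Subgroup.closure_mono ?_)
    exact fun x hx => hx.2
  have hfixall : ∀ T : MulAut P, (∀ x ∈ E, T x = x) → T = 1 := by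
    intro T hT
    have h : T.toMonoidHom = MonoidHom.id P :=
      MonoidHom.eq_of_eqOn_dense hgenTop (fun z hz => hT z hz)
    ext y
    exact congrArg (fun f : P →* P => f y) h
  have SR : ∀ x ∈ E, x ≠ 1 → ∀ T ∈ I, ∀ S ∈ I, ((T * S) x = x ↔ (T x = x ↔ S x = x)) := by
    intro x hx hx1 T hT S hS
    have hne : x⁻¹ ≠ x := fun h => hx1 (hodd x h)
    rw [MulAut.mul_apply]
    rcases (hEmem x).mp hx T hT with h1 | h1 <;> rcases (hEmem x).mp hx S hS with h2 | h2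
    · rw [h2, h1]; simp
    · rw [h2, map_inv, h1]; simp [hne]
    · rw [h2, h1]; simp [hne]
    · rw [h2, map_inv, h1, inv_inv]; simp
  have hmove : ∀ T ∈ I, T ≠ 1 → ∃ x ∈ E, T x ≠ x ∧ x ≠ 1 := by
    intro T hT hT1
    by_contra hcon
    push Not at hcon
    apply hT1
    apply hfixall
    intro x hx
    by_contra h
    have h2 := hcon x hx h
    rw [h2, map_one] at h; exact h rfl
  have NC : ∀ T ∈ I, ∀ S ∈ I, ∀ x ∈ E, ∀ y ∈ E, x ≠ 1 → y ≠ 1 → T x = x → T y = y →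
      S x = x → S y ≠ y → ¬ Cyc T := by
    rintro T hT S hS x hx y hy hx1 hy1 hTx hTy hSx hSy ⟨g, hg⟩
    have hSy' : S y = y⁻¹ := ((hEmem y).mp hy S hS).resolve_left hSy
    obtain ⟨i, hi⟩ := Subgroup.mem_zpowers_iff.mp ((hg x).mp hTx)
    obtain ⟨j, hj⟩ := Subgroup.mem_zpowers_iff.mp ((hg y).mp hTy)
    have hTg : T g = g := (hg g).mpr (Subgroup.mem_zpowers g)
    have hSg : S g ∈ Subgroup.zpowers g := (hg (S g)).mp (by rw [hIc T hT S hS, hTg])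
    obtain ⟨m, hm⟩ := Subgroup.mem_zpowers_iff.mp hSg
    have hSpow : ∀ k : ℤ, S (g ^ k) = (g ^ k) ^ m := by
      intro k
      rw [map_zpow, ← hm, ← zpow_mul, ← zpow_mul, mul_comm]
    have e1 : x ^ (m - 1) = 1 := by
      have h := hSpow i
      rw [hi, hSx] at h
      rw [zpow_sub, zpow_one, ← h, mul_inv_cancel]
    have e2 : y ^ (m + 1) = 1 := by
      have h := hSpow j
      rw [hj, hSy'] at h
      rw [zpow_add, zpow_one, ← h, inv_mul_cancel]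
    have d1 : (p : ℤ) ∣ m - 1 :=
      (Int.natCast_dvd_natCast.mpr (hpdvd x hx1)).trans (orderOf_dvd_iff_zpow_eq_one.mpr e1)
    have d2 : (p : ℤ) ∣ m + 1 :=
      (Int.natCast_dvd_natCast.mpr (hpdvd y hy1)).trans (orderOf_dvd_iff_zpow_eq_one.mpr e2)
    have d3 : (p : ℤ) ∣ 2 := by
      have h := dvd_sub d2 d1
      have e : m + 1 - (m - 1) = 2 := by ring
      rwa [e] at h
    have d4 : p ∣ 2 := by exact_mod_cast d3
    exact hp2 ((Nat.prime_dvd_prime_iff_eq hp Nat.prime_two).mp d4)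
  -- a nontrivial element
  obtain ⟨Ta, hTaI, hTa1⟩ : ∃ T ∈ I, T ≠ 1 := by
    by_contra hcon
    push Not at hcon
    have h1 : Nat.card ↥I ≤ 1 := by
      rw [Finite.card_le_one_iff_subsingleton]
      exact ⟨fun a b => Subtype.ext (by rw [hcon a a.2, hcon b b.2])⟩
    omega
  have hFI : Fintype ↥I := Fintype.ofFinite _
  have hcardI : Fintype.card ↥I = 8 := by rw [← Nat.card_eq_fintype_card, hI8]
  have hprodne : ∀ A ∈ I, ∀ B ∈ I, A ≠ B → A * B ≠ 1 := by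
    intro A hA B hB hAB h
    apply hAB
    calc A = A * (B * B) := by rw [hI1 B hB, mul_one]
      _ = (A * B) * B := by rw [mul_assoc]
      _ = B := by rw [h, one_mul]
  obtain ⟨x₁, hx₁E, hTax₁, hx₁1⟩ := hmove Ta hTaI hTa1
  have SR1 := SR x₁ hx₁E hx₁1
  obtain ⟨S, hSI, hS1, hSx₁⟩ : ∃ S ∈ I, S ≠ 1 ∧ S x₁ = x₁ := by
    have hc : Fintype.card Bool < Fintype.card ↥I := by rw [hcardI]; simp
    obtain ⟨A, B, hAB, hf⟩ := Fintype.exists_ne_map_eq_of_card_lt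
      (fun T : ↥I => decide ((T : MulAut P) x₁ = x₁)) hc
    refine ⟨A.1 * B.1, mul_mem A.2 B.2,
      hprodne A.1 A.2 B.1 B.2 (fun h => hAB (Subtype.ext h)), ?_⟩
    rw [SR1 A.1 A.2 B.1 B.2]
    simpa using hf
  obtain ⟨x₂, hx₂E, hSx₂, hx₂1⟩ := hmove S hSI hS1
  have SR2 := SR x₂ hx₂E hx₂1
  obtain ⟨T₃, hT₃I, hT₃1, h31, h32⟩ : ∃ T ∈ I, T ≠ 1 ∧ T x₁ = x₁ ∧ T x₂ = x₂ := by
    have hc : Fintype.card (Bool × Bool) < Fintype.card ↥I := by rw [hcardI]; simp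
    obtain ⟨A, B, hAB, hf⟩ := Fintype.exists_ne_map_eq_of_card_lt
      (fun T : ↥I => (decide ((T : MulAut P) x₁ = x₁), decide ((T : MulAut P) x₂ = x₂))) hc
    have hf1 := congrArg Prod.fst hf
    have hf2 := congrArg Prod.snd hf
    refine ⟨A.1 * B.1, mul_mem A.2 B.2,
      hprodne A.1 A.2 B.1 B.2 (fun h => hAB (Subtype.ext h)), ?_, ?_⟩
    · rw [SR1 A.1 A.2 B.1 B.2]; simpa using hf1
    · rw [SR2 A.1 A.2 B.1 B.2]; simpa using hf2
  obtain ⟨x₃, hx₃E, h33, hx₃1⟩ := hmove T₃ hT₃I hT₃1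
  have SR3 := SR x₃ hx₃E hx₃1
  obtain ⟨T₂, hT₂I, h21, h22, h23⟩ : ∃ T ∈ I, T x₁ = x₁ ∧ T x₂ ≠ x₂ ∧ T x₃ = x₃ := by
    by_cases h : S x₃ = x₃
    · exact ⟨S, hSI, hSx₁, hSx₂, h⟩
    · refine ⟨S * T₃, mul_mem hSI hT₃I, ?_, ?_, ?_⟩
      · rw [SR1 S hSI T₃ hT₃I]; exact iff_of_true hSx₁ h31
      · intro h'; rw [SR2 S hSI T₃ hT₃I] at h'; exact hSx₂ (h'.mpr h32)
      · rw [SR3 S hSI T₃ hT₃I]; exact iff_of_false h h33
  obtain ⟨T₁, hT₁I, h11, h12, h13⟩ : ∃ T ∈ I, T x₁ ≠ x₁ ∧ T x₂ = x₂ ∧ T x₃ = x₃ := by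
    obtain ⟨U, hUI, hU1, hU2⟩ : ∃ U ∈ I, U x₁ ≠ x₁ ∧ U x₂ = x₂ := by
      by_cases h : Ta x₂ = x₂
      · exact ⟨Ta, hTaI, hTax₁, h⟩
      · refine ⟨Ta * T₂, mul_mem hTaI hT₂I, ?_, ?_⟩
        · intro h'; rw [SR1 Ta hTaI T₂ hT₂I] at h'; exact hTax₁ (h'.mpr h21)
        · rw [SR2 Ta hTaI T₂ hT₂I]; exact iff_of_false h h22
    by_cases h : U x₃ = x₃
    · exact ⟨U, hUI, hU1, hU2, h⟩
    · refine ⟨U * T₃, mul_mem hUI hT₃I, ?_, ?_, ?_⟩
      · intro h'; rw [SR1 U hUI T₃ hT₃I] at h'; exact hU1 (h'.mpr h31)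
      · rw [SR2 U hUI T₃ hT₃I]; exact iff_of_true hU2 h32
      · rw [SR3 U hUI T₃ hT₃I]; exact iff_of_false h h33
  have hcI : T₁ * T₂ ∈ I := mul_mem hT₁I hT₂I
  have hbI : T₁ * T₃ ∈ I := mul_mem hT₁I hT₃I
  have haI : T₂ * T₃ ∈ I := mul_mem hT₂I hT₃I
  have hwI : T₁ * T₂ * T₃ ∈ I := mul_mem hcI hT₃I
  have pc1 : (T₁ * T₂) x₁ ≠ x₁ := by
    intro h'; rw [SR1 T₁ hT₁I T₂ hT₂I] at h'; exact h11 (h'.mpr h21)
  have pc2 : (T₁ * T₂) x₂ ≠ x₂ := by
    intro h'; rw [SR2 T₁ hT₁I T₂ hT₂I] at h'; exact h22 (h'.mp h12)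
  have pc3 : (T₁ * T₂) x₃ = x₃ := by
    rw [SR3 T₁ hT₁I T₂ hT₂I]; exact iff_of_true h13 h23
  have pb1 : (T₁ * T₃) x₁ ≠ x₁ := by
    intro h'; rw [SR1 T₁ hT₁I T₃ hT₃I] at h'; exact h11 (h'.mpr h31)
  have pb2 : (T₁ * T₃) x₂ = x₂ := by
    rw [SR2 T₁ hT₁I T₃ hT₃I]; exact iff_of_true h12 h32
  have pb3 : (T₁ * T₃) x₃ ≠ x₃ := by
    intro h'; rw [SR3 T₁ hT₁I T₃ hT₃I] at h'; exact h33 (h'.mp h13)
  have pa1 : (T₂ * T₃) x₁ = x₁ := by
    rw [SR1 T₂ hT₂I T₃ hT₃I]; exact iff_of_true h21 h31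
  have pa2 : (T₂ * T₃) x₂ ≠ x₂ := by
    intro h'; rw [SR2 T₂ hT₂I T₃ hT₃I] at h'; exact h22 (h'.mpr h32)
  have pa3 : (T₂ * T₃) x₃ ≠ x₃ := by
    intro h'; rw [SR3 T₂ hT₂I T₃ hT₃I] at h'; exact h33 (h'.mp h23)
  have pw1 : (T₁ * T₂ * T₃) x₁ ≠ x₁ := by
    intro h'; rw [SR1 _ hcI T₃ hT₃I] at h'; exact pc1 (h'.mpr h31)
  have pw2 : (T₁ * T₂ * T₃) x₂ ≠ x₂ := by
    intro h'; rw [SR2 _ hcI T₃ hT₃I] at h'; exact pc2 (h'.mpr h32)
  have pw3 : (T₁ * T₂ * T₃) x₃ ≠ x₃ := by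
    intro h'; rw [SR3 _ hcI T₃ hT₃I] at h'; exact h33 (h'.mp pc3)
  have nc1 : ¬ Cyc T₁ := NC T₁ hT₁I T₂ hT₂I x₃ hx₃E x₂ hx₂E hx₃1 hx₂1 h13 h12 h23 h22
  have nc2 : ¬ Cyc T₂ := NC T₂ hT₂I T₁ hT₁I x₃ hx₃E x₁ hx₁E hx₃1 hx₁1 h23 h21 h13 h11
  have nc3 : ¬ Cyc T₃ := NC T₃ hT₃I T₁ hT₁I x₂ hx₂E x₁ hx₁E hx₂1 hx₁1 h32 h31 h12 h11
  have ne1 : T₁ ≠ 1 := fun h => h11 (by rw [h]; rfl)
  have ne2 : T₂ ≠ 1 := fun h => h22 (by rw [h]; rfl)
  have ne3 : T₃ ≠ 1 := hT₃1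
  have t12 : T₁ ≠ T₂ := fun h => h11 (by rw [h]; exact h21)
  have t13 : T₁ ≠ T₃ := fun h => h11 (by rw [h]; exact h31)
  have t23 : T₂ ≠ T₃ := fun h => h22 (by rw [h]; exact h32)
  have hc0 : T₁ * T₂ ∈ I₀ := hprod T₁ hT₁I T₂ hT₂I ne1 ne2 nc1 nc2
  have hb0 : T₁ * T₃ ∈ I₀ := hprod T₁ hT₁I T₃ hT₃I ne1 ne3 nc1 nc3
  have ha0 : T₂ * T₃ ∈ I₀ := hprod T₂ hT₂I T₃ hT₃I ne2 ne3 nc2 nc3
  have cyc_c : Cyc (T₁ * T₂) := hdisj _ hc0 (fun h => pc1 (by rw [h]; rfl))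
  have cyc_b : Cyc (T₁ * T₃) := hdisj _ hb0 (fun h => pb1 (by rw [h]; rfl))
  have cyc_a : Cyc (T₂ * T₃) := hdisj _ ha0 (fun h => pa2 (by rw [h]; rfl))
  have KL0 : ∀ A ∈ I, Cyc A → ∀ x ∈ E, ∀ y ∈ E, x ≠ 1 → y ≠ 1 → A x = x → A y = y →
      ∀ S ∈ I, (S x = x ↔ S y = y) := by
    intro A hA hAc x hx y hy hx1 hy1 hAx hAy S hS
    constructor
    · intro h
      by_contra h'
      exact NC A hA S hS x hx y hy hx1 hy1 hAx hAy h h' hAc
    · intro h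
      by_contra h'
      exact NC A hA S hS y hy x hx hy1 hx1 hAy hAx h h' hAc
  have KLd : ∀ x ∈ E, x ≠ 1 → (T₂ * T₃) x = x ∨ (T₁ * T₃) x = x ∨ (T₁ * T₂) x = x := by
    intro x hx hx1
    rw [SR x hx hx1 T₂ hT₂I T₃ hT₃I, SR x hx hx1 T₁ hT₁I T₃ hT₃I, SR x hx hx1 T₁ hT₁I T₂ hT₂I]
    by_cases e1 : T₁ x = x <;> by_cases e2 : T₂ x = x <;> by_cases e3 : T₃ x = x <;>
      simp [e1, e2, e3]
  have KLe : ∀ x ∈ E, x ≠ 1 → (∀ S ∈ I, (S x = x ↔ S x₁ = x₁)) ∨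
      (∀ S ∈ I, (S x = x ↔ S x₂ = x₂)) ∨ (∀ S ∈ I, (S x = x ↔ S x₃ = x₃)) := by
    intro x hx hx1
    rcases KLd x hx hx1 with h | h | h
    · left; exact KL0 _ haI cyc_a x hx x₁ hx₁E hx1 hx₁1 h pa1
    · right; left; exact KL0 _ hbI cyc_b x hx x₂ hx₂E hx1 hx₂1 h pb2
    · right; right; exact KL0 _ hcI cyc_c x hx x₃ hx₃E hx1 hx₃1 h pc3
  have TRIV : ∀ U ∈ I, U x₁ = x₁ → U x₂ = x₂ → U x₃ = x₃ → U = 1 := by
    intro U hU u1 u2 u3
    apply hfixall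
    intro x hx
    by_cases hx1 : x = 1
    · rw [hx1, map_one]
    · rcases KLe x hx hx1 with h | h | h
      · exact (h U hU).mpr u1
      · exact (h U hU).mpr u2
      · exact (h U hU).mpr u3
  have EQ : ∀ T ∈ I, ∀ U ∈ I, (T x₁ = x₁ ↔ U x₁ = x₁) → (T x₂ = x₂ ↔ U x₂ = x₂) →
      (T x₃ = x₃ ↔ U x₃ = x₃) → T = U := by
    intro T hT U hU e1 e2 e3
    have h := TRIV (T * U) (mul_mem hT hU) ((SR1 T hT U hU).mpr e1) ((SR2 T hT U hU).mpr e2)
      ((SR3 T hT U hU).mpr e3)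
    calc T = T * (U * U) := by rw [hI1 U hU, mul_one]
      _ = (T * U) * U := by rw [mul_assoc]
      _ = U := by rw [h, one_mul]
  have CLASS : ∀ T ∈ I, T = 1 ∨ T = T₁ ∨ T = T₂ ∨ T = T₃ ∨ T = T₁ * T₂ ∨ T = T₁ * T₃ ∨
      T = T₂ * T₃ ∨ T = T₁ * T₂ * T₃ := by
    intro T hT
    have one1 : (1 : MulAut P) x₁ = x₁ := rfl
    have one2 : (1 : MulAut P) x₂ = x₂ := rfl
    have one3 : (1 : MulAut P) x₃ = x₃ := rfl
    by_cases e1 : T x₁ = x₁ <;> by_cases e2 : T x₂ = x₂ <;> by_cases e3 : T x₃ = x₃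
    · left
      exact EQ T hT 1 (one_mem I) (iff_of_true e1 one1) (iff_of_true e2 one2)
        (iff_of_true e3 one3)
    · right; right; right; left
      exact EQ T hT T₃ hT₃I (iff_of_true e1 h31) (iff_of_true e2 h32) (iff_of_false e3 h33)
    · right; right; left
      exact EQ T hT T₂ hT₂I (iff_of_true e1 h21) (iff_of_false e2 h22) (iff_of_true e3 h23)
    · right; right; right; right; right; right; left
      exact EQ T hT _ haI (iff_of_true e1 pa1) (iff_of_false e2 pa2) (iff_of_false e3 pa3)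
    · right; left
      exact EQ T hT T₁ hT₁I (iff_of_false e1 h11) (iff_of_true e2 h12) (iff_of_true e3 h13)
    · right; right; right; right; right; left
      exact EQ T hT _ hbI (iff_of_false e1 pb1) (iff_of_true e2 pb2) (iff_of_false e3 pb3)
    · right; right; right; right; left
      exact EQ T hT _ hcI (iff_of_false e1 pc1) (iff_of_false e2 pc2) (iff_of_true e3 pc3)
    · right; right; right; right; right; right; right
      exact EQ T hT _ hwI (iff_of_false e1 pw1) (iff_of_false e2 pw2) (iff_of_false e3 pw3)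
  have cyc_w : Cyc (T₁ * T₂ * T₃) := by
    have hR : ∀ y : P, (T₁ * T₂ * T₃) y = y → y = 1 := by
      let R : Subgroup P := ((T₁ * T₂ * T₃ : MulAut P).toMonoidHom).eqLocus (MonoidHom.id P)
      have hRm : ∀ y, y ∈ R ↔ (T₁ * T₂ * T₃) y = y := fun y => Iff.rfl
      have hRinv : ∀ T ∈ I, ∀ x ∈ R, T x ∈ R := by
        intro T hT x hx
        rw [hRm] at hx ⊢
        rw [hIc _ hwI T hT, hx]
      have h1 := hgen R hRinv
      have h2 : Subgroup.closure {x | x ∈ R ∧ x ∈ E} ≤ ⊥ := by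
        rw [Subgroup.closure_le]
        rintro x ⟨hxR, hxE⟩
        rw [hRm] at hxR
        show x ∈ (⊥ : Subgroup P)
        rw [Subgroup.mem_bot]
        by_contra hx1
        rcases KLe x hxE hx1 with h | h | h
        · exact pw1 ((h _ hwI).mp hxR)
        · exact pw2 ((h _ hwI).mp hxR)
        · exact pw3 ((h _ hwI).mp hxR)
      intro y hy
      exact Subgroup.mem_bot.mp (h2 (h1 ((hRm y).mpr hy)))
    refine ⟨1, fun x => ⟨fun h => ?_, fun h => ?_⟩⟩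
    · rw [hR x h]; exact one_mem _
    · rw [Subgroup.zpowers_one_eq_bot, Subgroup.mem_bot] at h
      rw [h, map_one]
  have h10 : T₁ ∉ I₀ := fun h => nc1 (hdisj T₁ h ne1)
  have h20 : T₂ ∉ I₀ := fun h => nc2 (hdisj T₂ h ne2)
  have h30 : T₃ ∉ I₀ := fun h => nc3 (hdisj T₃ h ne3)
  have hw0 : T₁ * T₂ * T₃ ∉ I₀ := by
    intro h
    have h2 : (T₁ * T₂ * T₃) * (T₂ * T₃) ∈ I₀ := mul_mem h ha0
    have h3 : (T₁ * T₂ * T₃) * (T₂ * T₃) = T₁ := EQ _ (mul_mem hwI haI) T₁ hT₁I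
      (by rw [SR1 _ hwI _ haI]; exact iff_of_false (fun h => pw1 (h.mpr pa1)) h11)
      (by rw [SR2 _ hwI _ haI]; exact iff_of_true (iff_of_false pw2 pa2) h12)
      (by rw [SR3 _ hwI _ haI]; exact iff_of_true (iff_of_false pw3 pa3) h13)
    rw [h3] at h2
    exact h10 h2
  have EIG : ∀ A ∈ I, Cyc A → ∀ x₀ ∈ E, x₀ ≠ 1 → A x₀ = x₀ → ∀ y, A y = y →
      ∀ S ∈ I, (S x₀ = x₀ → S y = y) ∧ (S x₀ ≠ x₀ → S y = y⁻¹) := by
    intro A hA hAc x₀ hx₀ hx₀1 hAx₀ y hAy S hS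
    obtain ⟨g, hg⟩ := id hAc
    let R : Subgroup P := (A.toMonoidHom).eqLocus (MonoidHom.id P)
    have hRm : ∀ y, y ∈ R ↔ A y = y := fun y => Iff.rfl
    have hRinv : ∀ T ∈ I, ∀ x ∈ R, T x ∈ R := by
      intro T hT x hx
      rw [hRm] at hx ⊢
      rw [hIc A hA T hT, hx]
    have h1 := hgen R hRinv ((hRm y).mpr hAy)
    have key : ∀ z ∈ Subgroup.closure {x | x ∈ R ∧ x ∈ E},
        A z = z ∧ (S x₀ = x₀ → S z = z) ∧ (S x₀ ≠ x₀ → S z = z⁻¹) := by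
      intro z hz
      induction hz using Subgroup.closure_induction with
      | mem x hx =>
        obtain ⟨hxR, hxE⟩ := hx
        rw [hRm] at hxR
        refine ⟨hxR, ?_, ?_⟩
        · intro h
          by_cases hx1 : x = 1
          · rw [hx1, map_one]
          · exact (KL0 A hA hAc x hxE x₀ hx₀ hx1 hx₀1 hxR hAx₀ S hS).mpr h
        · intro h
          by_cases hx1 : x = 1
          · rw [hx1, map_one, inv_one]
          · have h2 : S x ≠ x := fun h3 =>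
              h ((KL0 A hA hAc x hxE x₀ hx₀ hx1 hx₀1 hxR hAx₀ S hS).mp h3)
            exact ((hEmem x).mp hxE S hS).resolve_left h2
      | one => simp
      | mul u v _ _ hu hv =>
        refine ⟨by rw [map_mul, hu.1, hv.1], fun h => by rw [map_mul, hu.2.1 h, hv.2.1 h],
          fun h => ?_⟩
        rw [map_mul, hu.2.2 h, hv.2.2 h, mul_inv_rev]
        obtain ⟨i, hi⟩ := Subgroup.mem_zpowers_iff.mp ((hg u).mp hu.1)
        obtain ⟨j, hj⟩ := Subgroup.mem_zpowers_iff.mp ((hg v).mp hv.1)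
        rw [← hi, ← hj, ← zpow_neg, ← zpow_neg, ← zpow_add, ← zpow_add, add_comm]
      | inv u _ hu =>
        exact ⟨by rw [map_inv, hu.1], fun h => by rw [map_inv, hu.2.1 h],
          fun h => by rw [map_inv, hu.2.2 h]⟩
    exact (key y h1).2
  obtain ⟨g₁, hg₁⟩ := id cyc_a
  obtain ⟨g₂, hg₂⟩ := id cyc_b
  obtain ⟨g₃, hg₃⟩ := id cyc_c
  have ag₁ : (T₂ * T₃) g₁ = g₁ := (hg₁ g₁).mpr (Subgroup.mem_zpowers g₁)
  have bg₂ : (T₁ * T₃) g₂ = g₂ := (hg₂ g₂).mpr (Subgroup.mem_zpowers g₂)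
  have cg₃ : (T₁ * T₂) g₃ = g₃ := (hg₃ g₃).mpr (Subgroup.mem_zpowers g₃)
  have Ea := fun y (hy : (T₂ * T₃) y = y) => EIG _ haI cyc_a x₁ hx₁E hx₁1 pa1 y hy
  have Eb := fun y (hy : (T₁ * T₃) y = y) => EIG _ hbI cyc_b x₂ hx₂E hx₂1 pb2 y hy
  have Ec := fun y (hy : (T₁ * T₂) y = y) => EIG _ hcI cyc_c x₃ hx₃E hx₃1 pc3 y hy
  have g1_2 : T₂ g₁ = g₁ := (Ea g₁ ag₁ T₂ hT₂I).1 h21
  have g1_3 : T₃ g₁ = g₁ := (Ea g₁ ag₁ T₃ hT₃I).1 h31
  have g1_1 : T₁ g₁ = g₁⁻¹ := (Ea g₁ ag₁ T₁ hT₁I).2 h11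
  have g2_1 : T₁ g₂ = g₂ := (Eb g₂ bg₂ T₁ hT₁I).1 h12
  have g2_3 : T₃ g₂ = g₂ := (Eb g₂ bg₂ T₃ hT₃I).1 h32
  have g2_2 : T₂ g₂ = g₂⁻¹ := (Eb g₂ bg₂ T₂ hT₂I).2 h22
  have g3_1 : T₁ g₃ = g₃ := (Ec g₃ cg₃ T₁ hT₁I).1 h13
  have g3_2 : T₂ g₃ = g₃ := (Ec g₃ cg₃ T₂ hT₂I).1 h23
  have g3_3 : T₃ g₃ = g₃⁻¹ := (Ec g₃ cg₃ T₃ hT₃I).2 h33
  have c12 : g₁ * g₂ = g₂ * g₁ :=
    comm_of_fpf T₃ (T₁ * T₂) (fun x => hIc T₃ hT₃I _ hcI x) (hI2 _ hcI)
      (fun y h1 h2 => hodd y (((Ec y h2 T₃ hT₃I).2 h33).symm.trans h1)) g₁ g₂ g1_3 g2_3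
  have c13 : g₁ * g₃ = g₃ * g₁ :=
    comm_of_fpf T₂ (T₁ * T₃) (fun x => hIc T₂ hT₂I _ hbI x) (hI2 _ hbI)
      (fun y h1 h2 => hodd y (((Eb y h2 T₂ hT₂I).2 h22).symm.trans h1)) g₁ g₃ g1_2 g3_2
  have c23 : g₂ * g₃ = g₃ * g₂ :=
    comm_of_fpf T₁ (T₂ * T₃) (fun x => hIc T₁ hT₁I _ haI x) (hI2 _ haI)
      (fun y h1 h2 => hodd y (((Ea y h2 T₁ hT₁I).2 h11).symm.trans h1)) g₂ g₃ g2_1 g3_1
  have htop : Subgroup.closure ({g₁, g₂, g₃} : Set P) = ⊤ := by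
    rw [eq_top_iff, ← hgenTop, Subgroup.closure_le]
    intro x hx
    by_cases hx1 : x = 1
    · rw [hx1]; exact one_mem _
    · rcases KLd x hx hx1 with h | h | h
      · exact (Subgroup.zpowers_le.mpr (Subgroup.subset_closure (by simp))) ((hg₁ x).mp h)
      · exact (Subgroup.zpowers_le.mpr (Subgroup.subset_closure (by simp))) ((hg₂ x).mp h)
      · exact (Subgroup.zpowers_le.mpr (Subgroup.subset_closure (by simp))) ((hg₃ x).mp h)
  have hPcomm : ∀ x y : P, x * y = y * x := by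
    have hS : ∀ x ∈ ({g₁, g₂, g₃} : Set P), ∀ y ∈ ({g₁, g₂, g₃} : Set P), x * y = y * x := by
      intro x hx y hy
      simp only [Set.mem_insert_iff, Set.mem_singleton_iff] at hx hy
      rcases hx with rfl | rfl | rfl <;> rcases hy with rfl | rfl | rfl <;>
        first | rfl | assumption | (symm; assumption)
    have hcl : IsMulCommutative ↥(Subgroup.closure ({g₁, g₂, g₃} : Set P)) :=
      Subgroup.isMulCommutative_closure hS
    intro x y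
    have hx : x ∈ Subgroup.closure ({g₁, g₂, g₃} : Set P) := by rw [htop]; trivial
    have hy : y ∈ Subgroup.closure ({g₁, g₂, g₃} : Set P) := by rw [htop]; trivial
    exact congrArg Subtype.val ((isMulCommutative_iff.mp hcl) ⟨x, hx⟩ ⟨y, hy⟩)
  have hnot2 : ¬ ∃ a b : P, Subgroup.closure {a, b} = ⊤ := by
    rintro ⟨u, v, huv⟩
    obtain ⟨n, hn⟩ := hP.index (frattini P)
    obtain ⟨bb1, bb2⟩ := Cfsg.Agent.H1.burnside_basis p n hP hn
    have hn2 : n ≤ 2 := by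
      have h := bb2 {u, v} (by rw [Finset.coe_insert, Finset.coe_singleton]; exact huv)
      exact h.trans Finset.card_le_two
    obtain ⟨T', hT'sub, hT'card, hT'top⟩ := bb1 {g₁, g₂, g₃} (by
      rw [Finset.coe_insert, Finset.coe_insert, Finset.coe_singleton]; exact htop)
    have hg₁1 : g₁ ≠ 1 := by
      intro h
      have h2 := (hg₁ x₁).mp pa1
      rw [h, Subgroup.zpowers_one_eq_bot, Subgroup.mem_bot] at h2
      exact hx₁1 h2
    have hg₂1 : g₂ ≠ 1 := by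
      intro h
      have h2 := (hg₂ x₂).mp pb2
      rw [h, Subgroup.zpowers_one_eq_bot, Subgroup.mem_bot] at h2
      exact hx₂1 h2
    have d12 : g₁ ≠ g₂ := by
      intro h
      have h2 : T₁ g₁ = g₁ := by rw [h]; exact g2_1
      rw [g1_1] at h2
      exact hg₁1 (hodd g₁ h2)
    have d13 : g₁ ≠ g₃ := by
      intro h
      have h2 : T₁ g₁ = g₁ := by rw [h]; exact g3_1
      rw [g1_1] at h2
      exact hg₁1 (hodd g₁ h2)
    have d23 : g₂ ≠ g₃ := by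
      intro h
      have h2 : T₂ g₂ = g₂ := by rw [h]; exact g3_2
      rw [g2_2] at h2
      exact hg₂1 (hodd g₂ h2)
    have hex : ∃ g ∈ ({g₁, g₂, g₃} : Finset P), g ∉ T' := by
      by_contra hcon
      push Not at hcon
      have h3 : ({g₁, g₂, g₃} : Finset P).card ≤ T'.card := Finset.card_le_card hcon
      have h4 : ({g₁, g₂, g₃} : Finset P).card = 3 :=
        Finset.card_eq_three.mpr ⟨g₁, g₂, g₃, d12, d13, d23, rfl⟩
      omega
    obtain ⟨g, hg, hgT'⟩ := hex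
    have hfix : ∀ (T : MulAut P), (∀ t ∈ T', T t = t) → T = 1 := by
      intro T hT
      have h : T.toMonoidHom = MonoidHom.id P :=
        MonoidHom.eq_of_eqOn_dense hT'top (fun z hz => hT z (Finset.mem_coe.mp hz))
      ext y
      exact congrArg (fun f : P →* P => f y) h
    have hT'mem : ∀ t ∈ T', t = g₁ ∨ t = g₂ ∨ t = g₃ := by
      intro t ht
      have h5 := hT'sub ht
      simpa using h5
    simp only [Finset.mem_insert, Finset.mem_singleton] at hg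
    rcases hg with rfl | rfl | rfl
    · apply ne1
      apply hfix
      intro t ht
      rcases hT'mem t ht with rfl | rfl | rfl
      · exact absurd ht hgT'
      · exact g2_1
      · exact g3_1
    · apply ne2
      apply hfix
      intro t ht
      rcases hT'mem t ht with rfl | rfl | rfl
      · exact g1_2
      · exact absurd ht hgT'
      · exact g3_2
    · apply ne3
      apply hfix
      intro t ht
      rcases hT'mem t ht with rfl | rfl | rfl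
      · exact g1_3
      · exact g2_3
      · exact absurd ht hgT'
  have hset : {T : MulAut P | T ∈ I ∧ T ≠ 1 ∧ ¬ Cyc T} = {T₁, T₂, T₃} := by
    ext T
    simp only [Set.mem_ofPred_eq, Set.mem_insert_iff, Set.mem_singleton_iff]
    constructor
    · rintro ⟨hT, hT1, hTc⟩
      rcases CLASS T hT with h | h | h | h | h | h | h | h
      · exact absurd h hT1
      · left; exact h
      · right; left; exact h
      · right; right; exact h
      · rw [h] at hTc; exact absurd cyc_c hTc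
      · rw [h] at hTc; exact absurd cyc_b hTc
      · rw [h] at hTc; exact absurd cyc_a hTc
      · rw [h] at hTc; exact absurd cyc_w hTc
    · rintro (rfl | rfl | rfl)
      · exact ⟨hT₁I, ne1, nc1⟩
      · exact ⟨hT₂I, ne2, nc2⟩
      · exact ⟨hT₃I, ne3, nc3⟩
  refine ⟨IsMulCommutative.of_comm hPcomm, ⟨g₁, g₂, g₃, htop⟩, hnot2, ?_, ?_, ?_⟩
  · show Nat.card ↥({T : MulAut P | T ∈ I ∧ T ≠ 1 ∧ ¬ Cyc T}) = 3
    rw [hset, Nat.card_coe_set_eq, Set.ncard_eq_three]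
    exact ⟨T₁, T₂, T₃, t12, t13, t23, rfl⟩
  · rw [hset]
    have m1 : T₁ ∈ Subgroup.closure ({T₁, T₂, T₃} : Set (MulAut P)) :=
      Subgroup.subset_closure (by simp)
    have m2 : T₂ ∈ Subgroup.closure ({T₁, T₂, T₃} : Set (MulAut P)) :=
      Subgroup.subset_closure (by simp)
    have m3 : T₃ ∈ Subgroup.closure ({T₁, T₂, T₃} : Set (MulAut P)) :=
      Subgroup.subset_closure (by simp)
    apply le_antisymm
    · rw [Subgroup.closure_le]
      intro T hT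
      simp only [Set.mem_insert_iff, Set.mem_singleton_iff] at hT
      rcases hT with rfl | rfl | rfl
      · exact hT₁I
      · exact hT₂I
      · exact hT₃I
    · intro T hT
      rcases CLASS T hT with h | h | h | h | h | h | h | h <;> rw [h]
      · exact one_mem _
      · exact m1
      · exact m2
      · exact m3
      · exact mul_mem m1 m2
      · exact mul_mem m1 m3
      · exact mul_mem m2 m3
      · exact mul_mem (mul_mem m1 m2) m3
  · ext S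
    simp only [SetLike.mem_coe, Set.mem_ofPred_eq]
    constructor
    · intro hS
      rcases CLASS S (hI₀.le hS) with h | h | h | h | h | h | h | h
      · exact ⟨T₁, T₁, hT₁I, hT₁I, ne1, ne1, nc1, nc1, by rw [h, hI1 T₁ hT₁I]⟩
      · rw [h] at hS; exact absurd hS h10
      · rw [h] at hS; exact absurd hS h20
      · rw [h] at hS; exact absurd hS h30
      · exact ⟨T₁, T₂, hT₁I, hT₂I, ne1, ne2, nc1, nc2, h⟩
      · exact ⟨T₁, T₃, hT₁I, hT₃I, ne1, ne3, nc1, nc3, h⟩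
      · exact ⟨T₂, T₃, hT₂I, hT₃I, ne2, ne3, nc2, nc3, h⟩
      · rw [h] at hS; exact absurd hS hw0
    · rintro ⟨T, T', hT, hT', hT1, hT'1, hTc, hT'c, rfl⟩
      exact hprod T hT T' hT' hT1 hT'1 hTc hT'c

end Cfsg.Agent.H76.ElemEight
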