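import Mathlib

/-!
# Permutation matrices and diagonal idempotents
-/

set_option autoImplicit false

namespace Cfsg.Agent.H76.PermDiag

variable {ι : Type*} [Fintype ι] [DecidableEq ι] {F : Type*} [Field F]

omit [Fintype ι] in
theorem permMatrix_apply' (π : Equiv.Perm ι) (u v : ι) :
    π.permMatrix F u v = if π u = v then 1 else 0 := by
  rw [Equiv.Perm.permMatrix, PEquiv.toMatrix_toPEquiv_eq, Matrix.submatrix_apply,
    Matrix.one_apply]
  rfl

theorem perm_conj_diag (π : Equiv.Perm ι) (d : ι → F) :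
    π.permMatrix F * Matrix.diagonal d * (π⁻¹).permMatrix F = Matrix.diagonal (d ∘ π) := by
  rw [PEquiv.toMatrix_toPEquiv_mul, PEquiv.mul_toMatrix_toPEquiv]
  ext u v
  have e : (Equiv.symm π⁻¹) v = π v := rfl
  simp [Matrix.diagonal_apply, e, π.injective.eq_iff]

theorem diag_mul_perm_sub_one (π : Equiv.Perm ι) (d : ι → F) (h01 : ∀ u, d u = 0 ∨ d u = 1)
    (hfix : ∀ u, d u = 0 → π u = u) :
    Matrix.diagonal d * (π.permMatrix F - 1) = π.permMatrix F - 1 := by
  ext u v
  rw [Matrix.diagonal_mul]
  rcases h01 u with h | h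
  · rw [h, zero_mul, Matrix.sub_apply, permMatrix_apply', hfix u h, Matrix.one_apply, sub_self]
  · rw [h, one_mul]

theorem perm_sub_one_mul_diag (π : Equiv.Perm ι) (d : ι → F) (h01 : ∀ u, d u = 0 ∨ d u = 1)
    (hfix : ∀ u, d u = 0 → π u = u) :
    (π.permMatrix F - 1) * Matrix.diagonal d = π.permMatrix F - 1 := by
  ext u v
  rw [Matrix.mul_diagonal]
  rcases h01 v with h | h
  · rw [h, mul_zero, Matrix.sub_apply, permMatrix_apply', Matrix.one_apply]
    have hv := hfix v h
    have e : (π u = v) ↔ (u = v) := by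
      constructor
      · intro h1
        apply π.injective
        rw [h1, hv]
      · intro h1
        rw [h1, hv]
    simp [e]
  · rw [h, mul_one]

theorem diag_mul_diag_eq_zero (d d' : ι → F) (h : ∀ u, d u * d' u = 0) :
    Matrix.diagonal d * Matrix.diagonal d' = 0 := by
  rw [Matrix.diagonal_mul_diagonal]
  ext u v
  simp [Matrix.diagonal_apply, h]

theorem diag_mul_diag_eq (d d' : ι → F) (h : ∀ u, d u * d' u = d' u) :
    Matrix.diagonal d * Matrix.diagonal d' = Matrix.diagonal d' := by
  rw [Matrix.diagonal_mul_diagonal]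
  congr 1
  funext u
  exact h u

end Cfsg.Agent.H76.PermDiag
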