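import Mathlib
import Cfsg.Agent.H76.DerPerm

/-!
# Iterated wreath products inside an ambient group: derived length from below

* `wreath_step`: if `X` and `τ X τ⁻¹` commute elementwise and meet trivially, then
  `⟨X, τ⟩` has derived length at least one more than `X`.
* `wreath_isPGroup`: `⟨X, τ⟩` is a `p`-group when `τ ^ p = 1`, `X` is a `p`-group and the
  conjugates `τ ^ i X τ ^ (-i)`, `i < p`, commute pairwise.
* `SuppSub`: "supported on an idempotent" subgroups of a group mapping into a ring.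
* `tower_spec`: the resulting tower of subgroups.
-/

set_option autoImplicit false

namespace Cfsg.Agent.H76.Wreath

open scoped commutatorElement
open Cfsg.Agent.H76

section step

variable {G : Type*} [Group G]

/-- Elements `a ∈ X` admitting a partner `a' ∈ X'` with `a' * a ∈ Y`. -/
def graphSub (X X' Y : Subgroup G) (hc : ∀ a ∈ X, ∀ b ∈ X', a * b = b * a) : Subgroup G where
  carrier := {a | a ∈ X ∧ ∃ a' ∈ X', a' * a ∈ Y}
  one_mem' := ⟨X.one_mem, 1, X'.one_mem, by simp⟩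
  mul_mem' := by
    rintro a b ⟨ha, a', ha', haY⟩ ⟨hb, b', hb', hbY⟩
    refine ⟨X.mul_mem ha hb, a' * b', X'.mul_mem ha' hb', ?_⟩
    have hcm : Commute b' a := (hc a ha b' hb').symm
    have : a' * b' * (a * b) = (a' * a) * (b' * b) := hcm.mul_mul_mul_comm a' b
    rw [this]
    exact Y.mul_mem haY hbY
  inv_mem' := by
    rintro a ⟨ha, a', ha', haY⟩
    refine ⟨X.inv_mem ha, a'⁻¹, X'.inv_mem ha', ?_⟩
    have h1 : a⁻¹ * a'⁻¹ = a'⁻¹ * a⁻¹ := hc a⁻¹ (X.inv_mem ha) a'⁻¹ (X'.inv_mem ha')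
    have : a'⁻¹ * a⁻¹ = (a' * a)⁻¹ := by rw [mul_inv_rev, h1]
    rw [this]
    exact Y.inv_mem haY

theorem wreath_step (X : Subgroup G) (τ : G) (H : Subgroup G) (hXH : X ≤ H) (hτH : τ ∈ H)
    (hc : ∀ a ∈ X, ∀ b ∈ X, a * (τ * b * τ⁻¹) = (τ * b * τ⁻¹) * a)
    (hi : ∀ a ∈ X, ∀ b ∈ X, a = τ * b * τ⁻¹ → a = 1) (j : ℕ) (hj : dser X j ≠ ⊥) :
    dser H (j + 1) ≠ ⊥ := by
  let X' : Subgroup G := X.map (MulAut.conj τ).toMonoidHom
  have hX' : ∀ b', b' ∈ X' ↔ ∃ b ∈ X, τ * b * τ⁻¹ = b' := by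
    intro b'
    simp only [X', Subgroup.mem_map, MulEquiv.coe_toMonoidHom, MulAut.conj_apply]
  have hc' : ∀ a ∈ X, ∀ b ∈ X', a * b = b * a := by
    intro a ha b' hb'
    obtain ⟨b, hb, rfl⟩ := (hX' b').mp hb'
    exact hc a ha b hb
  have key : ∀ i, dser X i ≤ graphSub X X' (dser H (i + 1)) hc' := by
    intro i
    induction i with
    | zero =>
      intro a ha
      refine ⟨ha, τ * a⁻¹ * τ⁻¹, (hX' _).mpr ⟨a⁻¹, X.inv_mem ha, rfl⟩, ?_⟩
      have : τ * a⁻¹ * τ⁻¹ * a = ⁅τ, a⁻¹⁆ := by rw [commutatorElement_def, inv_inv]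
      rw [this]
      exact Subgroup.commutator_mem_commutator hτH (hXH (X.inv_mem ha))
    | succ i ih =>
      show ⁅dser X i, dser X i⁆ ≤ _
      rw [Subgroup.commutator_le]
      intro a ha b hb
      obtain ⟨haX, a', ha', haY⟩ := ih ha
      obtain ⟨hbX, b', hb', hbY⟩ := ih hb
      have hXc : ⁅a, b⁆ ∈ X := by
        rw [commutatorElement_def]
        exact X.mul_mem (X.mul_mem (X.mul_mem haX hbX) (X.inv_mem haX)) (X.inv_mem hbX)
      have hX'c : ⁅a', b'⁆ ∈ X' := by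
        rw [commutatorElement_def]
        exact X'.mul_mem (X'.mul_mem (X'.mul_mem ha' hb') (X'.inv_mem ha')) (X'.inv_mem hb')
      refine ⟨hXc, ⁅a', b'⁆, hX'c, ?_⟩
      have e : ⁅a', b'⁆ * ⁅a, b⁆ = ⁅a' * a, b' * b⁆ := by
        have c1 : Commute b' a := (hc' a haX b' hb').symm
        have c2 : Commute a'⁻¹ a⁻¹ :=
          (hc' a⁻¹ (X.inv_mem haX) a'⁻¹ (X'.inv_mem ha')).symm
        have c3 : Commute b'⁻¹ b⁻¹ :=
          (hc' b⁻¹ (X.inv_mem hbX) b'⁻¹ (X'.inv_mem hb')).symm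
        have c4 : Commute b'⁻¹ a⁻¹ :=
          (hc' a⁻¹ (X.inv_mem haX) b'⁻¹ (X'.inv_mem hb')).symm
        have c5 : Commute (a'⁻¹ * b'⁻¹) (a * b) :=
          (hc' (a * b) (X.mul_mem haX hbX) (a'⁻¹ * b'⁻¹)
            (X'.mul_mem (X'.inv_mem ha') (X'.inv_mem hb'))).symm
        have e1 : a' * a * (b' * b) = a' * b' * (a * b) := (c1.mul_mul_mul_comm a' b).symm
        have e2 : (a' * a)⁻¹ = a'⁻¹ * a⁻¹ := by rw [mul_inv_rev]; exact c2.eq.symm
        have e3 : (b' * b)⁻¹ = b'⁻¹ * b⁻¹ := by rw [mul_inv_rev]; exact c3.eq.symm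
        have e4 : a'⁻¹ * a⁻¹ * (b'⁻¹ * b⁻¹) = a'⁻¹ * b'⁻¹ * (a⁻¹ * b⁻¹) :=
          (c4.mul_mul_mul_comm a'⁻¹ b⁻¹).symm
        calc ⁅a', b'⁆ * ⁅a, b⁆ = a' * b' * (a'⁻¹ * b'⁻¹) * ((a * b) * (a⁻¹ * b⁻¹)) := by
              simp only [commutatorElement_def, mul_assoc]
          _ = a' * b' * ((a'⁻¹ * b'⁻¹) * (a * b)) * (a⁻¹ * b⁻¹) := by simp only [mul_assoc]
          _ = a' * b' * ((a * b) * (a'⁻¹ * b'⁻¹)) * (a⁻¹ * b⁻¹) := by rw [c5.eq]
          _ = (a' * b' * (a * b)) * ((a'⁻¹ * b'⁻¹) * (a⁻¹ * b⁻¹)) := by simp only [mul_assoc]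
          _ = (a' * a * (b' * b)) * ((a'⁻¹ * a⁻¹) * (b'⁻¹ * b⁻¹)) := by rw [e1, e4]
          _ = ⁅a' * a, b' * b⁆ := by
              rw [commutatorElement_def, e2, e3]
              simp only [mul_assoc]
      rw [e]
      exact Subgroup.commutator_mem_commutator haY hbY
  obtain ⟨a, ha, ha1⟩ : ∃ a ∈ dser X j, a ≠ 1 := by
    by_contra hcon
    push Not at hcon
    exact hj ((Subgroup.eq_bot_iff_forall _).mpr hcon)
  intro hbot
  obtain ⟨haX, a', ha', haY⟩ := key j ha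
  rw [hbot, Subgroup.mem_bot] at haY
  obtain ⟨b, hb, rfl⟩ := (hX' a').mp ha'
  apply ha1
  have h1 : a = τ * b⁻¹ * τ⁻¹ := by
    have h2 := eq_inv_of_mul_eq_one_right haY
    rw [h2]
    group
  exact hi a haX b⁻¹ (X.inv_mem hb) h1

theorem isPGroup_biSup_of_commute (p : ℕ) [Fact p.Prime] {ι : Type*} (s : Finset ι)
    (Y : ι → Subgroup G) (hY : ∀ i ∈ s, IsPGroup p (Y i))
    (hc : ∀ i ∈ s, ∀ j ∈ s, i ≠ j → ∀ a ∈ Y i, ∀ b ∈ Y j, a * b = b * a) :
    IsPGroup p (⨆ i ∈ s, Y i : Subgroup G) := by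
  classical
  induction s using Finset.induction_on with
  | empty =>
    have : (⨆ i ∈ (∅ : Finset ι), Y i : Subgroup G) = ⊥ := by simp
    rw [this]
    exact IsPGroup.of_bot
  | insert a s ha ih =>
    rw [Finset.iSup_insert]
    apply IsPGroup.to_sup_of_normal_right' (hY a (Finset.mem_insert_self a s))
      (ih (fun i hi => hY i (Finset.mem_insert_of_mem hi))
        (fun i hi j hj => hc i (Finset.mem_insert_of_mem hi) j (Finset.mem_insert_of_mem hj)))
    intro x hx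
    rw [Subgroup.mem_normalizer_iff]
    have hcent : (⨆ i ∈ s, Y i) ≤ Subgroup.centralizer {x} := by
      apply iSup₂_le
      intro i hi y hy
      rw [Subgroup.mem_centralizer_iff]
      intro z hz
      rw [Set.mem_singleton_iff] at hz
      subst hz
      exact hc a (Finset.mem_insert_self a s) i (Finset.mem_insert_of_mem hi)
        (by rintro rfl; exact ha hi) z hx y hy
    have hcm : ∀ h ∈ (⨆ i ∈ s, Y i : Subgroup G), x * h = h * x := fun h hh =>
      Subgroup.mem_centralizer_iff.mp (hcent hh) x (Set.mem_singleton x)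
    intro h
    constructor
    · intro hh
      rw [hcm h hh, mul_inv_cancel_right]
      exact hh
    · intro hh
      have h1 := hcm _ hh
      have h2 : h = x * h * x⁻¹ := by
        have : x * (x * h * x⁻¹) = x * h := by rw [h1]; group
        exact (mul_left_cancel this).symm
      rw [h2]
      exact hh

theorem wreath_isPGroup (p : ℕ) [Fact p.Prime] (X : Subgroup G) (τ : G) (hτ : τ ^ p = 1)
    (hX : IsPGroup p X)
    (hc : ∀ i j : ℕ, i < p → j < p → i ≠ j → ∀ a ∈ X, ∀ b ∈ X,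
      (τ ^ i * a * (τ ^ i)⁻¹) * (τ ^ j * b * (τ ^ j)⁻¹) =
        (τ ^ j * b * (τ ^ j)⁻¹) * (τ ^ i * a * (τ ^ i)⁻¹)) :
    IsPGroup p (X ⊔ Subgroup.zpowers τ : Subgroup G) := by
  have hp : p.Prime := Fact.out
  let Y : ℕ → Subgroup G := fun i => X.map (MulAut.conj (τ ^ i)).toMonoidHom
  have hYmem : ∀ i b', b' ∈ Y i ↔ ∃ b ∈ X, τ ^ i * b * (τ ^ i)⁻¹ = b' := by
    intro i b'
    simp only [Y, Subgroup.mem_map, MulEquiv.coe_toMonoidHom, MulAut.conj_apply]
  let N : Subgroup G := ⨆ i ∈ Finset.range p, Y i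
  have hN : IsPGroup p N := by
    apply isPGroup_biSup_of_commute p (Finset.range p) Y (fun i _ => hX.map _)
    intro i hi j hj hij a ha b hb
    obtain ⟨a₀, ha₀, rfl⟩ := (hYmem i a).mp ha
    obtain ⟨b₀, hb₀, rfl⟩ := (hYmem j b).mp hb
    exact hc i j (Finset.mem_range.mp hi) (Finset.mem_range.mp hj) hij a₀ ha₀ b₀ hb₀
  have hYN : ∀ i < p, Y i ≤ N := fun i hi =>
    le_iSup₂_of_le i (Finset.mem_range.mpr hi) le_rfl
  have hXN : X ≤ N := by
    intro a ha
    apply hYN 0 hp.pos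
    rw [hYmem]
    exact ⟨a, ha, by simp⟩
  have hconj : ∀ x ∈ N, τ * x * τ⁻¹ ∈ N := by
    have hmap : N.map (MulAut.conj τ).toMonoidHom ≤ N := by
      rw [Subgroup.map_iSup]
      apply iSup_le
      intro i
      rw [Subgroup.map_iSup]
      apply iSup_le
      intro hi
      have hi' := Finset.mem_range.mp hi
      intro y hy
      obtain ⟨x, hx, rfl⟩ := Subgroup.mem_map.mp hy
      obtain ⟨a, ha, rfl⟩ := (hYmem i x).mp hx
      by_cases hlt : i + 1 < p
      · apply hYN (i + 1) hlt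
        rw [hYmem]
        refine ⟨a, ha, ?_⟩
        simp only [MulEquiv.coe_toMonoidHom, MulAut.conj_apply, pow_succ']
        group
      · have hip : i + 1 = p := by omega
        apply hXN
        have : (MulAut.conj τ).toMonoidHom (τ ^ i * a * (τ ^ i)⁻¹) = a := by
          simp only [MulEquiv.coe_toMonoidHom, MulAut.conj_apply]
          have h1 : τ * (τ ^ i * a * (τ ^ i)⁻¹) * τ⁻¹ = τ ^ (i + 1) * a * (τ ^ (i + 1))⁻¹ := by
            rw [pow_succ']
            group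
          rw [h1, hip, hτ]
          simp
        rw [this]
        exact ha
    intro x hx
    exact hmap (Subgroup.mem_map_of_mem _ hx)
  have hconjpow : ∀ m : ℕ, ∀ x ∈ N, τ ^ m * x * (τ ^ m)⁻¹ ∈ N := by
    intro m
    induction m with
    | zero => intro x hx; simpa using hx
    | succ m ih =>
      intro x hx
      have h1 := hconj _ (ih x hx)
      have h2 : τ * (τ ^ m * x * (τ ^ m)⁻¹) * τ⁻¹ = τ ^ (m + 1) * x * (τ ^ (m + 1))⁻¹ := by
        rw [pow_succ']
        group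
      rwa [h2] at h1
  have hτN : τ ∈ Subgroup.normalizer (N : Set G) := by
    rw [Subgroup.mem_normalizer_iff]
    intro h
    constructor
    · exact hconj h
    · intro hh
      have h1 := hconjpow (p - 1) _ hh
      have h2 : τ ^ (p - 1) * (τ * h * τ⁻¹) * (τ ^ (p - 1))⁻¹ = τ ^ p * h * (τ ^ p)⁻¹ := by
        have : p = (p - 1) + 1 := by have := hp.pos; omega
        conv_rhs => rw [this, pow_succ]
        group
      rw [h2, hτ] at h1
      simpa using h1
  have hτp : IsPGroup p (Subgroup.zpowers τ) := by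
    intro g
    refine ⟨1, ?_⟩
    obtain ⟨g, hg⟩ := g
    obtain ⟨k, rfl⟩ := Subgroup.mem_zpowers_iff.mp hg
    apply Subtype.ext
    simp only [pow_one, Subgroup.coe_pow, Subgroup.coe_one]
    rw [← zpow_natCast, ← zpow_mul, mul_comm, zpow_mul, zpow_natCast, hτ, one_zpow]
  have hall : IsPGroup p (Subgroup.zpowers τ ⊔ N : Subgroup G) :=
    IsPGroup.to_sup_of_normal_right' hτp hN (Subgroup.zpowers_le.mpr hτN)
  exact hall.to_le (sup_le (le_trans hXN le_sup_right) le_sup_left)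

end step

section supp

variable {G : Type*} [Group G] {𝓡 : Type*} [Ring 𝓡]

/-- Elements `g` with `c g - 1` supported (on both sides) on `D`. -/
def SuppSub (c : G →* 𝓡) (D : 𝓡) : Subgroup G where
  carrier := {g | D * (c g - 1) = c g - 1 ∧ (c g - 1) * D = c g - 1}
  one_mem' := by simp
  mul_mem' := by
    rintro g h ⟨hg1, hg2⟩ ⟨hh1, hh2⟩
    have e : c (g * h) - 1 = (c g - 1) * (c h - 1) + (c g - 1) + (c h - 1) := by
      rw [map_mul]; noncomm_ring
    constructor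
    · rw [e, mul_add, mul_add, ← mul_assoc, hg1, hh1]
    · rw [e, add_mul, add_mul, mul_assoc, hh2, hg2]
  inv_mem' := by
    rintro g ⟨hg1, hg2⟩
    have e1 : c g⁻¹ - 1 = - (c g⁻¹ * (c g - 1)) := by
      rw [mul_sub, ← map_mul, inv_mul_cancel, map_one, mul_one]; abel
    have e2 : c g⁻¹ - 1 = - ((c g - 1) * c g⁻¹) := by
      rw [sub_mul, ← map_mul, mul_inv_cancel, map_one, one_mul]; abel
    constructor
    · rw [e2, mul_neg, ← mul_assoc, hg1]
    · rw [e1, neg_mul, mul_assoc, hg2]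

theorem mem_SuppSub (c : G →* 𝓡) (D : 𝓡) (g : G) :
    g ∈ SuppSub c D ↔ D * (c g - 1) = c g - 1 ∧ (c g - 1) * D = c g - 1 := Iff.rfl

theorem supp_commute (c : G →* 𝓡) (hc : Function.Injective c) {D D' : 𝓡} (h1 : D * D' = 0)
    (h2 : D' * D = 0) {g h : G} (hg : g ∈ SuppSub c D) (hh : h ∈ SuppSub c D') :
    g * h = h * g := by
  apply hc
  have e1 : (c g - 1) * (c h - 1) = 0 := by
    calc (c g - 1) * (c h - 1) = ((c g - 1) * D) * (D' * (c h - 1)) := by rw [hg.2, hh.1]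
      _ = (c g - 1) * (D * D') * (c h - 1) := by simp only [mul_assoc]
      _ = 0 := by rw [h1, mul_zero, zero_mul]
  have e2 : (c h - 1) * (c g - 1) = 0 := by
    calc (c h - 1) * (c g - 1) = ((c h - 1) * D') * (D * (c g - 1)) := by rw [hh.2, hg.1]
      _ = (c h - 1) * (D' * D) * (c g - 1) := by simp only [mul_assoc]
      _ = 0 := by rw [h2, mul_zero, zero_mul]
  rw [map_mul, map_mul]
  have e3 : c g * c h = (c g - 1) * (c h - 1) + c g + c h - 1 := by noncomm_ring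
  have e4 : c h * c g = (c h - 1) * (c g - 1) + c g + c h - 1 := by noncomm_ring
  rw [e3, e4, e1, e2]

theorem supp_inf (c : G →* 𝓡) (hc : Function.Injective c) {D D' : 𝓡} (h1 : D * D' = 0)
    {g : G} (hg : g ∈ SuppSub c D) (hg' : g ∈ SuppSub c D') : g = 1 := by
  apply hc
  have e1 : c g - 1 = 0 := by
    calc c g - 1 = D * (D' * (c g - 1)) := by rw [hg'.1, hg.1]
      _ = (D * D') * (c g - 1) := by rw [mul_assoc]
      _ = 0 := by rw [h1, zero_mul]
  rw [map_one]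
  exact sub_eq_zero.mp e1

theorem supp_conj (c : G →* 𝓡) {D : 𝓡} (t : G) {g : G} (hg : g ∈ SuppSub c D) :
    t * g * t⁻¹ ∈ SuppSub c (c t * D * c t⁻¹) := by
  have e : c (t * g * t⁻¹) - 1 = c t * (c g - 1) * c t⁻¹ := by
    rw [map_mul, map_mul, mul_sub, sub_mul, mul_one, ← map_mul c t t⁻¹, mul_inv_cancel, map_one]
  have e0 : c t⁻¹ * c t = 1 := by rw [← map_mul, inv_mul_cancel, map_one]
  constructor
  · rw [e]
    calc c t * D * c t⁻¹ * (c t * (c g - 1) * c t⁻¹)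
        = c t * D * (c t⁻¹ * c t) * (c g - 1) * c t⁻¹ := by simp only [mul_assoc]
      _ = c t * (D * (c g - 1)) * c t⁻¹ := by rw [e0, mul_one]; simp only [mul_assoc]
      _ = c t * (c g - 1) * c t⁻¹ := by rw [hg.1]
  · rw [e]
    calc c t * (c g - 1) * c t⁻¹ * (c t * D * c t⁻¹)
        = c t * (c g - 1) * (c t⁻¹ * c t) * D * c t⁻¹ := by simp only [mul_assoc]
      _ = c t * ((c g - 1) * D) * c t⁻¹ := by rw [e0, mul_one]; simp only [mul_assoc]
      _ = c t * (c g - 1) * c t⁻¹ := by rw [hg.2]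

theorem supp_mono (c : G →* 𝓡) {D D' : 𝓡} (h1 : D' * D = D) (h2 : D * D' = D) :
    SuppSub c D ≤ SuppSub c D' := by
  intro g hg
  constructor
  · calc D' * (c g - 1) = D' * (D * (c g - 1)) := by rw [hg.1]
      _ = (D' * D) * (c g - 1) := by rw [mul_assoc]
      _ = c g - 1 := by rw [h1, hg.1]
  · calc (c g - 1) * D' = ((c g - 1) * D) * D' := by rw [hg.2]
      _ = (c g - 1) * (D * D') := by rw [mul_assoc]
      _ = c g - 1 := by rw [h2, hg.2]

/-- The tower `Q`, `⟨Q, τ 0⟩`, `⟨Q, τ 0, τ 1⟩`, … -/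
def tower (Q : Subgroup G) (τ : ℕ → G) : ℕ → Subgroup G
  | 0 => Q
  | j + 1 => tower Q τ j ⊔ Subgroup.zpowers (τ j)

theorem tower_spec (c : G →* 𝓡) (hc : Function.Injective c) (p : ℕ) [Fact p.Prime]
    (Q : Subgroup G) (τ : ℕ → G) (D : ℕ → 𝓡) (r m : ℕ)
    (hQD : Q ≤ SuppSub c (D 0)) (hQp : IsPGroup p Q) (hQr : dser Q r ≠ ⊥)
    (hτp : ∀ j < m, τ j ^ p = 1)
    (hτD : ∀ j < m, τ j ∈ SuppSub c (D (j + 1)))
    (hmono : ∀ j < m, D (j + 1) * D j = D j ∧ D j * D (j + 1) = D j)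
    (horth : ∀ j < m, ∀ i i' : ℕ, i < p → i' < p → i ≠ i' →
        (c (τ j ^ i) * D j * c ((τ j ^ i)⁻¹)) * (c (τ j ^ i') * D j * c ((τ j ^ i')⁻¹)) = 0) :
    ∀ j ≤ m, tower Q τ j ≤ SuppSub c (D j) ∧ IsPGroup p (tower Q τ j) ∧
      dser (tower Q τ j) (r + j) ≠ ⊥ := by
  have hp : p.Prime := Fact.out
  intro j
  induction j with
  | zero => intro _; exact ⟨hQD, hQp, hQr⟩
  | succ j ih =>
    intro hj
    have hjm : j < m := by omega
    obtain ⟨h1, h2, h3⟩ := ih (by omega)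
    set X := tower Q τ j with hX
    have hconjmem : ∀ i : ℕ, ∀ a ∈ X,
        τ j ^ i * a * (τ j ^ i)⁻¹ ∈ SuppSub c (c (τ j ^ i) * D j * c ((τ j ^ i)⁻¹)) :=
      fun i a ha => supp_conj c (τ j ^ i) (h1 ha)
    have hcomm : ∀ i i' : ℕ, i < p → i' < p → i ≠ i' → ∀ a ∈ X, ∀ b ∈ X,
        (τ j ^ i * a * (τ j ^ i)⁻¹) * (τ j ^ i' * b * (τ j ^ i')⁻¹) =
          (τ j ^ i' * b * (τ j ^ i')⁻¹) * (τ j ^ i * a * (τ j ^ i)⁻¹) := by
      intro i i' hi hi' hii' a ha b hb
      exact supp_commute c hc (horth j hjm i i' hi hi' hii')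
        (horth j hjm i' i hi' hi (Ne.symm hii')) (hconjmem i a ha) (hconjmem i' b hb)
    refine ⟨?_, ?_, ?_⟩
    · show X ⊔ Subgroup.zpowers (τ j) ≤ _
      apply sup_le
      · exact le_trans h1 (supp_mono c (hmono j hjm).1 (hmono j hjm).2)
      · exact Subgroup.zpowers_le.mpr (hτD j hjm)
    · show IsPGroup p (X ⊔ Subgroup.zpowers (τ j) : Subgroup G)
      exact wreath_isPGroup p X (τ j) (hτp j hjm) h2 hcomm
    · show dser (X ⊔ Subgroup.zpowers (τ j)) (r + (j + 1)) ≠ ⊥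
      have h01 := hcomm 0 1 hp.pos hp.one_lt (by norm_num)
      simp only [pow_zero, one_mul, inv_one, mul_one, pow_one] at h01
      refine wreath_step X (τ j) _ le_sup_left
        (Subgroup.mem_sup_right (Subgroup.mem_zpowers _)) h01 ?_ (r + j) h3
      intro a ha b hb hab
      have e0 := hconjmem 0 a ha
      have e1 := hconjmem 1 b hb
      simp only [pow_zero, one_mul, inv_one, mul_one, pow_one] at e0 e1
      rw [← hab] at e1
      have horth01 := horth j hjm 0 1 hp.pos hp.one_lt (by norm_num)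
      simp only [pow_zero, map_one, one_mul, inv_one, mul_one, pow_one] at horth01 e0
      exact supp_inf c hc horth01 e0 e1

end supp

end Cfsg.Agent.H76.Wreath
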