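import Mathlib
import Cfsg.Agent.H76.Wreath
import Cfsg.Agent.H76.PermDiag

/-!
# A `p`-subgroup of `GL_n(F)` of large derived length: `C_p ≀ C_p ≀ ⋯ ≀ C_p`
-/

set_option autoImplicit false
set_option linter.unusedSimpArgs false

namespace Cfsg.Agent.H76.GLTower

open Cfsg.Agent.H76 Cfsg.Agent.H76.Wreath Cfsg.Agent.H76.PermDiag
open scoped commutatorElement

/-- Cyclic shift by `i` blocks of size `a` on `[0, p * a)`, identity elsewhere. -/
def shN (p a i x : ℕ) : ℕ := if x < p * a then (x + i * a) % (p * a) else x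

theorem shN_lt (p a i n x : ℕ) (h : p * a ≤ n) (hx : x < n) : shN p a i x < n := by
  simp only [shN]
  split_ifs with h1
  · exact lt_of_lt_of_le (Nat.mod_lt _ (by omega)) h
  · exact hx

theorem shN_add (p a i i' x : ℕ) : shN p a i (shN p a i' x) = shN p a (i + i') x := by
  by_cases h1 : x < p * a
  · have h2 : (x + i' * a) % (p * a) < p * a := Nat.mod_lt _ (by omega)
    have e1 : shN p a i' x = (x + i' * a) % (p * a) := if_pos h1
    have e2 : shN p a i ((x + i' * a) % (p * a)) =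
        ((x + i' * a) % (p * a) + i * a) % (p * a) := if_pos h2
    have e3 : shN p a (i + i') x = (x + (i + i') * a) % (p * a) := if_pos h1
    rw [e1, e2, e3, Nat.add_mod ((x + i' * a) % (p * a)), Nat.mod_mod, ← Nat.add_mod]
    congr 1
    ring
  · have e1 : ∀ i, shN p a i x = x := fun i => if_neg h1
    rw [e1, e1, e1]

theorem shN_zero (p a x : ℕ) : shN p a 0 x = x := by
  simp only [shN]
  split_ifs with h1
  · rw [zero_mul, add_zero, Nat.mod_eq_of_lt h1]
  · rfl

theorem shN_p (p a x : ℕ) : shN p a p x = x := by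
  simp only [shN]
  split_ifs with h1
  · rw [Nat.add_mod_right, Nat.mod_eq_of_lt h1]
  · rfl

theorem shN_fix (p a i x : ℕ) (h : p * a ≤ x) : shN p a i x = x := by
  simp only [shN]
  rw [if_neg (by omega)]

theorem shN_ge (p a d v : ℕ) (hd : 0 < d) (hdp : d < p) (hv : v < a) : a ≤ shN p a d v := by
  have h1 : a ≤ d * a := Nat.le_mul_of_pos_left a hd
  have h2 : (d + 1) * a ≤ p * a := Nat.mul_le_mul_right a hdp
  have h3 : (d + 1) * a = d * a + a := by ring
  simp only [shN]
  rw [if_pos (by omega), Nat.mod_eq_of_lt (by omega)]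
  omega

/-- The block shift as a permutation of `Fin n`. -/
def shPerm (n p a : ℕ) : Equiv.Perm (Fin n) :=
  if h : p * a ≤ n ∧ 0 < p then
    { toFun := fun i => ⟨shN p a 1 i, shN_lt p a 1 n i h.1 i.2⟩
      invFun := fun i => ⟨shN p a (p - 1) i, shN_lt p a (p - 1) n i h.1 i.2⟩
      left_inv := by
        intro i
        apply Fin.ext
        show shN p a (p - 1) (shN p a 1 i) = i
        rw [shN_add, Nat.sub_add_cancel h.2, shN_p]
      right_inv := by
        intro i
        apply Fin.ext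
        show shN p a 1 (shN p a (p - 1) i) = i
        rw [shN_add, Nat.add_sub_cancel' h.2, shN_p] }
  else 1

theorem shPerm_apply (n p a : ℕ) (h : p * a ≤ n) (hp : 0 < p) (i : Fin n) :
    ((shPerm n p a i : Fin n) : ℕ) = shN p a 1 i := by
  simp only [shPerm, dif_pos (And.intro h hp)]
  rfl

theorem shPerm_pow_apply (n p a : ℕ) (h : p * a ≤ n) (hp : 0 < p) (k : ℕ) (i : Fin n) :
    (((shPerm n p a ^ k) i : Fin n) : ℕ) = shN p a k i := by
  induction k generalizing i with
  | zero => rw [pow_zero, shN_zero]; rfl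
  | succ k ih =>
    rw [pow_succ, Equiv.Perm.mul_apply, ih, shPerm_apply n p a h hp, shN_add]

theorem shPerm_pow_p (n p a : ℕ) (h : p * a ≤ n) (hp : 0 < p) : shPerm n p a ^ p = 1 := by
  ext i
  rw [shPerm_pow_apply n p a h hp, shN_p]
  rfl

variable {F : Type*} [Field F] {n : ℕ}

/-- Permutation matrices as a hom into `GL`. -/
noncomputable def permGL (n : ℕ) (F : Type*) [Field F] :
    Equiv.Perm (Fin n) →* GL (Fin n) F :=
  (Matrix.permMatrixHom (R := F) (n := Fin n)).toHomUnits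

theorem permGL_coe (π : Equiv.Perm (Fin n)) :
    ((permGL n F π : GL (Fin n) F) : Matrix (Fin n) (Fin n) F) = (π⁻¹).permMatrix F := rfl

/-- Indicator of `[0, a)`. -/
def chi (F : Type*) [Field F] (n a : ℕ) : Fin n → F := fun i => if (i : ℕ) < a then 1 else 0

theorem exists_p_subgroup_of_base (p : ℕ) [Fact p.Prime] (n e k : ℕ) (hk : e * p ^ k ≤ n)
    (g₀ : GL (Fin n) F) (hg : g₀ ^ p = 1) (hg1 : g₀ ≠ 1)
    (hsupp : g₀ ∈ SuppSub (Units.coeHom (Matrix (Fin n) (Fin n) F))
      (Matrix.diagonal (chi F n e))) :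
    ∃ H : Subgroup (GL (Fin n) F), IsPGroup p H ∧ dser H k ≠ ⊥ := by
  have hp : p.Prime := Fact.out
  have hp0 : 0 < p := hp.pos
  let c : GL (Fin n) F →* Matrix (Fin n) (Fin n) F := Units.coeHom _
  have hc : Function.Injective c := fun a b hab => Units.ext hab
  let Q : Subgroup (GL (Fin n) F) := Subgroup.zpowers g₀
  let σ : ℕ → Equiv.Perm (Fin n) := fun j => shPerm n p (e * p ^ j)
  let τ : ℕ → GL (Fin n) F := fun j => permGL n F (σ j)⁻¹
  let D : ℕ → Matrix (Fin n) (Fin n) F := fun j => Matrix.diagonal (chi F n (e * p ^ j))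
  have hQD : Q ≤ SuppSub c (D 0) := by
    show Subgroup.zpowers g₀ ≤ _
    rw [Subgroup.zpowers_le]
    show g₀ ∈ SuppSub c (Matrix.diagonal (chi F n (e * p ^ 0)))
    rw [pow_zero, mul_one]
    exact hsupp
  have hQp : IsPGroup p Q := by
    intro g
    refine ⟨1, ?_⟩
    obtain ⟨g, hg'⟩ := g
    obtain ⟨m, rfl⟩ := Subgroup.mem_zpowers_iff.mp hg'
    apply Subtype.ext
    simp only [pow_one, Subgroup.coe_pow, Subgroup.coe_one]
    rw [← zpow_natCast, ← zpow_mul, mul_comm, zpow_mul, zpow_natCast, hg, one_zpow]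
  have hQr : dser Q 0 ≠ ⊥ := by
    intro hbot
    have h1 : g₀ ∈ dser Q 0 := Subgroup.mem_zpowers g₀
    rw [hbot, Subgroup.mem_bot] at h1
    exact hg1 h1
  have hpow : ∀ j < k, p * (e * p ^ j) ≤ n := by
    intro j hj
    calc p * (e * p ^ j) = e * p ^ (j + 1) := by ring
      _ ≤ e * p ^ k := Nat.mul_le_mul_left e (Nat.pow_le_pow_right hp0 (by omega))
      _ ≤ n := hk
  have hcτ : ∀ j, ∀ i : ℕ, c (τ j ^ i) = (σ j ^ i).permMatrix F := by
    intro j i
    show ((permGL n F (σ j)⁻¹ ^ i : GL (Fin n) F) : Matrix (Fin n) (Fin n) F) = _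
    rw [← map_pow, permGL_coe, inv_pow, inv_inv]
  have hcτ' : ∀ j, ∀ i : ℕ, c ((τ j ^ i)⁻¹) = ((σ j ^ i)⁻¹).permMatrix F := by
    intro j i
    show (((permGL n F (σ j)⁻¹ ^ i)⁻¹ : GL (Fin n) F) : Matrix (Fin n) (Fin n) F) = _
    rw [← map_pow, ← map_inv, permGL_coe, inv_pow, inv_inv]
  have hτp : ∀ j < k, τ j ^ p = 1 := by
    intro j hj
    show permGL n F (σ j)⁻¹ ^ p = 1
    rw [← map_pow, inv_pow]
    have : σ j ^ p = 1 := shPerm_pow_p n p _ (hpow j hj) hp0
    rw [this, inv_one, map_one]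
  have hτD : ∀ j < k, τ j ∈ SuppSub c (D (j + 1)) := by
    intro j hj
    have h01 : ∀ u : Fin n, chi F n (e * p ^ (j + 1)) u = 0 ∨ chi F n (e * p ^ (j + 1)) u = 1 := by
      intro i
      simp only [chi]
      split_ifs <;> simp
    have hfix : ∀ u : Fin n, chi F n (e * p ^ (j + 1)) u = 0 → σ j u = u := by
      intro i hi
      simp only [chi] at hi
      have hi' : ¬ (i : ℕ) < e * p ^ (j + 1) := by
        intro h
        rw [if_pos h] at hi
        exact one_ne_zero hi
      apply Fin.ext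
      show ((shPerm n p (e * p ^ j) i : Fin n) : ℕ) = i
      rw [shPerm_apply n p _ (hpow j hj) hp0]
      apply shN_fix
      have : p * (e * p ^ j) = e * p ^ (j + 1) := by ring
      omega
    have h1 := hcτ j 1
    rw [pow_one, pow_one] at h1
    constructor
    · rw [h1]
      exact diag_mul_perm_sub_one (σ j) _ h01 hfix
    · rw [h1]
      exact perm_sub_one_mul_diag (σ j) _ h01 hfix
  have hmono : ∀ j < k, D (j + 1) * D j = D j ∧ D j * D (j + 1) = D j := by
    intro j _
    have hle : e * p ^ j ≤ e * p ^ (j + 1) :=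
      Nat.mul_le_mul_left e (Nat.pow_le_pow_right hp0 (by omega))
    have key : ∀ i : Fin n, chi F n (e * p ^ (j + 1)) i * chi F n (e * p ^ j) i =
        chi F n (e * p ^ j) i := by
      intro i
      simp only [chi]
      split_ifs <;> first | omega | simp
    constructor
    · exact diag_mul_diag_eq _ _ key
    · show Matrix.diagonal _ * Matrix.diagonal _ = Matrix.diagonal _
      rw [Matrix.diagonal_mul_diagonal]
      congr 1
      funext u
      rw [mul_comm]
      exact key u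
  have horth : ∀ j < k, ∀ i i' : ℕ, i < p → i' < p → i ≠ i' →
      (c (τ j ^ i) * D j * c ((τ j ^ i)⁻¹)) * (c (τ j ^ i') * D j * c ((τ j ^ i')⁻¹)) = 0 := by
    intro j hj i i' hi hi' hii'
    rw [hcτ, hcτ', hcτ, hcτ']
    show ((σ j ^ i).permMatrix F * Matrix.diagonal _ * ((σ j ^ i)⁻¹).permMatrix F) *
      ((σ j ^ i').permMatrix F * Matrix.diagonal _ * ((σ j ^ i')⁻¹).permMatrix F) = 0
    rw [perm_conj_diag, perm_conj_diag]
    apply diag_mul_diag_eq_zero
    intro u
    have key : ∀ i₁ i₂ : ℕ, i₁ < i₂ → i₂ < p →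
        chi F n (e * p ^ j) ((σ j ^ i₁) u) * chi F n (e * p ^ j) ((σ j ^ i₂) u) = 0 := by
      intro i₁ i₂ h12 h2p
      simp only [chi]
      by_cases h1 : (((σ j ^ i₁) u : Fin n) : ℕ) < e * p ^ j
      · have h2 : ¬ (((σ j ^ i₂) u : Fin n) : ℕ) < e * p ^ j := by
          have e2 : (((σ j ^ i₂) u : Fin n) : ℕ) =
              shN p (e * p ^ j) (i₂ - i₁) (((σ j ^ i₁) u : Fin n) : ℕ) := by
            show ((((shPerm n p (e * p ^ j)) ^ i₂) u : Fin n) : ℕ) =
              shN p (e * p ^ j) (i₂ - i₁) ((((shPerm n p (e * p ^ j)) ^ i₁) u : Fin n) : ℕ)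
            rw [shPerm_pow_apply n p _ (hpow j hj) hp0, shPerm_pow_apply n p _ (hpow j hj) hp0,
              shN_add, Nat.sub_add_cancel h12.le]
          rw [e2]
          have := shN_ge p (e * p ^ j) (i₂ - i₁) _ (by omega) (by omega) h1
          omega
        rw [if_neg h2, mul_zero]
      · rw [if_neg h1, zero_mul]
    show chi F n (e * p ^ j) ((σ j ^ i) u) * chi F n (e * p ^ j) ((σ j ^ i') u) = 0
    rcases lt_or_gt_of_ne hii' with h | h
    · exact key i i' h hi'
    · rw [mul_comm]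
      exact key i' i h hi
  obtain ⟨-, h2', h3'⟩ := tower_spec c hc p Q τ D 0 k hQD hQp hQr hτp hτD hmono horth k le_rfl
  refine ⟨tower Q τ k, h2', ?_⟩
  rwa [zero_add] at h3'

/-- Block embedding `A ↦ diag(A, 1)` on sum-indexed matrices. -/
def blockHom (e r : ℕ) (F : Type*) [Field F] :
    Matrix (Fin e) (Fin e) F →* Matrix (Fin e ⊕ Fin r) (Fin e ⊕ Fin r) F where
  toFun A := Matrix.fromBlocks A 0 0 1
  map_one' := Matrix.fromBlocks_one
  map_mul' A B := by simp [Matrix.fromBlocks_multiply]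

/-- Block embedding `A ↦ diag(A, 1)` into `Fin (e + r)`-indexed matrices. -/
noncomputable def embHom (e r : ℕ) (F : Type*) [Field F] :
    Matrix (Fin e) (Fin e) F →* Matrix (Fin (e + r)) (Fin (e + r)) F :=
  ((Matrix.reindexAlgEquiv F F (finSumFinEquiv : Fin e ⊕ Fin r ≃ Fin (e + r)) :
      Matrix (Fin e ⊕ Fin r) (Fin e ⊕ Fin r) F ≃ₐ[F] Matrix (Fin (e + r)) (Fin (e + r)) F) :
      Matrix (Fin e ⊕ Fin r) (Fin e ⊕ Fin r) F →* Matrix (Fin (e + r)) (Fin (e + r)) F).comp
    (blockHom e r F)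

theorem embHom_apply (e r : ℕ) (A : Matrix (Fin e) (Fin e) F) :
    embHom e r F A = Matrix.reindexAlgEquiv F F (finSumFinEquiv : Fin e ⊕ Fin r ≃ Fin (e + r))
      (Matrix.fromBlocks A 0 0 1) := rfl

theorem embHom_injective (e r : ℕ) : Function.Injective (embHom e r F) := by
  intro A B h
  rw [embHom_apply, embHom_apply] at h
  have h2 := (Matrix.reindexAlgEquiv F F (finSumFinEquiv : Fin e ⊕ Fin r ≃ Fin (e + r))).injective h
  exact (Matrix.fromBlocks_inj.mp h2).1

theorem diag_chi_eq (e r : ℕ) :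
    Matrix.diagonal (chi F (e + r) e) =
      Matrix.reindexAlgEquiv F F (finSumFinEquiv : Fin e ⊕ Fin r ≃ Fin (e + r))
        (Matrix.fromBlocks 1 0 0 0) := by
  ext i j
  obtain ⟨i, rfl⟩ := (finSumFinEquiv : Fin e ⊕ Fin r ≃ Fin (e + r)).surjective i
  obtain ⟨j, rfl⟩ := (finSumFinEquiv : Fin e ⊕ Fin r ≃ Fin (e + r)).surjective j
  rw [Matrix.coe_reindexAlgEquiv, Matrix.reindex_apply, Matrix.submatrix_apply,
    Equiv.symm_apply_apply, Equiv.symm_apply_apply, Matrix.diagonal_apply]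
  rcases i with i | i <;> rcases j with j | j
  · simp [chi, Matrix.one_apply]
  · simp [chi, Fin.ext_iff]
    omega
  · simp [chi, Fin.ext_iff]
  · simp [chi, Fin.ext_iff]

theorem embHom_supp (e r : ℕ) (A : Matrix (Fin e) (Fin e) F) :
    Matrix.diagonal (chi F (e + r) e) * (embHom e r F A - 1) = embHom e r F A - 1 ∧
      (embHom e r F A - 1) * Matrix.diagonal (chi F (e + r) e) = embHom e r F A - 1 := by
  have h1 : embHom e r F A - 1 =
      Matrix.reindexAlgEquiv F F (finSumFinEquiv : Fin e ⊕ Fin r ≃ Fin (e + r))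
        (Matrix.fromBlocks (A - 1) 0 0 0) := by
    rw [embHom_apply]
    conv_lhs => rw [← map_one (Matrix.reindexAlgEquiv F F
      (finSumFinEquiv : Fin e ⊕ Fin r ≃ Fin (e + r)))]
    rw [← map_sub]
    congr 1
    ext (i | i) (j | j) <;> simp [Matrix.one_apply]
  rw [h1, diag_chi_eq, ← map_mul, ← map_mul, Matrix.fromBlocks_multiply,
    Matrix.fromBlocks_multiply]
  simp

theorem exists_p_subgroup [Fintype F] (p : ℕ) [Fact p.Prime]
    (hpq : ¬ p ∣ Fintype.card F) (n k : ℕ)
    (hk : orderOf ((Fintype.card F : ℕ) : ZMod p) * p ^ k ≤ n) :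
    ∃ H : Subgroup (GL (Fin n) F), IsPGroup p H ∧ dser H k ≠ ⊥ := by
  have hp : p.Prime := Fact.out
  have he0 : 0 < orderOf ((Fintype.card F : ℕ) : ZMod p) := by
    apply orderOf_pos_iff.mpr
    rw [isOfFinOrder_iff_pow_eq_one]
    refine ⟨p - 1, by have := hp.two_le; omega, ?_⟩
    apply ZMod.pow_card_sub_one_eq_one
    rw [Ne, ZMod.natCast_eq_zero_iff]
    exact hpq
  set e := orderOf ((Fintype.card F : ℕ) : ZMod p) with he
  have hen : e ≤ n := by
    calc e = e * 1 := (mul_one e).symm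
      _ ≤ e * p ^ k := Nat.mul_le_mul_left e (Nat.one_le_pow _ _ hp.pos)
      _ ≤ n := hk
  obtain ⟨r, rfl⟩ := Nat.exists_eq_add_of_le hen
  have hdvd : p ∣ Nat.card (GL (Fin e) F) := by
    rw [Matrix.card_GL_field]
    have h1 : (Fintype.card F) ^ e - (Fintype.card F) ^ ((⟨0, he0⟩ : Fin e) : ℕ) ∣
        ∏ i : Fin e, ((Fintype.card F) ^ e - (Fintype.card F) ^ (i : ℕ)) :=
      Finset.dvd_prod_of_mem _ (Finset.mem_univ _)
    refine dvd_trans ?_ h1
    have hq1 : 1 ≤ (Fintype.card F) ^ e := Nat.one_le_pow _ _ Fintype.card_pos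
    rw [← ZMod.natCast_eq_zero_iff]
    simp only [pow_zero]
    rw [Nat.cast_sub hq1, Nat.cast_pow, Nat.cast_one, he, pow_orderOf_eq_one, sub_self]
  obtain ⟨A, hA⟩ := exists_prime_orderOf_dvd_card' p hdvd
  have hAp : A ^ p = 1 := by rw [← hA]; exact pow_orderOf_eq_one A
  have hA1 : A ≠ 1 := by
    rintro rfl
    rw [orderOf_one] at hA
    exact hp.one_lt.ne hA
  let g₀ : GL (Fin (e + r)) F := Units.map (embHom e r F) A
  have hg : g₀ ^ p = 1 := by
    show Units.map (embHom e r F) A ^ p = 1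
    rw [← map_pow, hAp, map_one]
  have hg1 : g₀ ≠ 1 := by
    intro h
    apply hA1
    apply Units.ext
    apply embHom_injective e r
    have := congrArg (fun u : GL (Fin (e + r)) F => (u : Matrix (Fin (e + r)) (Fin (e + r)) F)) h
    simpa [g₀] using this
  have hsupp : g₀ ∈ SuppSub (Units.coeHom (Matrix (Fin (e + r)) (Fin (e + r)) F))
      (Matrix.diagonal (chi F (e + r) e)) :=
    embHom_supp e r (A : Matrix (Fin e) (Fin e) F)
  exact exists_p_subgroup_of_base p (e + r) e k hk g₀ hg hg1 hsupp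

end Cfsg.Agent.H76.GLTower
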