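import Mathlib
import Cfsg.Agent.H76.LinDer

/-!
# The divisibility hypothesis `FpfDvd` over a finite field
-/

set_option autoImplicit false

namespace Cfsg.Agent.H76.LinDer

universe u w

/-- Over a finite field with `q` elements, an operator of order `p` without nonzero fixed vectors
acts on a space whose dimension is divisible by the order of `q` modulo `p`. -/
theorem fpfDvd_finite {F : Type w} [Field F] [Fintype F] (p : ℕ) [Fact p.Prime] :
    FpfDvd.{u, w} F p (orderOf ((Fintype.card F : ℕ) : ZMod p)) := by
  intro U _ _ _ x hx hfix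
  classical
  have : Finite U := Module.finite_of_finite F
  have : Fintype U := Fintype.ofFinite U
  have h1 : Fintype.card U = Fintype.card F ^ Module.finrank F U :=
    Module.card_eq_pow_finrank (K := F)
  let f : Function.End U := fun u => x u
  have hx' : f ^ p ^ 1 = 1 := by
    rw [pow_one]
    have h2 := hom_coe_pow (fun g : Function.End U => g) rfl (fun _ _ => rfl) f p
    funext u
    have h3 : (f ^ p) u = (⇑x)^[p] u := congrFun h2 u
    rw [h3, ← Module.End.pow_apply, hx]
    rfl
  have h2 := Equiv.Perm.card_fixedPoints_modEq (f := f) (p := p) (n := 1) hx'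
  have h3 : Fintype.card (Function.fixedPoints f) = 1 := by
    rw [Fintype.card_eq_one_iff]
    refine ⟨⟨0, map_zero x⟩, ?_⟩
    rintro ⟨u, hu⟩
    exact Subtype.ext (hfix u hu)
  rw [h3, h1] at h2
  apply orderOf_dvd_of_pow_eq_one
  have h4 := (ZMod.natCast_eq_natCast_iff _ _ _).mpr h2
  push_cast at h4
  exact h4

end Cfsg.Agent.H76.LinDer
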