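import Mathlib
import Cfsg.Agent.H76.LinDer
import Cfsg.Agent.H3.PGroup

/-!
# Finite linear `p`-groups in characteristic `p`: the unipotent filtration
-/

set_option autoImplicit false

namespace Cfsg.Agent.H76.LinDer

open scoped commutatorElement

universe u v w

section unip

variable {F : Type w} [Field F] {V : Type u} [AddCommGroup V] [Module F V]

/-- A finite `p`-group acting in characteristic `p` fixes a vector modulo any proper invariant
subspace. -/
theorem exists_fixed_mod (p : ℕ) [Fact p.Prime] (hpF : (p : F) = 0) :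
    ∀ (k : ℕ) (P : Type v) [Group P] [Finite P], Nat.card P = k → IsPGroup p P →
      ∀ (ρ : P →* Module.End F V) (U : Submodule F V), Inv ρ U → U ≠ ⊤ →
        ∃ v, v ∉ U ∧ ∀ g : P, ρ g v - v ∈ U := by
  intro k
  induction k using Nat.strong_induction_on with
  | _ k IH =>
    intro P _ _ hk hP ρ U hU hU1
    have hp : p.Prime := Fact.out
    obtain ⟨v₀, hv₀⟩ : ∃ v, v ∉ U := by
      by_contra hcon
      push Not at hcon
      exact hU1 (Submodule.eq_top_iff'.mpr hcon)
    by_cases htriv : Subsingleton P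
    · refine ⟨v₀, hv₀, fun g => ?_⟩
      rw [Subsingleton.elim g 1, map_one, Module.End.one_apply, sub_self]
      exact U.zero_mem
    · rw [not_subsingleton_iff_nontrivial] at htriv
      obtain ⟨M, hM⟩ : ∃ M : Subgroup P, IsCoatom M := by
        rcases eq_top_or_exists_le_coatom (⊥ : Subgroup P) with h | ⟨M, hM, -⟩
        · exact absurd h bot_ne_top
        · exact ⟨M, hM⟩
      have hMn : M.Normal := Cfsg.Agent.H3.coatom_normal hP hM
      have hMi : M.index = p := Cfsg.Agent.H3.coatom_index hP hM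
      have hMcard : Nat.card M < k := by
        rw [← hk, ← Subgroup.card_mul_index M, hMi]
        have h1 := hp.one_lt
        have h2 : 0 < Nat.card M := Nat.card_pos
        nlinarith
      let UM : Submodule F V := ⨅ g : M, Submodule.comap (ρ (g : P) - 1) U
      have hUM : ∀ v, v ∈ UM ↔ ∀ g ∈ M, ρ g v - v ∈ U := by
        intro v
        simp only [UM, Submodule.mem_iInf, Submodule.mem_comap, LinearMap.sub_apply,
          Module.End.one_apply, Subtype.forall]
      obtain ⟨v, hvU, hvM⟩ := IH _ hMcard M rfl (hP.to_subgroup M) (ρ.comp M.subtype) U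
        (fun g w hw => hU g w hw) hU1
      have hvUM : v ∈ UM := (hUM v).mpr (fun g hg => hvM ⟨g, hg⟩)
      obtain ⟨x, hx⟩ : ∃ x, x ∉ M := by
        by_contra hcon
        push Not at hcon
        exact hM.1 ((Subgroup.eq_top_iff' M).mpr hcon)
      have hxp : x ^ p ∈ M := Cfsg.Agent.H3.pow_mem_coatom hP hM x
      have hxUM : ∀ u ∈ UM, ρ x u ∈ UM := by
        intro u hu
        rw [hUM] at hu ⊢
        intro g hg
        have h1 : x⁻¹ * g * x ∈ M := by
          have := hMn.conj_mem g hg x⁻¹
          simpa using this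
        have h2 := hU x _ (hu _ h1)
        rw [map_sub, ← rho_mul_apply] at h2
        have h3 : x * (x⁻¹ * g * x) = g * x := by group
        rw [h3, rho_mul_apply] at h2
        exact h2
      have hNUM : ∀ u ∈ UM, (ρ x - 1) u ∈ UM := fun u hu => by
        rw [LinearMap.sub_apply, Module.End.one_apply]
        exact UM.sub_mem (hxUM u hu) hu
      have hNp : ∀ u ∈ UM, ((ρ x - 1) ^ p) u ∈ U := by
        intro u hu
        have hnt : Nontrivial V := ⟨⟨v₀, 0, fun h => hv₀ (h ▸ U.zero_mem)⟩⟩
        have h0 : ((p : ℕ) : Module.End F V) = 0 := by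
          rw [← map_natCast (algebraMap F (Module.End F V)), hpF, map_zero]
        have : CharP (Module.End F V) p := (CharP.charP_iff_prime_eq_zero hp).mpr h0
        have h1 : (ρ x - 1) ^ p = ρ (x ^ p) - 1 := by
          rw [sub_pow_char_of_commute p (Commute.one_right (ρ x)), one_pow, map_pow]
        rw [h1, LinearMap.sub_apply, Module.End.one_apply]
        exact (hUM u).mp hu _ hxp
      obtain ⟨w, hwUM, hwU, hNw⟩ : ∃ w ∈ UM, w ∉ U ∧ (ρ x - 1) w ∈ U := by
        by_contra hcon
        push Not at hcon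
        have hj : ∀ j : ℕ, ∀ w ∈ UM, w ∉ U → ((ρ x - 1) ^ j) w ∉ U := by
          intro j
          induction j with
          | zero => intro w _ hw; simpa using hw
          | succ j ih =>
            intro w hw hwU
            rw [pow_succ, Module.End.mul_apply]
            exact ih _ (hNUM w hw) (hcon w hw hwU)
        exact hj p v hvUM hvU (hNp v hvUM)
      refine ⟨w, hwU, ?_⟩
      let Q : Subgroup P :=
        { carrier := {g | ρ g w - w ∈ U}
          mul_mem' := by
            intro g h hg hh
            show ρ (g * h) w - w ∈ U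
            have : ρ (g * h) w - w = ρ g (ρ h w - w) + (ρ g w - w) := by
              rw [rho_mul_apply, map_sub]; abel
            rw [this]
            exact U.add_mem (hU g _ hh) hg
          one_mem' := by
            show ρ 1 w - w ∈ U
            rw [map_one, Module.End.one_apply, sub_self]
            exact U.zero_mem
          inv_mem' := by
            intro g hg
            show ρ g⁻¹ w - w ∈ U
            have : ρ g⁻¹ w - w = - ρ g⁻¹ (ρ g w - w) := by
              rw [map_sub, rho_inv_apply]; abel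
            rw [this]
            exact U.neg_mem (hU g⁻¹ _ hg) }
      have hMQ : M ≤ Q := fun g hg => (hUM w).mp hwUM g hg
      have hxQ : x ∈ Q := by
        show ρ x w - w ∈ U
        rwa [LinearMap.sub_apply, Module.End.one_apply] at hNw
      have hQtop : Q = ⊤ := hM.2 Q (lt_of_le_of_ne hMQ (fun h => hx (h ▸ hxQ)))
      intro g
      have : g ∈ Q := hQtop ▸ Subgroup.mem_top g
      exact this

variable {P : Type v} [Group P]

/-- The ascending filtration: `flag (j + 1)` is the set of vectors fixed modulo `flag j`. -/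
def flag (ρ : P →* Module.End F V) : ℕ → Submodule F V
  | 0 => ⊥
  | j + 1 => ⨅ g : P, Submodule.comap (ρ g - 1) (flag ρ j)

theorem mem_flag_succ (ρ : P →* Module.End F V) (j : ℕ) (v : V) :
    v ∈ flag ρ (j + 1) ↔ ∀ g, ρ g v - v ∈ flag ρ j := by
  simp only [flag, Submodule.mem_iInf, Submodule.mem_comap, LinearMap.sub_apply,
    Module.End.one_apply]

theorem flag_inv (ρ : P →* Module.End F V) : ∀ j, Inv ρ (flag ρ j)
  | 0 => by
    intro g w hw
    simp only [flag, Submodule.mem_bot] at hw ⊢
    rw [hw, map_zero]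
  | j + 1 => by
    intro h v hv
    rw [mem_flag_succ] at hv ⊢
    intro g
    have h1 := flag_inv ρ j h _ (hv (h⁻¹ * g * h))
    rw [map_sub, ← rho_mul_apply] at h1
    have h2 : h * (h⁻¹ * g * h) = g * h := by group
    rw [h2, rho_mul_apply] at h1
    exact h1

theorem flag_mono (ρ : P →* Module.End F V) : ∀ j, flag ρ j ≤ flag ρ (j + 1)
  | 0 => bot_le
  | j + 1 => by
    intro v hv
    rw [mem_flag_succ] at hv ⊢
    intro g
    exact flag_mono ρ j (hv g)

theorem flag_mono' (ρ : P →* Module.End F V) {i j : ℕ} (h : i ≤ j) : flag ρ i ≤ flag ρ j :=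
  monotone_nat_of_le_succ (flag_mono ρ) h

theorem flag_lt (p : ℕ) [Fact p.Prime] (hpF : (p : F) = 0) [Finite P] (hP : IsPGroup p P)
    (ρ : P →* Module.End F V) (j : ℕ) (h : flag ρ j ≠ ⊤) : flag ρ j < flag ρ (j + 1) := by
  obtain ⟨v, hv, hv'⟩ := exists_fixed_mod p hpF _ P rfl hP ρ (flag ρ j) (flag_inv ρ j) h
  refine lt_of_le_of_ne (flag_mono ρ j) ?_
  intro heq
  apply hv
  rw [heq, mem_flag_succ]
  exact hv'

theorem flag_finrank (p : ℕ) [Fact p.Prime] (hpF : (p : F) = 0) [Finite P] (hP : IsPGroup p P)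
    [FiniteDimensional F V] (ρ : P →* Module.End F V) :
    ∀ j, j ≤ Module.finrank F (flag ρ j) ∨ flag ρ j = ⊤ := by
  intro j
  induction j with
  | zero => left; exact Nat.zero_le _
  | succ j ih =>
    by_cases htop : flag ρ j = ⊤
    · right
      exact top_le_iff.mp (htop ▸ flag_mono ρ j)
    · left
      have h1 := Submodule.finrank_lt_finrank_of_lt (flag_lt p hpF hP ρ j htop)
      rcases ih with h | h
      · omega
      · exact absurd h htop

theorem flag_top (p : ℕ) [Fact p.Prime] (hpF : (p : F) = 0) [Finite P] (hP : IsPGroup p P)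
    [FiniteDimensional F V] (ρ : P →* Module.End F V) :
    flag ρ (Module.finrank F V) = ⊤ := by
  rcases flag_finrank p hpF hP ρ (Module.finrank F V) with h | h
  · exact Submodule.eq_top_of_finrank_eq (le_antisymm (Submodule.finrank_le _) h)
  · exact h

/-- Elements moving `flag (j + d)` into `flag j`. -/
def Dsub (ρ : P →* Module.End F V) (d : ℕ) : Subgroup P where
  carrier := {g | ∀ j, ∀ v ∈ flag ρ (j + d), ρ g v - v ∈ flag ρ j}
  one_mem' := by
    intro j v _
    rw [map_one, Module.End.one_apply, sub_self]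
    exact Submodule.zero_mem _
  mul_mem' := by
    intro g h hg hh j v hv
    have : ρ (g * h) v - v = ρ g (ρ h v - v) + (ρ g v - v) := by
      rw [rho_mul_apply, map_sub]; abel
    rw [this]
    exact Submodule.add_mem _ (flag_inv ρ j g _ (hh j v hv)) (hg j v hv)
  inv_mem' := by
    intro g hg j v hv
    have : ρ g⁻¹ v - v = - ρ g⁻¹ (ρ g v - v) := by
      rw [map_sub, rho_inv_apply]; abel
    rw [this]
    exact Submodule.neg_mem _ (flag_inv ρ j g⁻¹ _ (hg j v hv))

theorem mem_Dsub (ρ : P →* Module.End F V) (d : ℕ) (g : P) :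
    g ∈ Dsub ρ d ↔ ∀ j, ∀ v ∈ flag ρ (j + d), ρ g v - v ∈ flag ρ j := Iff.rfl

theorem comm_mem_Dsub (ρ : P →* Module.End F V) (d : ℕ) {g h : P} (hg : g ∈ Dsub ρ d)
    (hh : h ∈ Dsub ρ d) : ⁅g, h⁆ ∈ Dsub ρ (2 * d) := by
  intro j v hv
  obtain ⟨u, hu_def⟩ : ∃ u, u = ρ (g⁻¹ * h⁻¹) v := ⟨_, rfl⟩
  have e : j + 2 * d = j + d + d := by ring
  rw [e] at hv
  have hu : u ∈ flag ρ (j + d + d) := by
    rw [hu_def]
    exact flag_inv ρ _ (g⁻¹ * h⁻¹) v hv
  have ha := hg (j + d) u hu
  have hb := hh (j + d) u hu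
  have ha' := hh j _ ha
  have hb' := hg j _ hb
  have e1 : ρ ⁅g, h⁆ v = ρ g (ρ h u) := by
    rw [hu_def, ← rho_mul_apply, ← rho_mul_apply, commutatorElement_def]
    congr 2
    group
  have e2 : v = ρ h (ρ g u) := by
    rw [hu_def, ← rho_mul_apply, ← rho_mul_apply]
    have : h * g * (g⁻¹ * h⁻¹) = 1 := by group
    rw [this, map_one, Module.End.one_apply]
  have key : ρ ⁅g, h⁆ v - v =
      (ρ g (ρ h u - u) - (ρ h u - u)) - (ρ h (ρ g u - u) - (ρ g u - u)) := by
    calc ρ ⁅g, h⁆ v - v = ρ g (ρ h u) - ρ h (ρ g u) := by rw [e1, ← e2]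
      _ = _ := by simp only [map_sub]; abel
  rw [key]
  exact Submodule.sub_mem _ hb' ha'

theorem derivedSeries_le_Dsub (ρ : P →* Module.End F V) (k : ℕ) :
    derivedSeries P k ≤ Dsub ρ (2 ^ k) := by
  induction k with
  | zero =>
    intro g _ j v hv
    rw [pow_zero] at hv
    exact (mem_flag_succ ρ j v).mp hv g
  | succ k ih =>
    rw [derivedSeries_succ, Subgroup.commutator_le]
    intro g hg h hh
    rw [pow_succ']
    exact comm_mem_Dsub ρ _ (ih hg) (ih hh)

/-- In characteristic `p`, the `k`-th derived subgroup of a finite `p`-group acts trivially as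
soon as `dim V ≤ 2 ^ k`. -/
theorem unip_derived (p : ℕ) [Fact p.Prime] (hpF : (p : F) = 0) [Finite P] (hP : IsPGroup p P)
    [FiniteDimensional F V] (ρ : P →* Module.End F V) (k : ℕ)
    (hk : Module.finrank F V ≤ 2 ^ k) : derivedSeries P k ≤ ρ.ker := by
  intro g hg
  have h1 := derivedSeries_le_Dsub ρ k hg
  rw [MonoidHom.mem_ker]
  ext v
  rw [Module.End.one_apply]
  have h3 : v ∈ flag ρ (0 + 2 ^ k) := by
    rw [zero_add]
    have := flag_mono' ρ hk
    rw [flag_top p hpF hP ρ] at this
    exact this Submodule.mem_top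
  have h2 := h1 0 v h3
  simp only [flag, Submodule.mem_bot] at h2
  exact sub_eq_zero.mp h2

end unip

end Cfsg.Agent.H76.LinDer
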