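import Mathlib

set_option autoImplicit false

/-!
# The semidihedral group of order 16 acting on `F_3 ^ 2` (the group `ΓL(1, 9)`)

A small computational model, all checks by `decide`.
-/

namespace Cfsg.Agent.H76

/-- The semidihedral group of order 16, as pairs `(k, e)` standing for `r ^ k * s ^ e`
with `s r s⁻¹ = r ^ 3`. -/
structure SD16 where
  k : Fin 8
  e : Fin 2
  deriving DecidableEq, Fintype

namespace SD16

/-- multiplication -/
def mul (a b : SD16) : SD16 := ⟨a.k + (if a.e = 0 then b.k else 3 * b.k), a.e + b.e⟩

/-- inverse -/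
def inv (a : SD16) : SD16 := ⟨-(if a.e = 0 then a.k else 3 * a.k), a.e⟩

instance : Group SD16 where
  mul := mul
  one := ⟨0, 0⟩
  inv := inv
  mul_assoc := by decide
  one_mul := by decide
  mul_one := by decide
  inv_mul_cancel := by decide

/-- The plane over `F_3`. -/
abbrev V := Fin 3 × Fin 3

/-- multiplication by `1 + i` on `F_9 = F_3[i]` -/
def R (v : V) : V := (v.1 - v.2, v.1 + v.2)

/-- the Frobenius map (conjugation) on `F_9 = F_3[i]` -/
def C (v : V) : V := (v.1, -v.2)

/-- the action of `SD16` on the plane -/
def act (h : SD16) (v : V) : V := R^[h.k.val] (if h.e = 0 then v else C v)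

theorem act_mul : ∀ (h h' : SD16) (v : V), act (h * h') v = act h (act h' v) := by decide

theorem act_one : ∀ (v : V), act 1 v = v := by decide

theorem act_add : ∀ (h : SD16) (v w : V), act h (v + w) = act h v + act h w := by decide

/-- the reflection (Frobenius) -/
def s : SD16 := ⟨0, 1⟩

theorem s_sq : s ^ 2 = 1 := by decide

theorem s_ne_one : s ≠ 1 := by decide

theorem act_s_ne : act s (0, 1) ≠ (0, 1) := by decide

theorem card_eq : Fintype.card SD16 = 16 := by decide

/-- the left component of the conjugate of `(n, h)` by `(m, k)` in the semidirect product -/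
def conjLeft (k : SD16) (m : V) (h : SD16) (n : V) : V :=
  m + act k n + act (k * h) (act k⁻¹ (-m))

theorem key : ∀ (n : V) (h : SD16), ∃ (k : SD16) (m : V),
    (conjLeft k m h n = 0) ∨
    (act s (conjLeft k m h n) = conjLeft k m h n ∧
      (k * h * k⁻¹) * s = s * (k * h * k⁻¹)) := by decide

end SD16

end Cfsg.Agent.H76
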