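import Mathlib

set_option autoImplicit false

namespace Cfsg.Agent.H76

/-- A nontrivial finite solvable group has a nontrivial normal abelian subgroup. -/
theorem exists_normal_abelian_of_solvable {G : Type*} [Group G] [Nontrivial G]
    (hG : Group.IsSolvable G) :
    ∃ A : Subgroup G, A.Normal ∧ A ≠ ⊥ ∧ ∀ a ∈ A, ∀ b ∈ A, a * b = b * a := by
  classical
  have hex : ∃ n, derivedSeries G n = ⊥ := hG.solvable
  set n := Nat.find hex with hn
  have hn0 : n ≠ 0 := by
    intro h0
    have := Nat.find_spec hex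
    rw [← hn, h0, derivedSeries_zero] at this
    exact top_ne_bot this
  obtain ⟨m, hm⟩ := Nat.exists_eq_succ_of_ne_zero hn0
  refine ⟨derivedSeries G m, inferInstance, ?_, ?_⟩
  · intro h
    have := Nat.find_min' hex h
    omega
  · intro a ha b hb
    have h1 : derivedSeries G (m + 1) = ⊥ := by
      have := Nat.find_spec hex
      rwa [← hn, hm] at this
    rw [derivedSeries_succ, Subgroup.commutator_eq_bot_iff_le_centralizer] at h1
    exact (Subgroup.mem_centralizer_iff.mp (h1 ha) b hb).symm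

/-- A nontrivial finite solvable group has a nontrivial normal `q`-subgroup for some prime `q`. -/
theorem exists_normal_pGroup_of_solvable {G : Type*} [Group G] [Finite G] [Nontrivial G]
    (hG : Group.IsSolvable G) :
    ∃ (q : ℕ) (K : Subgroup G), q.Prime ∧ K.Normal ∧ K ≠ ⊥ ∧ IsPGroup q K := by
  obtain ⟨A, hAn, hA, hcomm⟩ := exists_normal_abelian_of_solvable hG
  have hcard : Nat.card A ≠ 1 := by
    intro h
    exact hA (Subgroup.card_eq_one.mp h)
  set q := (Nat.card A).minFac with hq
  have hqp : q.Prime := Nat.minFac_prime hcard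
  have : Fact q.Prime := ⟨hqp⟩
  let K : Subgroup G :=
    { carrier := {a | a ∈ A ∧ ∃ k : ℕ, a ^ (q ^ k) = 1}
      one_mem' := ⟨A.one_mem, 0, one_pow _⟩
      mul_mem' := by
        rintro a b ⟨ha, i, hi⟩ ⟨hb, j, hj⟩
        refine ⟨A.mul_mem ha hb, i + j, ?_⟩
        have hc : Commute a b := hcomm a ha b hb
        rw [hc.mul_pow, pow_add, pow_mul, hi, one_pow, one_mul, mul_comm (q ^ i), pow_mul, hj,
          one_pow]
      inv_mem' := by
        rintro a ⟨ha, i, hi⟩
        exact ⟨A.inv_mem ha, i, by rw [inv_pow, hi, inv_one]⟩ }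
  refine ⟨q, K, hqp, ?_, ?_, ?_⟩
  · constructor
    rintro a ⟨ha, i, hi⟩ g
    refine ⟨hAn.conj_mem a ha g, i, ?_⟩
    rw [conj_pow, hi, mul_one, mul_inv_cancel]
  · obtain ⟨x, hx⟩ := exists_prime_orderOf_dvd_card' (G := A) q (Nat.minFac_dvd _)
    intro hK
    have hxK : (x : G) ∈ K := by
      refine ⟨x.2, 1, ?_⟩
      rw [pow_one]
      have h1 : x ^ q = 1 := by rw [← hx]; exact pow_orderOf_eq_one x
      have h2 := congrArg Subtype.val h1
      simpa using h2
    rw [hK, Subgroup.mem_bot] at hxK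
    have : x = 1 := Subtype.ext hxK
    rw [this, orderOf_one] at hx
    exact hqp.one_lt.ne hx
  · rintro ⟨a, ha, i, hi⟩
    exact ⟨i, Subtype.ext hi⟩

end Cfsg.Agent.H76
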