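import Mathlib
import Cfsg.Agent.H76.Wreath
import Cfsg.Agent.H76.PermDiag

/-!
# A 2-subgroup of `Sp_{2n}(F)` of large derived length: `Q8 ≀ C2 ≀ ⋯ ≀ C2`
-/

set_option autoImplicit false
set_option linter.unusedSimpArgs false

namespace Cfsg.Agent.H76.SpTower

open Cfsg.Agent.H76 Cfsg.Agent.H76.Wreath Cfsg.Agent.H76.PermDiag
open scoped commutatorElement

variable {F : Type*} [Field F] {n : ℕ}

/-- The coercion hom. -/
def cSp (n : ℕ) (F : Type*) [Field F] :
    ↥(Matrix.symplecticGroup (Fin n) F) →* Matrix (Fin n ⊕ Fin n) (Fin n ⊕ Fin n) F :=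
  (Matrix.symplecticGroup (Fin n) F).subtype

theorem cSp_injective : Function.Injective (cSp n F) := Subtype.val_injective

/-- Diagonal matrix repeating `χ` on both halves. -/
def Dg (χ : Fin n → F) : Matrix (Fin n ⊕ Fin n) (Fin n ⊕ Fin n) F :=
  Matrix.diagonal (Sum.elim χ χ)

/-- The permutation of `Fin n ⊕ Fin n` acting as `σ` on both halves. -/
def sc (σ : Equiv.Perm (Fin n)) : Equiv.Perm (Fin n ⊕ Fin n) := Equiv.sumCongr σ σ

@[simp] theorem sc_inl (σ : Equiv.Perm (Fin n)) (i : Fin n) : sc σ (Sum.inl i) = Sum.inl (σ i) :=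
  rfl

@[simp] theorem sc_inr (σ : Equiv.Perm (Fin n)) (i : Fin n) : sc σ (Sum.inr i) = Sum.inr (σ i) :=
  rfl

theorem sc_mul_self (σ : Equiv.Perm (Fin n)) (h : σ * σ = 1) : sc σ * sc σ = 1 := by
  ext u
  have h1 : ∀ i, σ (σ i) = i := fun i => by
    have := congrArg (fun f : Equiv.Perm (Fin n) => f i) h
    simpa using this
  rcases u with i | i <;> simp [Equiv.Perm.mul_apply, h1]

/-- The symplectic permutation matrix of `σ`. -/
def permSp (σ : Equiv.Perm (Fin n)) : ↥(Matrix.symplecticGroup (Fin n) F) :=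
  ⟨(sc σ).permMatrix F, by
    rw [SymplecticGroup.mem_iff, Matrix.transpose_permMatrix, PEquiv.toMatrix_toPEquiv_mul,
      PEquiv.mul_toMatrix_toPEquiv]
    ext u v
    have e : ∀ w, (Equiv.symm (sc σ)⁻¹) w = (sc σ) w := fun w => rfl
    rcases u with i | i <;> rcases v with j | j <;>
      simp [Matrix.J, e, Matrix.one_apply, σ.injective.eq_iff]⟩

theorem permSp_mul_self (σ : Equiv.Perm (Fin n)) (h : σ * σ = 1) :
    (permSp σ : ↥(Matrix.symplecticGroup (Fin n) F)) * permSp σ = 1 := by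
  apply Subtype.ext
  show (sc σ).permMatrix F * (sc σ).permMatrix F = 1
  rw [← Matrix.permMatrix_mul, sc_mul_self σ h, Matrix.permMatrix_one]

theorem permSp_inv (σ : Equiv.Perm (Fin n)) (h : σ * σ = 1) :
    (permSp σ : ↥(Matrix.symplecticGroup (Fin n) F))⁻¹ = permSp σ :=
  inv_eq_of_mul_eq_one_right (permSp_mul_self σ h)

theorem permSp_conj (σ : Equiv.Perm (Fin n)) (h : σ * σ = 1) (χ : Fin n → F) :
    cSp n F (permSp σ) * Dg χ * cSp n F (permSp σ)⁻¹ = Dg (χ ∘ σ) := by
  rw [permSp_inv σ h]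
  show (sc σ).permMatrix F * Matrix.diagonal _ * (sc σ).permMatrix F = _
  have h1 : (sc σ)⁻¹ = sc σ := inv_eq_of_mul_eq_one_right (sc_mul_self σ h)
  have h2 := perm_conj_diag (F := F) (sc σ) (Sum.elim χ χ)
  rw [h1] at h2
  rw [h2, Dg]
  congr 1
  funext u
  rcases u with i | i <;> rfl

theorem permSp_supp (σ : Equiv.Perm (Fin n)) (χ : Fin n → F) (h01 : ∀ i, χ i = 0 ∨ χ i = 1)
    (hfix : ∀ i, χ i = 0 → σ i = i) : permSp σ ∈ SuppSub (cSp n F) (Dg χ) := by
  have h01' : ∀ u : Fin n ⊕ Fin n, Sum.elim χ χ u = 0 ∨ Sum.elim χ χ u = 1 := by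
    rintro (i | i) <;> exact h01 i
  have hfix' : ∀ u : Fin n ⊕ Fin n, Sum.elim χ χ u = 0 → sc σ u = u := by
    rintro (i | i) hi
    · rw [sc_inl, hfix i hi]
    · rw [sc_inr, hfix i hi]
  exact ⟨diag_mul_perm_sub_one (sc σ) _ h01' hfix', perm_sub_one_mul_diag (sc σ) _ h01' hfix'⟩

/-- `x` at `i₀`, `y` elsewhere. -/
def upd (i₀ : Fin n) (x y : F) : Fin n → F := fun i => if i = i₀ then x else y

/-- A `2 × 2` matrix placed at position `i₀`. -/
def locMat (i₀ : Fin n) (A : Matrix (Fin 2) (Fin 2) F) :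
    Matrix (Fin n ⊕ Fin n) (Fin n ⊕ Fin n) F :=
  Matrix.fromBlocks (Matrix.diagonal (upd i₀ (A 0 0) 1)) (Matrix.diagonal (upd i₀ (A 0 1) 0))
    (Matrix.diagonal (upd i₀ (A 1 0) 0)) (Matrix.diagonal (upd i₀ (A 1 1) 1))

theorem locMat_one (i₀ : Fin n) : locMat i₀ (1 : Matrix (Fin 2) (Fin 2) F) = 1 := by
  have h1 : upd i₀ (1 : F) 1 = fun _ => 1 := by funext i; simp [upd]
  have h0 : upd i₀ (0 : F) 0 = fun _ => 0 := by funext i; simp [upd]
  simp only [locMat, Matrix.one_apply_eq, Matrix.one_apply_ne, ne_eq, Fin.isValue,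
    zero_ne_one, one_ne_zero, not_false_eq_true, h1, h0]
  rw [← Matrix.fromBlocks_one]
  congr 1 <;> ext i j <;> simp [Matrix.diagonal_apply]

theorem locMat_mul (i₀ : Fin n) (A B : Matrix (Fin 2) (Fin 2) F) :
    locMat i₀ (A * B) = locMat i₀ A * locMat i₀ B := by
  simp only [locMat, Matrix.fromBlocks_multiply, Matrix.diagonal_mul_diagonal,
    Matrix.diagonal_add, Matrix.mul_apply, Fin.sum_univ_two]
  congr 1 <;> (congr 1; funext i; simp only [upd]; split_ifs <;> ring)

theorem locMat_mem (i₀ : Fin n) (A : Matrix (Fin 2) (Fin 2) F) (hA : A.det = 1) :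
    locMat i₀ A ∈ Matrix.symplecticGroup (Fin n) F := by
  rw [locMat, SymplecticGroup.fromBlocks_mem_iff]
  simp only [Matrix.diagonal_transpose, Matrix.diagonal_mul_diagonal, Matrix.diagonal_sub]
  rw [Matrix.det_fin_two] at hA
  refine ⟨?_, ?_, ?_⟩
  · congr 1; funext i; ring
  · congr 1; funext i; ring
  · rw [← Matrix.diagonal_one]
    congr 1
    funext i
    simp only [upd]
    split_ifs
    · linear_combination hA
    · ring

/-- `SL₂(F)` placed at position `i₀`. -/
def phi0 (i₀ : Fin n) :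
    Matrix.SpecialLinearGroup (Fin 2) F →* ↥(Matrix.symplecticGroup (Fin n) F) where
  toFun A := ⟨locMat i₀ A.1, locMat_mem i₀ A.1 A.2⟩
  map_one' := Subtype.ext (locMat_one i₀)
  map_mul' A B := Subtype.ext (locMat_mul i₀ A.1 B.1)

theorem phi0_injective (i₀ : Fin n) : Function.Injective (phi0 (F := F) i₀) := by
  intro A B h
  have h' : locMat i₀ A.1 = locMat i₀ B.1 := congrArg Subtype.val h
  apply Subtype.ext
  ext i j
  fin_cases i <;> fin_cases j
  · have := congrFun (congrFun h' (Sum.inl i₀)) (Sum.inl i₀)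
    simpa [locMat, upd] using this
  · have := congrFun (congrFun h' (Sum.inl i₀)) (Sum.inr i₀)
    simpa [locMat, upd] using this
  · have := congrFun (congrFun h' (Sum.inr i₀)) (Sum.inl i₀)
    simpa [locMat, upd] using this
  · have := congrFun (congrFun h' (Sum.inr i₀)) (Sum.inr i₀)
    simpa [locMat, upd] using this

theorem phi0_supp (i₀ : Fin n) (A : Matrix.SpecialLinearGroup (Fin 2) F) :
    phi0 i₀ A ∈ SuppSub (cSp n F) (Dg (upd i₀ 1 0)) := by
  constructor
  · show Matrix.diagonal _ * (locMat i₀ A.1 - 1) = locMat i₀ A.1 - 1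
    ext u v
    rw [Matrix.diagonal_mul]
    rcases u with i | i <;> by_cases hi : i = i₀
    · simp [upd, hi]
    · rcases v with j | j <;>
        simp [locMat, upd, hi, Matrix.one_apply, Matrix.diagonal_apply]
    · simp [upd, hi]
    · rcases v with j | j <;>
        simp [locMat, upd, hi, Matrix.one_apply, Matrix.diagonal_apply]
  · show (locMat i₀ A.1 - 1) * Matrix.diagonal _ = locMat i₀ A.1 - 1
    ext u v
    rw [Matrix.mul_diagonal]
    rcases v with j | j <;> by_cases hj : j = i₀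
    · simp [upd, hj]
    · rcases u with i | i <;> by_cases hij : i = j <;>
        simp [locMat, upd, hj, hij, Matrix.one_apply, Matrix.diagonal_apply]
    · simp [upd, hj]
    · rcases u with i | i <;> by_cases hij : i = j <;>
        simp [locMat, upd, hj, hij, Matrix.one_apply, Matrix.diagonal_apply]

/-! ### The quaternion group in `SL₂(F)` -/

/-- `!![0, 1; -1, 0]`. -/
def mI : Matrix (Fin 2) (Fin 2) F := !![0, 1; -1, 0]

/-- `!![a, b; b, -a]`. -/
def mJ (a b : F) : Matrix (Fin 2) (Fin 2) F := !![a, b; b, -a]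

theorem mI_det : (mI : Matrix (Fin 2) (Fin 2) F).det = 1 := by
  simp [mI, Matrix.det_fin_two]

theorem mJ_det (a b : F) (h : a ^ 2 + b ^ 2 = -1) : (mJ a b).det = 1 := by
  rw [mJ, Matrix.det_fin_two]
  simp only [Matrix.of_apply, Matrix.cons_val', Matrix.cons_val_zero, Matrix.cons_val_one,
    Matrix.cons_val_fin_one]
  linear_combination -h

theorem mI_sq : (mI : Matrix (Fin 2) (Fin 2) F) * mI = -1 := by
  ext i j
  fin_cases i <;> fin_cases j <;> simp [mI, Matrix.mul_apply, Fin.sum_univ_two]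

theorem mJ_sq (a b : F) (h : a ^ 2 + b ^ 2 = -1) : mJ a b * mJ a b = -1 := by
  ext i j
  fin_cases i <;> fin_cases j <;> simp [mJ, Matrix.mul_apply, Fin.sum_univ_two]
  · linear_combination h
  · ring
  · ring
  · linear_combination h

theorem mIJI (a b : F) : mI * mJ a b * mI = mJ a b := by
  ext i j
  fin_cases i <;> fin_cases j <;> simp [mI, mJ, Matrix.mul_apply, Fin.sum_univ_two]

theorem mIJ_ne (a b : F) (h : a ^ 2 + b ^ 2 = -1) (h2 : (2 : F) ≠ 0) :
    mI * mJ a b ≠ mJ a b * mI := by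
  intro heq
  have h00 := congrFun (congrFun heq 0) 0
  have h01 := congrFun (congrFun heq 0) 1
  simp [mI, mJ, Matrix.mul_apply, Fin.sum_univ_two] at h00 h01
  have hb : b = 0 := by
    have : (2 : F) * b = 0 := by linear_combination h00
    exact (mul_eq_zero.mp this).resolve_left h2
  have ha : a = 0 := by
    have : (2 : F) * a = 0 := by linear_combination -h01
    exact (mul_eq_zero.mp this).resolve_left h2
  rw [ha, hb] at h
  norm_num at h

/-- `I` in `SL₂`. -/
def sI : Matrix.SpecialLinearGroup (Fin 2) F := ⟨mI, mI_det⟩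

/-- `J` in `SL₂`. -/
def sJ (a b : F) (h : a ^ 2 + b ^ 2 = -1) : Matrix.SpecialLinearGroup (Fin 2) F :=
  ⟨mJ a b, mJ_det a b h⟩

theorem sI_pow_four : (sI : Matrix.SpecialLinearGroup (Fin 2) F) ^ 4 = 1 := by
  apply Subtype.ext
  show (mI : Matrix (Fin 2) (Fin 2) F) ^ 4 = 1
  rw [show (4 : ℕ) = 2 + 2 from rfl, pow_add, pow_two, mI_sq]
  simp

theorem sJ_pow_four (a b : F) (h : a ^ 2 + b ^ 2 = -1) : sJ a b h ^ 4 = 1 := by
  apply Subtype.ext
  show mJ a b ^ 4 = 1
  rw [show (4 : ℕ) = 2 + 2 from rfl, pow_add, pow_two, mJ_sq a b h]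
  simp

theorem sIJI (a b : F) (h : a ^ 2 + b ^ 2 = -1) : sI * sJ a b h * sI = sJ a b h :=
  Subtype.ext (mIJI a b)

theorem sIJ_ne (a b : F) (h : a ^ 2 + b ^ 2 = -1) (h2 : (2 : F) ≠ 0) :
    sI * sJ a b h ≠ sJ a b h * sI := by
  intro heq
  exact mIJ_ne a b h h2 (congrArg Subtype.val heq)

/-- The quaternion group `⟨I, J⟩`. -/
def Q8 (a b : F) (h : a ^ 2 + b ^ 2 = -1) : Subgroup (Matrix.SpecialLinearGroup (Fin 2) F) :=
  Subgroup.zpowers sI ⊔ Subgroup.zpowers (sJ a b h)

theorem isPGroup_zpowers_of_pow_four {G : Type*} [Group G] (g : G) (hg : g ^ 4 = 1) :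
    IsPGroup 2 (Subgroup.zpowers g) := by
  intro x
  refine ⟨2, ?_⟩
  obtain ⟨x, hx⟩ := x
  obtain ⟨k, rfl⟩ := Subgroup.mem_zpowers_iff.mp hx
  apply Subtype.ext
  simp only [Subgroup.coe_pow, Subgroup.coe_one]
  rw [← zpow_natCast, ← zpow_mul, mul_comm, zpow_mul, zpow_natCast]
  norm_num
  rw [hg, one_zpow]

theorem Q8_isPGroup (a b : F) (h : a ^ 2 + b ^ 2 = -1) : IsPGroup 2 (Q8 a b h) := by
  apply IsPGroup.to_sup_of_normal_left' (isPGroup_zpowers_of_pow_four _ sI_pow_four)
    (isPGroup_zpowers_of_pow_four _ (sJ_pow_four a b h))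
  rw [Subgroup.zpowers_le, Subgroup.mem_normalizer_iff_map_conj_eq]
  have h1 : (MulAut.conj (sJ a b h)) sI = (sI : Matrix.SpecialLinearGroup (Fin 2) F)⁻¹ := by
    rw [MulAut.conj_apply]
    have h2 := sIJI a b h
    calc sJ a b h * sI * (sJ a b h)⁻¹
        = sI⁻¹ * (sI * sJ a b h * sI) * (sJ a b h)⁻¹ := by group
      _ = sI⁻¹ := by rw [h2]; group
  have h3 : Subgroup.map (MulAut.conj (sJ a b h)).toMonoidHom (Subgroup.zpowers sI) =
      Subgroup.zpowers (sI : Matrix.SpecialLinearGroup (Fin 2) F) := by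
    rw [MonoidHom.map_zpowers]
    show Subgroup.zpowers ((MulAut.conj (sJ a b h)) sI) = _
    rw [h1, Subgroup.zpowers_inv]
  exact h3

/-! ### Block swaps -/

/-- `x ↦ x + a` on `[0, a)`, `x ↦ x - a` on `[a, 2a)`, identity elsewhere. -/
def swN (a x : ℕ) : ℕ := if x < a then x + a else if x < 2 * a then x - a else x

theorem swN_invol (a x : ℕ) : swN a (swN a x) = x := by
  simp only [swN]
  split_ifs <;> omega

theorem swN_lt (a n x : ℕ) (h : 2 * a ≤ n) (hx : x < n) : swN a x < n := by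
  simp only [swN]
  split_ifs <;> omega

/-- The block swap as a permutation of `Fin n`. -/
def sw (n a : ℕ) : Equiv.Perm (Fin n) :=
  if h : 2 * a ≤ n then
    Function.Involutive.toPerm (fun i : Fin n => ⟨swN a i, swN_lt a n i h i.2⟩) (by
      intro i
      apply Fin.ext
      exact swN_invol a i)
  else 1

theorem sw_apply (n a : ℕ) (h : 2 * a ≤ n) (i : Fin n) :
    ((sw n a i : Fin n) : ℕ) = swN a i := by
  simp only [sw, dif_pos h]
  rfl

theorem sw_mul_self (n a : ℕ) : sw n a * sw n a = 1 := by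
  by_cases h : 2 * a ≤ n
  · ext i
    rw [Equiv.Perm.mul_apply, sw_apply n a h, sw_apply n a h, swN_invol]
    rfl
  · simp [sw, h]

/-- Indicator of `[0, 2 ^ j)`. -/
def chi (F : Type*) [Field F] (n j : ℕ) : Fin n → F := fun i => if (i : ℕ) < 2 ^ j then 1 else 0

/-- A 2-subgroup of `Sp_{2n}(F)` whose `k`-th derived subgroup is nontrivial, `2 ^ (k-1) ≤ n`. -/
theorem exists_two_subgroup [Fintype F] (h2 : (2 : F) ≠ 0) (n k : ℕ) (hk : 1 ≤ k)
    (hkn : 2 ^ (k - 1) ≤ n) :
    ∃ H : Subgroup ↥(Matrix.symplecticGroup (Fin n) F), IsPGroup 2 H ∧ dser H k ≠ ⊥ := by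
  have hn : 0 < n := lt_of_lt_of_le (by positivity) hkn
  obtain ⟨a, b, hab⟩ : ∃ a b : F, a ^ 2 + b ^ 2 = -1 := by
    have hp : (ringChar F).Prime := CharP.char_is_prime F (ringChar F)
    have : NeZero (ringChar F) := ⟨hp.ne_zero⟩
    obtain ⟨a, b, hab⟩ := CharP.sq_add_sq F (ringChar F) (-1)
    exact ⟨a, b, by simpa using hab⟩
  let i₀ : Fin n := ⟨0, hn⟩
  let Q : Subgroup ↥(Matrix.symplecticGroup (Fin n) F) := (Q8 a b hab).map (phi0 i₀)
  let τ : ℕ → ↥(Matrix.symplecticGroup (Fin n) F) := fun j => permSp (sw n (2 ^ j))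
  let D : ℕ → Matrix (Fin n ⊕ Fin n) (Fin n ⊕ Fin n) F := fun j => Dg (chi F n j)
  have hQD : Q ≤ SuppSub (cSp n F) (D 0) := by
    rintro x ⟨A, -, rfl⟩
    have h1 : chi F n 0 = upd i₀ 1 0 := by
      funext i
      simp only [chi, upd, pow_zero]
      by_cases hi : i = i₀
      · simp [hi, i₀]
      · have : ¬ (i : ℕ) < 1 := by
          intro h
          apply hi
          apply Fin.ext
          simp only [i₀]
          omega
        simp [hi, this]
    show phi0 i₀ A ∈ SuppSub (cSp n F) (Dg (chi F n 0))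
    rw [h1]
    exact phi0_supp i₀ A
  have hQp : IsPGroup 2 Q := (Q8_isPGroup a b hab).map _
  have hQr : dser Q 1 ≠ ⊥ := by
    intro hbot
    have hI : phi0 i₀ sI ∈ Q :=
      Subgroup.mem_map_of_mem _ (Subgroup.mem_sup_left (Subgroup.mem_zpowers _))
    have hJ : phi0 i₀ (sJ a b hab) ∈ Q :=
      Subgroup.mem_map_of_mem _ (Subgroup.mem_sup_right (Subgroup.mem_zpowers _))
    have h1 : ⁅phi0 i₀ sI, phi0 i₀ (sJ a b hab)⁆ ∈ dser Q 1 :=
      Subgroup.commutator_mem_commutator hI hJ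
    rw [hbot, Subgroup.mem_bot, commutatorElement_eq_one_iff_commute] at h1
    have h3 : phi0 i₀ (sI * sJ a b hab) = phi0 i₀ (sJ a b hab * sI) := by
      rw [map_mul, map_mul]
      exact h1.eq
    exact sIJ_ne a b hab h2 (phi0_injective i₀ h3)
  have hpow : ∀ j < k - 1, 2 * 2 ^ j ≤ n := by
    intro j hj
    calc 2 * 2 ^ j = 2 ^ (j + 1) := by ring
      _ ≤ 2 ^ (k - 1) := Nat.pow_le_pow_right (by norm_num) (by omega)
      _ ≤ n := hkn
  have hτp : ∀ j < k - 1, τ j ^ 2 = 1 := by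
    intro j _
    rw [pow_two]
    exact permSp_mul_self _ (sw_mul_self n _)
  have hτD : ∀ j < k - 1, τ j ∈ SuppSub (cSp n F) (D (j + 1)) := by
    intro j hj
    apply permSp_supp
    · intro i
      simp only [chi]
      split_ifs <;> simp
    · intro i hi
      simp only [chi] at hi
      have hi' : ¬ (i : ℕ) < 2 ^ (j + 1) := by
        intro h
        rw [if_pos h] at hi
        exact one_ne_zero hi
      apply Fin.ext
      rw [sw_apply n _ (hpow j hj)]
      simp only [swN]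
      have : 2 ^ (j + 1) = 2 * 2 ^ j := by ring
      split_ifs <;> omega
  have hmono : ∀ j < k - 1, D (j + 1) * D j = D j ∧ D j * D (j + 1) = D j := by
    intro j _
    have hle : 2 ^ j ≤ 2 ^ (j + 1) := Nat.pow_le_pow_right (by norm_num) (by omega)
    have key : ∀ i : Fin n, chi F n (j + 1) i * chi F n j i = chi F n j i := by
      intro i
      simp only [chi]
      split_ifs <;> first | omega | simp
    constructor
    · apply diag_mul_diag_eq
      rintro (i | i) <;> exact key i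
    · show Matrix.diagonal _ * Matrix.diagonal _ = Matrix.diagonal _
      rw [Matrix.diagonal_mul_diagonal]
      congr 1
      funext u
      rcases u with i | i <;> simp only [Sum.elim_inl, Sum.elim_inr] <;> rw [mul_comm] <;>
        exact key i
  have horth : ∀ j < k - 1, ∀ i i' : ℕ, i < 2 → i' < 2 → i ≠ i' →
      (cSp n F (τ j ^ i) * D j * cSp n F ((τ j ^ i)⁻¹)) *
        (cSp n F (τ j ^ i') * D j * cSp n F ((τ j ^ i')⁻¹)) = 0 := by
    intro j hj i i' hi hi' hii'
    have hconj : cSp n F (τ j) * D j * cSp n F (τ j)⁻¹ = Dg (chi F n j ∘ sw n (2 ^ j)) :=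
      permSp_conj _ (sw_mul_self n _) _
    have key : ∀ i : Fin n, chi F n j i * chi F n j (sw n (2 ^ j) i) = 0 := by
      intro i
      simp only [chi]
      by_cases h1 : (i : ℕ) < 2 ^ j
      · have : ¬ ((sw n (2 ^ j) i : Fin n) : ℕ) < 2 ^ j := by
          rw [sw_apply n _ (hpow j hj)]
          simp only [swN]
          rw [if_pos h1]
          omega
        rw [if_neg this, mul_zero]
      · rw [if_neg h1, zero_mul]
    have hz : ∀ u : Fin n ⊕ Fin n, Sum.elim (chi F n j) (chi F n j) u *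
        Sum.elim (chi F n j ∘ sw n (2 ^ j)) (chi F n j ∘ sw n (2 ^ j)) u = 0 := by
      rintro (i | i) <;> exact key i
    interval_cases i <;> interval_cases i'
    · exact absurd rfl hii'
    · simp only [pow_zero, pow_one, map_one, one_mul, inv_one, mul_one]
      rw [hconj]
      exact diag_mul_diag_eq_zero _ _ hz
    · simp only [pow_zero, pow_one, map_one, one_mul, inv_one, mul_one]
      rw [hconj]
      exact diag_mul_diag_eq_zero _ _ (fun u => by rw [mul_comm]; exact hz u)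
    · exact absurd rfl hii'
  obtain ⟨-, h2', h3'⟩ := tower_spec (cSp n F) cSp_injective 2 Q τ D 1 (k - 1) hQD hQp hQr
    hτp hτD hmono horth (k - 1) le_rfl
  refine ⟨tower Q τ (k - 1), h2', ?_⟩
  have : 1 + (k - 1) = k := by omega
  rwa [this] at h3'

end Cfsg.Agent.H76.SpTower
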