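import Mathlib
import Cfsg.Agent.H76.SylowBasics

set_option autoImplicit false

namespace Cfsg.Agent.H76

open Subgroup

/-- If `H` normalizes `N`, then `[HN : H] = [N : H ∩ N]`. -/
theorem relIndex_sup_of_le_normalizer {G : Type*} [Group G] [Finite G]
    (H N : Subgroup G) (hLE : H ≤ normalizer (N : Set G)) :
    H.relIndex (H ⊔ N) = H.relIndex N := by
  have e0 : N.relIndex (H ⊔ N) = N.relIndex H := by
    have i1 := Subgroup.normal_subgroupOf_of_le_normalizer hLE
    have i2 := Subgroup.normal_subgroupOf_sup_of_le_normalizer hLE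
    exact Nat.card_congr (QuotientGroup.quotientInfEquivProdNormalizerQuotient H N hLE).toEquiv.symm
  have e1 : Nat.card ↥(H ⊓ N) * H.relIndex N = Nat.card N := by
    have := Subgroup.relIndex_mul_relIndex (⊥ : Subgroup G) (H ⊓ N) N bot_le inf_le_right
    rwa [Subgroup.relIndex_bot_left, Subgroup.relIndex_bot_left, Subgroup.inf_relIndex_right] at this
  have e2 : Nat.card ↥(H ⊓ N) * N.relIndex H = Nat.card H := by
    have := Subgroup.relIndex_mul_relIndex (⊥ : Subgroup G) (H ⊓ N) H bot_le inf_le_left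
    rwa [Subgroup.relIndex_bot_left, Subgroup.relIndex_bot_left, Subgroup.inf_relIndex_left] at this
  have e3 : Nat.card H * H.relIndex (H ⊔ N) = Nat.card ↥(H ⊔ N) := by
    have := Subgroup.relIndex_mul_relIndex (⊥ : Subgroup G) H (H ⊔ N) bot_le le_sup_left
    rwa [Subgroup.relIndex_bot_left, Subgroup.relIndex_bot_left] at this
  have e4 : Nat.card N * N.relIndex H = Nat.card ↥(H ⊔ N) := by
    have := Subgroup.relIndex_mul_relIndex (⊥ : Subgroup G) N (H ⊔ N) bot_le le_sup_right
    rwa [Subgroup.relIndex_bot_left, Subgroup.relIndex_bot_left, e0] at this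
  have hpos : 0 < Nat.card H := Nat.card_pos
  have : Nat.card H * H.relIndex (H ⊔ N) = Nat.card H * H.relIndex N := by
    rw [e3, ← e4, ← e1, ← e2]; ring
  exact Nat.eq_of_mul_eq_mul_left hpos this

/-- The number of Sylow `p`-subgroups of a subgroup `T` containing the Sylow `p`-subgroup `P` of
`G` is `[T : N_T(P)]`. -/
theorem card_sylow_subgroup {G : Type*} [Group G] [Finite G] {p : ℕ} [Fact p.Prime]
    (P : Sylow p G) (T : Subgroup G) (hPT : (P : Subgroup G) ≤ T) :
    Nat.card (Sylow p T) = (normalizer ((P : Subgroup G) : Set G)).relIndex T := by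
  rw [Sylow.card_eq_index_normalizer (P.subtype hPT)]
  show (normalizer (((P : Subgroup G).subgroupOf T : Subgroup T) : Set T)).index = _
  rw [← Subgroup.subgroupOf_normalizer_eq hPT]
  rfl

/-- Frattini argument: if `T` contains the Sylow `p`-subgroup `P` of `G`, then
`N_G(T) ≤ N_G(P) T`. -/
theorem normalizer_le_sup_of_sylow_le {G : Type*} [Group G] [Finite G] {p : ℕ} [Fact p.Prime]
    (P : Sylow p G) (T : Subgroup G) (hPT : (P : Subgroup G) ≤ T) :
    normalizer (T : Set G) ≤ normalizer ((P : Subgroup G) : Set G) ⊔ T := by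
  intro g hg
  have hgP : ((g • P : Sylow p G) : Subgroup G) ≤ T := by
    intro y hy
    rw [Sylow.coe_subgroup_smul] at hy
    obtain ⟨x, hx, rfl⟩ := hy
    exact (Subgroup.mem_normalizer_iff.mp hg x).mp (hPT hx)
  obtain ⟨t, ht⟩ := MulAction.exists_smul_eq T ((g • P).subtype hgP) (P.subtype hPT)
  rw [Sylow.smul_subtype] at ht
  have ht' : (t : G) • (g • P) = P := Sylow.subtype_injective ht
  rw [← mul_smul] at ht'
  have h1 : (t : G) * g ∈ normalizer ((P : Subgroup G) : Set G) :=
    Sylow.smul_eq_iff_mem_normalizer.mp ht'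
  have h2 : g = (t : G)⁻¹ * ((t : G) * g) := by group
  rw [h2, sup_comm]
  exact Subgroup.mul_mem_sup (T.inv_mem t.2) h1

/-- The number of Sylow `p`-subgroups of `G ⧸ K` is `[G : N_G(PK)]`. -/
theorem card_sylow_quotient {G : Type*} [Group G] [Finite G] {p : ℕ} [Fact p.Prime]
    (K : Subgroup G) [K.Normal] (P : Sylow p G) :
    Nat.card (Sylow p (G ⧸ K)) = (normalizer (((P : Subgroup G) ⊔ K : Subgroup G) : Set G)).index := by
  have hπ : Function.Surjective (QuotientGroup.mk' K) := QuotientGroup.mk'_surjective K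
  rw [Sylow.card_eq_index_normalizer (P.mapSurjective hπ)]
  rw [← Subgroup.index_comap_of_surjective _ hπ]
  show ((normalizer (((P : Subgroup G).map (QuotientGroup.mk' K) : Subgroup (G ⧸ K)) :
    Set (G ⧸ K))).comap (QuotientGroup.mk' K)).index = _
  rw [Subgroup.comap_normalizer_eq_of_surjective _ hπ, Subgroup.comap_map_eq,
    QuotientGroup.ker_mk']

/-- `n_p(G) = n_p(G/K) · n_p(PK)` for a normal subgroup `K` and a Sylow `p`-subgroup `P`. -/
theorem card_sylow_eq_mul {G : Type*} [Group G] [Finite G] {p : ℕ} [Fact p.Prime]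
    (K : Subgroup G) [K.Normal] (P : Sylow p G) :
    Nat.card (Sylow p G) =
      Nat.card (Sylow p (G ⧸ K)) * Nat.card (Sylow p ↥((P : Subgroup G) ⊔ K)) := by
  set T : Subgroup G := (P : Subgroup G) ⊔ K with hT
  have hPT : (P : Subgroup G) ≤ T := le_sup_left
  have h1 : normalizer ((P : Subgroup G) : Set G) ≤ normalizer (T : Set G) :=
    Subgroup.normalizer_le_normalizer_sup_normal
  have h2 : normalizer ((P : Subgroup G) : Set G) ⊔ T = normalizer (T : Set G) :=
    le_antisymm (sup_le h1 Subgroup.le_normalizer) (normalizer_le_sup_of_sylow_le P T hPT)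
  rw [card_sylow_quotient K P, card_sylow_subgroup P T hPT, Sylow.card_eq_index_normalizer P,
    ← relIndex_sup_of_le_normalizer _ T h1, h2, mul_comm]
  exact (Subgroup.relIndex_mul_index h1).symm

/-- A normal subgroup containing a Sylow `p`-subgroup of `G` has as many Sylow `p`-subgroups
as `G`. -/
theorem card_sylow_of_normal_le {G : Type*} [Group G] [Finite G] {p : ℕ} [Fact p.Prime]
    (P : Sylow p G) (T : Subgroup G) [T.Normal] (hPT : (P : Subgroup G) ≤ T) :
    Nat.card (Sylow p T) = Nat.card (Sylow p G) := by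
  have hTn : normalizer (T : Set G) = ⊤ := Subgroup.normalizer_eq_top_iff.mpr inferInstance
  have h1 : normalizer ((P : Subgroup G) : Set G) ≤ normalizer (T : Set G) := by
    rw [hTn]; exact le_top
  have h2 : normalizer ((P : Subgroup G) : Set G) ⊔ T = ⊤ := by
    apply le_antisymm le_top
    have := normalizer_le_sup_of_sylow_le P T hPT
    rwa [hTn] at this
  rw [card_sylow_subgroup P T hPT, Sylow.card_eq_index_normalizer P,
    ← relIndex_sup_of_le_normalizer _ T h1, h2, Subgroup.relIndex_top_right]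
  rfl

/-- If `P ≤ T ≤ N_G(P)` then `T` has a unique Sylow `p`-subgroup. -/
theorem card_sylow_eq_one_of_le_normalizer {G : Type*} [Group G] [Finite G] {p : ℕ}
    [Fact p.Prime] (P : Sylow p G) (T : Subgroup G) (hPT : (P : Subgroup G) ≤ T)
    (hT : T ≤ normalizer ((P : Subgroup G) : Set G)) :
    Nat.card (Sylow p T) = 1 := by
  rw [card_sylow_subgroup P T hPT]
  exact Subgroup.relIndex_eq_one.mpr hT

end Cfsg.Agent.H76
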