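import Mathlib
import Cfsg.Agent.H76.LinDer
import Cfsg.Agent.H52.Frattini
import Cfsg.Agent.H3.PGroup
import Cfsg.Agent.H11.AbNormalCyclic
import Cfsg.Agent.H25.NormFour

/-!
# Frattini index of finite linear `2`-groups in odd characteristic

A finite `2`-group acting faithfully on an `n`-dimensional space over a field of
characteristic `≠ 2` has Frattini quotient of order at most `2 ^ (2 n - 1)`
(`2 ^ (3 n / 2 - 1)` over the field with three elements, `n ≥ 2`).
-/

set_option autoImplicit false

namespace Cfsg.Agent.H76.TwoGen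

open Cfsg.Agent.H76.LinDer
open scoped commutatorElement

section frattini

variable {P : Type*} [Group P] [Finite P] {p : ℕ} [Fact p.Prime]

/-- `Φ(K) ≤ Φ(P)` for a subgroup `K` of a `p`-group `P`. -/
theorem frattini_le_subgroupOf (hP : IsPGroup p P) (K : Subgroup P) :
    frattini K ≤ (frattini P).subgroupOf K := by
  apply Cfsg.Agent.H52.frattini_le_of_comm_pow (p := p) ((frattini P).subgroupOf K)
  · intro a b
    rw [Subgroup.mem_subgroupOf]
    have h1 : ((⁅a, b⁆ : K) : P) = ⁅(a : P), (b : P)⁆ := by
      simp [commutatorElement_def]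
    rw [h1]
    apply Cfsg.Agent.H3.commutator_le_frattini hP
    exact Subgroup.commutator_mem_commutator (Subgroup.mem_top _) (Subgroup.mem_top _)
  · intro x
    rw [Subgroup.mem_subgroupOf]
    have := Cfsg.Agent.H3.pow_mem_frattini hP (x : P)
    simpa using this

/-- `[P : Φ(P)] ≤ [P : K] [K : Φ(K)]`. -/
theorem index_frattini_le_of_subgroup (hP : IsPGroup p P) (K : Subgroup P) :
    (frattini P).index ≤ K.index * (frattini K).index := by
  have h1 : (frattini K).map K.subtype ≤ frattini P := by
    rintro x ⟨y, hy, rfl⟩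
    exact Subgroup.mem_subgroupOf.mp (frattini_le_subgroupOf hP K hy)
  have h2 : ((frattini K).map K.subtype).index = (frattini K).index * K.index :=
    Subgroup.index_map_subtype _
  have h3 : (frattini P).index ≤ ((frattini K).map K.subtype).index :=
    Nat.le_of_dvd (Nat.pos_of_ne_zero Subgroup.index_ne_zero_of_finite)
      (Subgroup.index_dvd_of_le h1)
  rw [h2, mul_comm] at h3
  exact h3

/-- `Φ(P / K) ≤ Φ(P) K / K`. -/
theorem comap_frattini_quotient_le (hP : IsPGroup p P) (K : Subgroup P) [K.Normal] :
    (frattini (P ⧸ K)).comap (QuotientGroup.mk' K) ≤ frattini P ⊔ K := by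
  have hN : ((frattini P ⊔ K).map (QuotientGroup.mk' K)).Normal :=
    Subgroup.Normal.map inferInstance _ (QuotientGroup.mk'_surjective K)
  have h1 : frattini (P ⧸ K) ≤ (frattini P ⊔ K).map (QuotientGroup.mk' K) := by
    apply Cfsg.Agent.H52.frattini_le_of_comm_pow (p := p)
    · intro a b
      obtain ⟨a, rfl⟩ := QuotientGroup.mk_surjective a
      obtain ⟨b, rfl⟩ := QuotientGroup.mk_surjective b
      refine ⟨⁅a, b⁆, ?_, ?_⟩
      · apply Subgroup.mem_sup_left
        apply Cfsg.Agent.H3.commutator_le_frattini hP
        exact Subgroup.commutator_mem_commutator (Subgroup.mem_top _) (Subgroup.mem_top _)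
      · simp [commutatorElement_def]
    · intro x
      obtain ⟨x, rfl⟩ := QuotientGroup.mk_surjective x
      exact ⟨x ^ p, Subgroup.mem_sup_left (Cfsg.Agent.H3.pow_mem_frattini hP x), rfl⟩
  intro x hx
  rw [Subgroup.mem_comap] at hx
  obtain ⟨y, hy, hxy⟩ := h1 hx
  have h2 : y⁻¹ * x ∈ K := by
    rw [← QuotientGroup.eq]
    exact hxy
  have h3 : x = y * (y⁻¹ * x) := by group
  rw [h3]
  exact Subgroup.mul_mem _ hy (Subgroup.mem_sup_right h2)

/-- `[P : Φ(P)] ≤ [P/K : Φ(P/K)] [K : Φ(K)]`. -/
theorem index_frattini_le_of_normal (hP : IsPGroup p P) (K : Subgroup P) [K.Normal] :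
    (frattini P).index ≤ (frattini (P ⧸ K)).index * (frattini K).index := by
  have hF : (frattini P).Normal := inferInstance
  have h1 : (frattini P).index = (frattini P).relIndex (frattini P ⊔ K) * (frattini P ⊔ K).index :=
    (Subgroup.relIndex_mul_index le_sup_left).symm
  have h2 : (frattini P).relIndex (frattini P ⊔ K) = (frattini P).relIndex K :=
    Subgroup.relIndex_sup_left _ _
  have h3 : (frattini P).relIndex K ≤ (frattini K).index := by
    show ((frattini P).subgroupOf K).index ≤ _
    exact Nat.le_of_dvd (Nat.pos_of_ne_zero Subgroup.index_ne_zero_of_finite)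
      (Subgroup.index_dvd_of_le (frattini_le_subgroupOf hP K))
  have h4 : (frattini P ⊔ K).index ≤ (frattini (P ⧸ K)).index := by
    have h5 := Subgroup.index_comap_of_surjective (frattini (P ⧸ K))
      (QuotientGroup.mk'_surjective K)
    rw [← h5]
    exact Nat.le_of_dvd (Nat.pos_of_ne_zero Subgroup.index_ne_zero_of_finite)
      (Subgroup.index_dvd_of_le (comap_frattini_quotient_le hP K))
  rw [h1, h2, mul_comm]
  exact Nat.mul_le_mul h4 h3

end frattini

section cyc

variable {P : Type*} [Group P] [Finite P]

theorem index_frattini_le_two_of_cyclic (hP : IsPGroup 2 P) (hc : IsCyclic P) :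
    (frattini P).index ≤ 2 := by
  classical
  have : Fact (Nat.Prime 2) := ⟨Nat.prime_two⟩
  have := Fintype.ofFinite P
  have hcomm : ∀ a b : P, a * b = b * a := fun a b => IsCyclic.commGroup.mul_comm a b
  let sq : P →* P :=
    { toFun := fun x => x * x
      map_one' := by simp
      map_mul' := fun a b => by
        calc a * b * (a * b) = a * (b * a) * b := by group
          _ = a * (a * b) * b := by rw [hcomm b a]
          _ = a * a * (b * b) := by group }
  have hr : sq.range ≤ frattini P := by
    rintro _ ⟨x, rfl⟩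
    have := Cfsg.Agent.H3.pow_mem_frattini hP x
    rwa [pow_two] at this
  have hk : Nat.card sq.ker ≤ 2 := by
    have h1 := IsCyclic.card_pow_eq_one_le (α := P) (n := 2) (by norm_num)
    have h2 : Nat.card sq.ker = Nat.card {x : P // x ^ 2 = 1} :=
      Nat.card_congr (Equiv.subtypeEquivRight (fun x => by
        rw [MonoidHom.mem_ker, pow_two]; rfl))
    rw [h2, Nat.card_eq_fintype_card, Fintype.card_subtype]
    exact h1
  have h3 := Subgroup.card_mul_index sq.range
  have h4 := Subgroup.card_mul_index sq.ker
  have h5 := Subgroup.index_ker sq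
  have h6 : sq.range.index = Nat.card sq.ker := by
    rw [h5] at h4
    have hpos : 0 < Nat.card sq.range := Nat.card_pos
    have : Nat.card sq.range * sq.range.index = Nat.card sq.range * Nat.card sq.ker := by
      rw [h3, mul_comm, h4]
    exact Nat.eq_of_mul_eq_mul_left hpos this
  have h7 : (frattini P).index ≤ sq.range.index :=
    Nat.le_of_dvd (Nat.pos_of_ne_zero Subgroup.index_ne_zero_of_finite)
      (Subgroup.index_dvd_of_le hr)
  omega

theorem index_frattini_le_four_of_order (hP : IsPGroup 2 P) (c : P)
    (hc : 2 * orderOf c = Nat.card P) : (frattini P).index ≤ 4 := by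
  have : Fact (Nat.Prime 2) := ⟨Nat.prime_two⟩
  have h1 := index_frattini_le_of_subgroup hP (Subgroup.zpowers c)
  have h2 : (Subgroup.zpowers c).index = 2 := by
    have h3 := Subgroup.card_mul_index (Subgroup.zpowers c)
    rw [Nat.card_zpowers, ← hc] at h3
    have h4 := orderOf_pos c
    exact Nat.eq_of_mul_eq_mul_left h4 (by rw [h3, mul_comm])
  have h5 : (frattini (Subgroup.zpowers c)).index ≤ 2 :=
    index_frattini_le_two_of_cyclic (hP.to_subgroup _) inferInstance
  rw [h2] at h1
  calc (frattini P).index ≤ 2 * (frattini (Subgroup.zpowers c)).index := h1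
    _ ≤ 2 * 2 := Nat.mul_le_mul_left 2 h5

theorem exists_half_order (hP : IsPGroup 2 P)
    (hn : ∀ A : Subgroup P, A.Normal → IsMulCommutative A → IsCyclic A) (hnc : ¬ IsCyclic P) :
    ∃ c : P, 2 * orderOf c = Nat.card P := by
  have : Fact (Nat.Prime 2) := ⟨Nat.prime_two⟩
  obtain ⟨-, hcases⟩ := Cfsg.Agent.H11.abelian_normal_cyclic_main 2 hP hn hnc
  rcases hcases with ⟨n, ⟨e⟩⟩ | ⟨n, -, ⟨e⟩⟩ | hqd
  · have hord : orderOf (e.symm (QuaternionGroup.a 1)) = 2 * n := by
      rw [MulEquiv.orderOf_eq, QuaternionGroup.orderOf_a_one]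
    have hn0 : n ≠ 0 := by
      rintro rfl
      have := orderOf_pos (e.symm (QuaternionGroup.a 1))
      omega
    have : NeZero n := ⟨hn0⟩
    refine ⟨e.symm (QuaternionGroup.a 1), ?_⟩
    rw [hord, Nat.card_congr e.toEquiv, Nat.card_eq_fintype_card, QuaternionGroup.card]
    ring
  · have hord : orderOf (e.symm (DihedralGroup.r 1)) = n := by
      rw [MulEquiv.orderOf_eq, DihedralGroup.orderOf_r_one]
    refine ⟨e.symm (DihedralGroup.r 1), ?_⟩
    rw [hord, Nat.card_congr e.toEquiv, DihedralGroup.nat_card]
  · obtain ⟨n, -, hcard, x, y, hx, -, -⟩ := hqd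
    refine ⟨x, ?_⟩
    rw [hx, hcard, pow_succ]
    ring

end cyc

section lin

variable {F : Type*} [Field F] {V : Type*} [AddCommGroup V] [Module F V]

theorem end_comm_of_finrank_one (hV : Module.finrank F V = 1) (f g : Module.End F V) :
    f * g = g * f := by
  obtain ⟨v₀, -, hspan⟩ := finrank_eq_one_iff'.mp hV
  obtain ⟨a, ha⟩ := hspan (f v₀)
  obtain ⟨b, hb⟩ := hspan (g v₀)
  ext w
  obtain ⟨c, rfl⟩ := hspan w
  have e1 : f (g (c • v₀)) = (c * b * a) • v₀ := by
    rw [map_smul, ← hb, map_smul, map_smul, ← ha, smul_smul, smul_smul]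
  have e2 : g (f (c • v₀)) = (c * a * b) • v₀ := by
    rw [map_smul, ← ha, map_smul, map_smul, ← hb, smul_smul, smul_smul]
  rw [Module.End.mul_apply, Module.End.mul_apply, e1, e2]
  congr 1
  ring

variable {P : Type*} [Group P]

theorem kerLift_inj {M : Type*} [Monoid M] (φ : P →* M) :
    Function.Injective (QuotientGroup.lift φ.ker φ (le_refl _)) := by
  intro a b hab
  obtain ⟨g, rfl⟩ := QuotientGroup.mk_surjective a
  obtain ⟨h, rfl⟩ := QuotientGroup.mk_surjective b
  have hab' : φ g = φ h := hab
  rw [QuotientGroup.eq]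
  show g⁻¹ * h ∈ φ.ker
  rw [MonoidHom.mem_ker, map_mul, ← hab', ← map_mul, inv_mul_cancel, map_one]

theorem inj_second (ρ : P →* Module.End F V) (hinj : Function.Injective ρ)
    (W W' : Submodule F V) (hW : Inv ρ W) (hW' : Inv ρ W') (hc : IsCompl W W') :
    Function.Injective ((res ρ W' hW').comp (res ρ W hW).ker.subtype) := by
  rw [injective_iff_map_eq_one]
  intro k hk
  apply Subtype.ext
  apply hinj
  show ρ (k : P) = ρ 1
  rw [map_one]
  have hx1 : res ρ W hW (k : P) = 1 := MonoidHom.mem_ker.mp k.2
  ext v
  rw [Module.End.one_apply]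
  have hv : v ∈ W ⊔ W' := by rw [hc.sup_eq_top]; exact Submodule.mem_top
  obtain ⟨w, hw, w', hw', rfl⟩ := Submodule.mem_sup.mp hv
  have e1 : ρ (k : P) w = w :=
    congrArg (fun f : Module.End F W => ((f ⟨w, hw⟩ : W) : V)) hx1
  have e2 : ρ (k : P) w' = w' :=
    congrArg (fun f : Module.End F W' => ((f ⟨w', hw'⟩ : W') : V)) hk
  show ρ (k : P) (w + w') = w + w'
  rw [map_add, e1, e2]

theorem card_le_two_of_line [Finite P] (hF : Nat.card F = 3) (hV : Module.finrank F V = 1)
    (φ : P →* Module.End F V) (hφ : Function.Injective φ) : Nat.card P ≤ 2 := by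
  classical
  have hfd : FiniteDimensional F V := Module.finite_of_finrank_eq_succ hV
  have hcardE : Nat.card (Module.End F V) = 3 := by
    rw [Module.natCard_eq_pow_finrank (K := F) (V := Module.End F V), hF,
      Module.finrank_linearMap, hV]
    norm_num
  have hfin : Finite (Module.End F V) := Nat.finite_of_card_ne_zero (by omega)
  have := Fintype.ofFinite (Module.End F V)
  have hnt : Nontrivial V := Module.nontrivial_of_finrank_eq_succ hV
  have hne : ∀ g : P, φ g ≠ 0 := by
    intro g h0
    have h1 : φ g * φ g⁻¹ = 1 := by rw [← map_mul, mul_inv_cancel, map_one]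
    rw [h0, zero_mul] at h1
    obtain ⟨x, hx⟩ := exists_ne (0 : V)
    apply hx
    have := congrArg (fun f : Module.End F V => f x) h1
    simpa using this.symm
  let ψ : P → {f : Module.End F V // ¬ f = 0} := fun g => ⟨φ g, hne g⟩
  have hψ : Function.Injective ψ := fun a b hab => hφ (congrArg Subtype.val hab)
  have h1 := Nat.card_le_card_of_injective ψ hψ
  have h2 : Nat.card {f : Module.End F V // ¬ f = 0} = 2 := by
    rw [Nat.card_eq_fintype_card, Fintype.card_subtype_compl, Fintype.card_subtype_eq,
      ← Nat.card_eq_fintype_card, hcardE]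
  omega

end lin

section main

universe u v w

variable {F : Type w} [Field F]

/-- Hypotheses on a potential function bounding the number of generators. -/
structure Pot (F : Type w) [Field F] (B : ℕ → ℕ) : Prop where
  one_le : ∀ n, 1 ≤ n → 1 ≤ B n
  two_le : ∀ n, 2 ≤ n → 2 ≤ B n
  add_le : ∀ a b, 1 ≤ a → 1 ≤ b → B a + B b ≤ B (a + b)
  dbl : ∀ k, 1 ≤ k → 1 + 2 * B k ≤ B (2 * k) ∨ (k = 1 ∧ Nat.card F = 3)

/-- The induction hypothesis. -/
def IHyp (F : Type w) [Field F] (B : ℕ → ℕ) (n : ℕ) : Prop :=
  ∀ m < n, 1 ≤ m → ∀ (V : Type u) [AddCommGroup V] [Module F V] [FiniteDimensional F V],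
    Module.finrank F V = m → ∀ (P : Type v) [Group P] [Finite P], IsPGroup 2 P →
      ∀ ρ : P →* Module.End F V, Function.Injective ρ → (frattini P).index ≤ 2 ^ B m

theorem red_step (B : ℕ → ℕ) (n : ℕ) (IH : IHyp.{u, v, w} F B n)
    {V : Type u} [AddCommGroup V] [Module F V] [FiniteDimensional F V]
    (hn : Module.finrank F V = n) {P : Type v} [Group P] [Finite P] (hP : IsPGroup 2 P)
    (ρ : P →* Module.End F V) (hinj : Function.Injective ρ) (W W' : Submodule F V)
    (hW : Inv ρ W) (hW' : Inv ρ W') (hc : IsCompl W W') (hW0 : W ≠ ⊥) (hW'0 : W' ≠ ⊥) :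
    (frattini P).index ≤ 2 ^ B (Module.finrank F W) * 2 ^ B (Module.finrank F W') := by
  have : Fact (Nat.Prime 2) := ⟨Nat.prime_two⟩
  have hsum := Submodule.finrank_add_eq_of_isCompl hc
  rw [hn] at hsum
  have hd : 0 < Module.finrank F W :=
    Module.finrank_pos_iff.mpr ((Submodule.nontrivial_iff_ne_bot).mpr hW0)
  have hd' : 0 < Module.finrank F W' :=
    Module.finrank_pos_iff.mpr ((Submodule.nontrivial_iff_ne_bot).mpr hW'0)
  have h1 : (frattini (P ⧸ (res ρ W hW).ker)).index ≤ 2 ^ B (Module.finrank F W) :=
    IH _ (by omega) hd W rfl (P ⧸ (res ρ W hW).ker) (hP.to_quotient _)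
      (QuotientGroup.lift (res ρ W hW).ker (res ρ W hW) (le_refl _)) (kerLift_inj _)
  have h2 : (frattini (res ρ W hW).ker).index ≤ 2 ^ B (Module.finrank F W') :=
    IH _ (by omega) hd' W' rfl (res ρ W hW).ker (hP.to_subgroup _)
      ((res ρ W' hW').comp (res ρ W hW).ker.subtype) (inj_second ρ hinj W W' hW hW' hc)
  exact le_trans (index_frattini_le_of_normal hP (res ρ W hW).ker) (Nat.mul_le_mul h1 h2)

theorem irr_step (h2 : (2 : F) ≠ 0) (B : ℕ → ℕ) (hB : Pot F B) (n : ℕ) (hn1 : 1 ≤ n)
    (IH : IHyp.{u, v, w} F B n)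
    {V : Type u} [AddCommGroup V] [Module F V] [FiniteDimensional F V]
    (hn : Module.finrank F V = n) {P : Type v} [Group P] [Finite P] (hP : IsPGroup 2 P)
    (ρ : P →* Module.End F V) (hinj : Function.Injective ρ) (hirr : Irr ρ) :
    (frattini P).index ≤ 2 ^ B n := by
  have : Fact (Nat.Prime 2) := ⟨Nat.prime_two⟩
  by_cases hna : ∀ A : Subgroup P, A.Normal → IsMulCommutative A → IsCyclic A
  · by_cases hcyc : IsCyclic P
    · calc (frattini P).index ≤ 2 := index_frattini_le_two_of_cyclic hP hcyc
        _ = 2 ^ 1 := rfl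
        _ ≤ 2 ^ B n := Nat.pow_le_pow_right (by norm_num) (hB.one_le n hn1)
    · obtain ⟨c, hc⟩ := exists_half_order hP hna hcyc
      have hn2 : 2 ≤ n := by
        by_contra hlt
        have hn1' : Module.finrank F V = 1 := by omega
        apply hcyc
        have hcomm : ∀ a b : P, a * b = b * a := by
          intro a b
          apply hinj
          rw [map_mul, map_mul]
          exact end_comm_of_finrank_one hn1' _ _
        have h1 : IsCyclic (⊤ : Subgroup P) :=
          hna ⊤ inferInstance ⟨⟨fun a b => Subtype.ext (hcomm a b)⟩⟩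
        exact isCyclic_of_surjective (Subgroup.topEquiv : (⊤ : Subgroup P) ≃* P)
          Subgroup.topEquiv.surjective
      calc (frattini P).index ≤ 4 := index_frattini_le_four_of_order hP c hc
        _ = 2 ^ 2 := rfl
        _ ≤ 2 ^ B n := Nat.pow_le_pow_right (by norm_num) (hB.two_le n hn2)
  · push Not at hna
    obtain ⟨A, hAn, hAc, hAnc⟩ := hna
    obtain ⟨z, v, hz1, hzz, hv1, hvv, hzv, -, hzc, hvc⟩ :=
      Cfsg.Agent.H25.exists_four_of_normal_abelian hP A hAn
        (fun a ha b hb => congrArg Subtype.val (hAc.is_comm.comm (⟨a, ha⟩ : A) ⟨b, hb⟩)) hAnc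
    have hzcen : z ∈ Subgroup.center P := by
      rw [Subgroup.mem_center_iff]
      intro g
      have := hzc g
      calc g * z = g * z * g⁻¹ * g := by group
        _ = z * g := by rw [this]
    have hfz : fixS ρ z = ⊥ := fixS_eq_bot_of_central ρ hinj hirr z hzcen hz1
    have hz : ∀ w : V, ρ z w = -w := by
      intro w
      have h1 : w + ρ z w ∈ fixS ρ z := by
        rw [mem_fixS, map_add, ← rho_mul_apply, hzz, map_one, Module.End.one_apply, add_comm]
      rw [hfz, Submodule.mem_bot] at h1
      exact eq_neg_of_add_eq_zero_right h1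
    have hv2 : ∀ w : V, ρ v (ρ v w) = w := by
      intro w
      rw [← rho_mul_apply, hvv, map_one, Module.End.one_apply]
    have hWm : ∀ w : V, w ∈ fixS ρ (z * v) ↔ ρ v w = -w := by
      intro w
      rw [mem_fixS, rho_mul_apply, hz]
      exact neg_eq_iff_eq_neg
    have ht : ∃ t : P, t * v * t⁻¹ = z * v := by
      by_contra hcon
      push Not at hcon
      have hall : ∀ g : P, g * v = v * g := by
        intro g
        rcases hvc g with h | h
        · calc g * v = g * v * g⁻¹ * g := by group
            _ = v * g := by rw [h]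
        · exact absurd h (hcon g)
      rcases hirr _ (inv_fixS_of_commute ρ v hall) with h | h
      · apply hzv
        apply hinj
        ext w
        have h1 : w + ρ v w ∈ fixS ρ v := by
          rw [mem_fixS, map_add, hv2, add_comm]
        rw [h, Submodule.mem_bot] at h1
        rw [hz, eq_neg_of_add_eq_zero_right h1]
      · apply hv1
        apply hinj
        rw [map_one]
        ext w
        have : w ∈ fixS ρ v := h ▸ Submodule.mem_top
        rw [Module.End.one_apply]
        exact mem_fixS.mp this
    obtain ⟨t, ht⟩ := ht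
    have hcompl : IsCompl (fixS ρ v) (fixS ρ (z * v)) := by
      constructor
      · rw [Submodule.disjoint_def]
        intro w hw hw'
        have e1 := mem_fixS.mp hw
        have e2 := (hWm w).mp hw'
        have e4 : w + w = 0 := by
          nth_rewrite 1 [e1.symm.trans e2]
          exact neg_add_cancel w
        have e3 : (2 : F) • w = 0 := by rw [two_smul]; exact e4
        exact (smul_eq_zero.mp e3).resolve_left h2
      · rw [codisjoint_iff, eq_top_iff]
        intro w _
        have e : w = (2 : F)⁻¹ • (w + ρ v w) + (2 : F)⁻¹ • (w - ρ v w) := by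
          rw [← smul_add]
          have : w + ρ v w + (w - ρ v w) = (2 : F) • w := by rw [two_smul]; abel
          rw [this, smul_smul, inv_mul_cancel₀ h2, one_smul]
        rw [e]
        apply Submodule.add_mem_sup
        · apply Submodule.smul_mem
          rw [mem_fixS, map_add, hv2, add_comm]
        · apply Submodule.smul_mem
          rw [hWm, map_sub, hv2]
          abel
    have hWp0 : fixS ρ v ≠ ⊥ := by
      intro h
      have h' : fixS ρ (z * v) = ⊤ := by
        have := hcompl.sup_eq_top
        rw [h, bot_sup_eq] at this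
        exact this
      have h1 : z * v = 1 := by
        apply hinj
        rw [map_one]
        ext w
        rw [Module.End.one_apply]
        exact mem_fixS.mp (h' ▸ Submodule.mem_top)
      apply hzv
      calc z = z * (v * v) := by rw [hvv, mul_one]
        _ = (z * v) * v := by group
        _ = v := by rw [h1, one_mul]
    have hWm0 : fixS ρ (z * v) ≠ ⊥ := by
      intro h
      have h' : fixS ρ v = ⊤ := by
        have := hcompl.sup_eq_top
        rw [h, sup_bot_eq] at this
        exact this
      apply hv1
      apply hinj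
      rw [map_one]
      ext w
      rw [Module.End.one_apply]
      exact mem_fixS.mp (h' ▸ Submodule.mem_top)
    have hdim : Module.finrank F (fixS ρ (z * v)) = Module.finrank F (fixS ρ v) := by
      rw [← ht]
      exact finrank_fixS_conj ρ t v
    have hsum := Submodule.finrank_add_eq_of_isCompl hcompl
    rw [hn, hdim] at hsum
    have hk1 : 1 ≤ Module.finrank F (fixS ρ v) :=
      Module.finrank_pos_iff.mpr ((Submodule.nontrivial_iff_ne_bot).mpr hWp0)
    have hn2k : n = 2 * Module.finrank F (fixS ρ v) := by omega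
    have hMmem : ∀ g : P, g ∈ Subgroup.centralizer ({v} : Set P) ↔ g * v = v * g := by
      intro g
      rw [Subgroup.mem_centralizer_iff]
      constructor
      · intro h
        exact (h v (Set.mem_singleton v)).symm
      · intro h y hy
        rw [Set.mem_singleton_iff] at hy
        rw [hy]
        exact h.symm
    have hMidx : (Subgroup.centralizer ({v} : Set P)).index ≤ 2 := by
      have hsurj : Function.Surjective (fun b : Bool =>
          if b then ((1 : P) : P ⧸ Subgroup.centralizer ({v} : Set P))
          else ((t : P) : P ⧸ Subgroup.centralizer ({v} : Set P))) := by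
        intro x
        obtain ⟨g, rfl⟩ := QuotientGroup.mk_surjective x
        rcases hvc g with h | h
        · refine ⟨true, ?_⟩
          simp only [if_true]
          rw [QuotientGroup.eq, inv_one, one_mul, hMmem]
          calc g * v = g * v * g⁻¹ * g := by group
            _ = v * g := by rw [h]
        · refine ⟨false, ?_⟩
          simp only [Bool.false_eq_true, if_false]
          rw [QuotientGroup.eq, hMmem]
          calc t⁻¹ * g * v = t⁻¹ * (g * v * g⁻¹) * g := by group
            _ = t⁻¹ * (t * v * t⁻¹) * g := by rw [h, ht]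
            _ = v * (t⁻¹ * g) := by group
      have := Nat.card_le_card_of_surjective _ hsurj
      have hb : Nat.card Bool = 2 := by simp
      rw [hb] at this
      exact this
    have hinjM : Function.Injective (ρ.comp (Subgroup.centralizer ({v} : Set P)).subtype) :=
      fun a b hab => Subtype.ext (hinj hab)
    have hInvp : Inv (ρ.comp (Subgroup.centralizer ({v} : Set P)).subtype) (fixS ρ v) := by
      intro g w hw
      rw [mem_fixS] at hw ⊢
      show ρ v (ρ (g : P) w) = ρ (g : P) w
      rw [← rho_mul_apply, ← (hMmem g).mp g.2, rho_mul_apply, hw]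
    have hInvm : Inv (ρ.comp (Subgroup.centralizer ({v} : Set P)).subtype)
        (fixS ρ (z * v)) := by
      intro g w hw
      rw [hWm] at hw ⊢
      show ρ v (ρ (g : P) w) = -(ρ (g : P) w)
      rw [← rho_mul_apply, ← (hMmem g).mp g.2, rho_mul_apply, hw, map_neg]
    have hPM := index_frattini_le_of_subgroup hP (Subgroup.centralizer ({v} : Set P))
    rcases hB.dbl _ hk1 with hd | ⟨hk1', hF3⟩
    · have hred := red_step B n IH hn (hP.to_subgroup (Subgroup.centralizer ({v} : Set P)))
        (ρ.comp (Subgroup.centralizer ({v} : Set P)).subtype) hinjM _ _ hInvp hInvm hcompl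
        hWp0 hWm0
      rw [hdim] at hred
      calc (frattini P).index
          ≤ (Subgroup.centralizer ({v} : Set P)).index *
            (frattini (Subgroup.centralizer ({v} : Set P))).index := hPM
        _ ≤ 2 * (2 ^ B (Module.finrank F (fixS ρ v)) * 2 ^ B (Module.finrank F (fixS ρ v))) :=
            Nat.mul_le_mul hMidx hred
        _ = 2 ^ (1 + 2 * B (Module.finrank F (fixS ρ v))) := by
            rw [pow_add, pow_one]
            congr 1
            rw [two_mul, pow_add]
        _ ≤ 2 ^ B (2 * Module.finrank F (fixS ρ v)) := Nat.pow_le_pow_right (by norm_num) hd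
        _ = 2 ^ B n := by rw [← hn2k]
    · -- the special case of two lines over the field with three elements
      have hn2 : n = 2 := by omega
      have hc1 : Nat.card ((Subgroup.centralizer ({v} : Set P)) ⧸
          (res (ρ.comp (Subgroup.centralizer ({v} : Set P)).subtype) (fixS ρ v) hInvp).ker) ≤ 2 :=
        card_le_two_of_line hF3 hk1' (QuotientGroup.lift _
          (res (ρ.comp (Subgroup.centralizer ({v} : Set P)).subtype) (fixS ρ v) hInvp) (le_refl _))
          (kerLift_inj _)
      have hc2 : Nat.card
          (res (ρ.comp (Subgroup.centralizer ({v} : Set P)).subtype) (fixS ρ v) hInvp).ker ≤ 2 :=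
        card_le_two_of_line hF3 (hdim.trans hk1') _
          (inj_second _ hinjM _ _ hInvp hInvm hcompl)
      have hcM : Nat.card (Subgroup.centralizer ({v} : Set P)) ≤ 4 := by
        rw [Subgroup.card_eq_card_quotient_mul_card_subgroup
          (res (ρ.comp (Subgroup.centralizer ({v} : Set P)).subtype) (fixS ρ v) hInvp).ker]
        exact le_trans (Nat.mul_le_mul hc1 hc2) (by norm_num)
      have hcP : Nat.card P ≤ 8 := by
        rw [← Subgroup.card_mul_index (Subgroup.centralizer ({v} : Set P))]
        exact le_trans (Nat.mul_le_mul hcM hMidx) (by norm_num)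
      have hzF : z ∈ frattini P := by
        apply Cfsg.Agent.H3.commutator_le_frattini hP
        have e : z = ⁅t, v⁆ := by
          rw [commutatorElement_def, ht]
          group
        rw [e]
        exact Subgroup.commutator_mem_commutator (Subgroup.mem_top _) (Subgroup.mem_top _)
      have hF1 : 1 < Nat.card (frattini P) := by
        rw [Subgroup.one_lt_card_iff_ne_bot]
        intro h
        rw [h, Subgroup.mem_bot] at hzF
        exact hz1 hzF
      have h5 := Subgroup.card_mul_index (frattini P)
      have h6 : (frattini P).index ≤ 4 := by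
        by_contra hcon
        push Not at hcon
        nlinarith
      calc (frattini P).index ≤ 4 := h6
        _ = 2 ^ 2 := rfl
        _ ≤ 2 ^ B n := Nat.pow_le_pow_right (by norm_num) (hB.two_le n (by omega))

theorem main (h2 : (2 : F) ≠ 0) (B : ℕ → ℕ) (hB : Pot F B) :
    ∀ (n : ℕ), 1 ≤ n → ∀ (V : Type u) [AddCommGroup V] [Module F V] [FiniteDimensional F V],
      Module.finrank F V = n → ∀ (P : Type v) [Group P] [Finite P], IsPGroup 2 P →
        ∀ ρ : P →* Module.End F V, Function.Injective ρ → (frattini P).index ≤ 2 ^ B n := by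
  intro n
  induction n using Nat.strong_induction_on with
  | _ n IH =>
    intro hn1 V _ _ _ hn P _ _ hP ρ hinj
    have IH' : IHyp.{u, v, w} F B n :=
      fun m hm hm1 V _ _ _ hV P _ _ hP' ρ' hinj' => IH m hm hm1 V hV P hP' ρ' hinj'
    by_cases hred : ∃ W : Submodule F V, Inv ρ W ∧ W ≠ ⊥ ∧ W ≠ ⊤
    · obtain ⟨W, hW, hW0, hW1⟩ := hred
      have hcard : (Nat.card P : F) ≠ 0 := by
        obtain ⟨k, hk⟩ := IsPGroup.iff_card.mp hP
        rw [hk, Nat.cast_pow]
        exact pow_ne_zero _ (by exact_mod_cast h2)
      obtain ⟨W', hW', hcompl⟩ := maschke ρ hcard W hW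
      have hW'0 : W' ≠ ⊥ := by
        intro h
        rw [h] at hcompl
        exact hW1 (eq_top_of_isCompl_bot hcompl)
      have hsum := Submodule.finrank_add_eq_of_isCompl hcompl
      rw [hn] at hsum
      have hd : 0 < Module.finrank F W :=
        Module.finrank_pos_iff.mpr ((Submodule.nontrivial_iff_ne_bot).mpr hW0)
      have hd' : 0 < Module.finrank F W' :=
        Module.finrank_pos_iff.mpr ((Submodule.nontrivial_iff_ne_bot).mpr hW'0)
      have h1 := red_step B n IH' hn hP ρ hinj W W' hW hW' hcompl hW0 hW'0
      calc (frattini P).index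
          ≤ 2 ^ B (Module.finrank F W) * 2 ^ B (Module.finrank F W') := h1
        _ = 2 ^ (B (Module.finrank F W) + B (Module.finrank F W')) := (pow_add _ _ _).symm
        _ ≤ 2 ^ B (Module.finrank F W + Module.finrank F W') :=
            Nat.pow_le_pow_right (by norm_num) (hB.add_le _ _ hd hd')
        _ = 2 ^ B n := by rw [hsum]
    · push Not at hred
      have hirr : Irr ρ := by
        intro W hW
        by_contra hcon
        push Not at hcon
        exact hcon.2 (hred W hW hcon.1)
      exact irr_step h2 B hB n hn1 IH' hn hP ρ hinj hirr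

end main

section pot

universe v w

theorem pot_general (F : Type w) [Field F] : Pot F (fun n => 2 * n - 1) where
  one_le := fun n hn => by omega
  two_le := fun n hn => by omega
  add_le := fun a b ha hb => by omega
  dbl := fun k hk => Or.inl (by omega)

theorem pot_three (F : Type w) [Field F] (hF : Nat.card F = 3) :
    Pot F (fun n => if n = 1 then 1 else 3 * n / 2 - 1) where
  one_le := fun n hn => by split_ifs <;> omega
  two_le := fun n hn => by split_ifs <;> omega
  add_le := fun a b ha hb => by split_ifs <;> omega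
  dbl := fun k hk => by
    by_cases h : k = 1
    · exact Or.inr ⟨h, hF⟩
    · left
      split_ifs <;> omega

theorem num_general (q n : ℕ) (hq : 5 ≤ q) (hn : 1 ≤ n) : 2 ^ (2 * n - 1) ≤ q ^ n - 1 := by
  have h1 : 2 * 2 ^ (2 * n - 1) = 4 ^ n := by
    rw [← pow_succ', show 2 * n - 1 + 1 = 2 * n by omega, pow_mul]
    norm_num
  have h2 : 4 ^ n ≤ q ^ n := Nat.pow_le_pow_left (by omega) n
  have h3 : 1 ≤ 2 ^ (2 * n - 1) := Nat.one_le_two_pow
  omega

theorem num_three : ∀ n, 2 ≤ n → 2 * 2 ^ (3 * n / 2 - 1) ≤ 3 ^ n := by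
  intro n
  induction n using Nat.strong_induction_on with
  | _ n ih =>
    intro hn
    by_cases h : n < 4
    · interval_cases n <;> norm_num
    · obtain ⟨m, rfl⟩ : ∃ m, n = m + 2 := ⟨n - 2, by omega⟩
      have h1 := ih m (by omega) (by omega)
      have e : 3 * (m + 2) / 2 - 1 = (3 * m / 2 - 1) + 3 := by omega
      rw [e, pow_add, pow_add]
      norm_num
      omega

/-- A finite `2`-subgroup of `GL_e(q)`, `q` an odd prime, has Frattini quotient of order at
most `q ^ e - 1`. -/
theorem frattini_index_le_card (q e : ℕ) [Fact q.Prime] (hq2 : q ≠ 2) (he : 1 ≤ e)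
    {P : Type v} [Group P] [Finite P] (hP : IsPGroup 2 P)
    (φ : P →* GL (Fin e) (ZMod q)) (hφ : Function.Injective φ) :
    (frattini P).index ≤ q ^ e - 1 := by
  have hq : q.Prime := Fact.out
  have h2 : (2 : ZMod q) ≠ 0 := by
    intro h
    have h' : ((2 : ℕ) : ZMod q) = 0 := by exact_mod_cast h
    rw [ZMod.natCast_eq_zero_iff] at h'
    exact hq2 ((Nat.prime_dvd_prime_iff_eq hq Nat.prime_two).mp h')
  let ρ : P →* Module.End (ZMod q) (Fin e → ZMod q) :=
    ((Matrix.toLinAlgEquiv' : Matrix (Fin e) (Fin e) (ZMod q) ≃ₐ[ZMod q] _) :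
      Matrix (Fin e) (Fin e) (ZMod q) →* _).comp ((Units.coeHom _).comp φ)
  have hinj : Function.Injective ρ := by
    intro a b hab
    apply hφ
    apply Units.ext
    exact (Matrix.toLinAlgEquiv' :
      Matrix (Fin e) (Fin e) (ZMod q) ≃ₐ[ZMod q] _).injective hab
  have hfr : Module.finrank (ZMod q) (Fin e → ZMod q) = e := Module.finrank_fin_fun (ZMod q)
  by_cases hq3 : q = 3
  · subst hq3
    have key := main h2 _ (pot_three (ZMod 3) (Nat.card_zmod 3)) e he (Fin e → ZMod 3) hfr
      P hP ρ hinj
    beta_reduce at key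
    by_cases he1 : e = 1
    · subst he1
      simpa using key
    · rw [if_neg he1] at key
      have := num_three e (by omega)
      have h3 : 1 ≤ 2 ^ (3 * e / 2 - 1) := Nat.one_le_two_pow
      omega
  · have hq5 : 5 ≤ q := by
      have h2' := hq.two_le
      have h4 : q ≠ 4 := by
        rintro rfl
        exact absurd hq (by norm_num)
      omega
    have key := main h2 _ (pot_general (ZMod q)) e he (Fin e → ZMod q) hfr P hP ρ hinj
    exact le_trans key (num_general q e hq5 he)

end pot

end Cfsg.Agent.H76.TwoGen
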